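import Mathlib
import Cfsg.Prelude.Def_Blocks
import Cfsg.Prelude.Def_CaseTheorems
import Cfsg.Prelude.Def_Transfer

/-!
# Gagola's theorem for solvable groups: statements of the pieces of the team project S4840 (helper59)

`G` solvable with an irreducible character nonzero on exactly two classes.  By S4835/S4837 there is
a unique minimal normal subgroup `N` (elementary abelian `p`-group), `G` is transitive on `N ∖ 1`
and the centralizers `C_G(x)`, `1 ≠ x ∈ N`, are Sylow `p`-subgroups.  Then `O_p(G) = C_G(N)` and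
`X = G ⧸ O_p(G)` is a solvable linear group on `V = N`, transitive on the nonzero vectors with
point stabilizers `p`-groups.  Huppert's theorem (S3360): `X` is semilinear or
`|V| ∈ {9, 25, 49, 121, 529, 81}`.

All statements are `Prop`-valued definitions (universe polymorphic), so that pieces can take each
other as hypotheses.
-/

set_option autoImplicit false

namespace Cfsg.Agent.H59.Gag

open Cfsg

universe u

/-- The group-theoretic situation produced by Gagola's lemmas (S4835, S4837). -/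
structure Dat (G : Type u) [Group G] (p : ℕ) (N : Subgroup G) : Prop where
  normal : N.Normal
  ne_bot : N ≠ ⊥
  minimal : ∀ K : Subgroup G, K.Normal → K ≠ ⊥ → N ≤ K
  elem : Cfsg.IsElementaryAbelian p N
  trans : ∀ x ∈ N, ∀ y ∈ N, x ≠ 1 → y ≠ 1 → ∃ g : G, g * x * g⁻¹ = y
  cent : ∀ x ∈ N, x ≠ 1 → ∃ P : Sylow p G, Subgroup.centralizer ({x} : Set G) = P

/-- The linear setting: `X` acts faithfully and linearly on the `𝔽_p`-space `V`, transitively on
the nonzero vectors, and the stabilizer of a nonzero vector consists of `p`-elements. -/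
structure Lin (X : Type u) [Group X] (p : ℕ) [Fact p.Prime] (V : Type u) [AddCommGroup V]
    [Module (ZMod p) V] (ρ : X →* (V ≃ₗ[ZMod p] V)) : Prop where
  inj : Function.Injective ρ
  trans : ∀ v w : V, v ≠ 0 → w ≠ 0 → ∃ g : X, ρ g v = w
  stab : ∀ v : V, v ≠ 0 → ∀ g : X, ρ g v = v → ∃ k : ℕ, g ^ (p ^ k) = 1

/-- The matrix version of `Lin` in dimension 2. -/
structure MatLin (X : Type u) [Group X] (p : ℕ) [Fact p.Prime]
    (ψ : X →* Matrix.GeneralLinearGroup (Fin 2) (ZMod p)) : Prop where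
  inj : Function.Injective ψ
  trans : ∀ v w : Fin 2 → ZMod p, v ≠ 0 → w ≠ 0 → ∃ g : X, (ψ g).val.mulVec v = w
  stab : ∀ v : Fin 2 → ZMod p, v ≠ 0 → ∀ g : X, (ψ g).val.mulVec v = v →
    ∃ k : ℕ, g ^ (p ^ k) = 1

/-- The conclusion: a normal `p`-complement and abelian Sylow `p`-subgroups. -/
def Concl (p : ℕ) (X : Type u) [Group X] : Prop :=
  Cfsg.HasNormalPComplement p X ∧ ∀ Q : Sylow p X, IsMulCommutative (Q : Subgroup X)

/-! ### Pieces on the group `G` -/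

/-- CORES: `O_q(G) ≠ 1` exactly for `q = p`. -/
def CoresStmt : Prop :=
  ∀ (G : Type u) [Group G] [Finite G] (p : ℕ) [Fact p.Prime] (N : Subgroup G), Dat G p N →
    ∀ q : ℕ, q.Prime → (Cfsg.pCore q G ≠ ⊥ ↔ q = p)

/-- CENT: `O_p(G) = C_G(N)`. -/
def CentStmt : Prop :=
  ∀ (G : Type u) [Group G] [Finite G] (p : ℕ) [Fact p.Prime] (N : Subgroup G), Dat G p N →
    Cfsg.pCore p G = Subgroup.centralizer (N : Set G)

/-- LIN0: the conjugation action of `G` on `N`, as a linear representation over `𝔽_p`. -/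
def Lin0Stmt : Prop :=
  ∀ (G : Type u) [Group G] [Finite G] (p : ℕ) [Fact p.Prime] (N : Subgroup G), Dat G p N →
    ∃ (V : Type u) (_ : AddCommGroup V) (_ : Module (ZMod p) V) (_ : Finite V) (_ : Nontrivial V)
      (ρ₀ : G →* (V ≃ₗ[ZMod p] V)),
      (∀ g : G, ρ₀ g = 1 ↔ g ∈ Subgroup.centralizer (N : Set G)) ∧
      (∀ v w : V, v ≠ 0 → w ≠ 0 → ∃ g : G, ρ₀ g v = w) ∧
      (∀ v : V, v ≠ 0 → ∀ g : G, ρ₀ g v = v → ∃ k : ℕ, g ^ (p ^ k) = 1)

/-- LINQ: passing to the quotient by the kernel. -/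
def LinQStmt : Prop :=
  ∀ (G : Type u) [Group G] (p : ℕ) [Fact p.Prime] (K : Subgroup G) [K.Normal] (V : Type u)
    [AddCommGroup V] [Module (ZMod p) V] (ρ₀ : G →* (V ≃ₗ[ZMod p] V)),
    (∀ g : G, ρ₀ g = 1 ↔ g ∈ K) →
    (∀ v w : V, v ≠ 0 → w ≠ 0 → ∃ g : G, ρ₀ g v = w) →
    (∀ v : V, v ≠ 0 → ∀ g : G, ρ₀ g v = v → ∃ k : ℕ, g ^ (p ^ k) = 1) →
    ∃ ρ : (G ⧸ K) →* (V ≃ₗ[ZMod p] V), Lin (G ⧸ K) p V ρ

/-! ### Pieces on the linear group `X` -/

/-- NPC: a normal `p'`-subgroup with abelian quotient gives the conclusion. -/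
def NpcStmt : Prop :=
  ∀ (X : Type u) [Group X] [Finite X] (p : ℕ) [Fact p.Prime] (A : Subgroup X), A.Normal →
    (Nat.card A).Coprime p → (∀ g h : X, g * h * g⁻¹ * h⁻¹ ∈ A) → Concl p X

/-- SEMI: a semilinear group has a normal `p'`-subgroup with abelian quotient. -/
def SemiStmt : Prop :=
  ∀ (X : Type u) [Group X] [Finite X] (p : ℕ) [Fact p.Prime] (V : Type u) [AddCommGroup V]
    [Module (ZMod p) V] [Finite V] [Nontrivial V] (ρ : X →* (V ≃ₗ[ZMod p] V)),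
    Function.Injective ρ →
    (∃ (F : Type) (_ : Field F) (_ : Fintype F) (e : V ≃+ F),
        ∀ g : X, ∃ (a : F) (σ : F ≃+* F), ∀ v : V, e (ρ g v) = a * σ (e v)) →
    ∃ A : Subgroup X, A.Normal ∧ (Nat.card A).Coprime p ∧ ∀ g h : X, g * h * g⁻¹ * h⁻¹ ∈ A

/-- ARITH: the exceptional orders. -/
def ArithStmt : Prop :=
  ∀ (p : ℕ) [Fact p.Prime] (V : Type u) [AddCommGroup V] [Module (ZMod p) V] [Finite V],
    Nat.card V ∈ ({9, 25, 49, 121, 529, 81} : Set ℕ) →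
    (Nat.card V = p ^ 2 ∧ (p = 3 ∨ 5 ≤ p)) ∨ (p = 3 ∧ Nat.card V = 81)

/-- BASIS: in dimension 2, pass to matrices. -/
def BasisStmt : Prop :=
  ∀ (X : Type u) [Group X] (p : ℕ) [Fact p.Prime] (V : Type u) [AddCommGroup V]
    [Module (ZMod p) V] [Finite V] (ρ : X →* (V ≃ₗ[ZMod p] V)), Lin X p V ρ →
    Nat.card V = p ^ 2 → ∃ ψ : X →* Matrix.GeneralLinearGroup (Fin 2) (ZMod p), MatLin X p ψ

/-- MATSL: if `X` has an element of order `p`, its image contains `SL₂(p)`. -/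
def MatSLStmt : Prop :=
  ∀ (X : Type u) [Group X] [Finite X] (p : ℕ) [Fact p.Prime]
    (ψ : X →* Matrix.GeneralLinearGroup (Fin 2) (ZMod p)), MatLin X p ψ →
    (∃ u : X, u ≠ 1 ∧ u ^ p = 1) →
    ∀ A : Matrix.SpecialLinearGroup (Fin 2) (ZMod p), ∃ g : X, (ψ g).val = A.val

/-- SLFIN5: a group containing `SL₂(p)`, `p ≥ 5`, is not solvable. -/
def SLFin5Stmt : Prop :=
  ∀ (X : Type u) [Group X] [Finite X] (p : ℕ) [Fact p.Prime]
    (ψ : X →* Matrix.GeneralLinearGroup (Fin 2) (ZMod p)), Function.Injective ψ →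
    (∀ A : Matrix.SpecialLinearGroup (Fin 2) (ZMod p), ∃ g : X, (ψ g).val = A.val) →
    5 ≤ p → ¬ Group.IsSolvable X

/-- SLFIN3: for `p = 3` the group is `SL₂(3)`, which satisfies the conclusion. -/
def SLFin3Stmt : Prop :=
  ∀ (X : Type u) [Group X] [Finite X] (p : ℕ) [Fact p.Prime]
    (ψ : X →* Matrix.GeneralLinearGroup (Fin 2) (ZMod p)), p = 3 → MatLin X p ψ →
    (∀ A : Matrix.SpecialLinearGroup (Fin 2) (ZMod p), ∃ g : X, (ψ g).val = A.val) →
    Concl p X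

/-- PFIX: a `p`-subgroup fixes a nonzero vector. -/
def PFixStmt : Prop :=
  ∀ (X : Type u) [Group X] [Finite X] (p : ℕ) [Fact p.Prime] (V : Type u) [AddCommGroup V]
    [Module (ZMod p) V] [Finite V] [Nontrivial V] (ρ : X →* (V ≃ₗ[ZMod p] V)) (Q : Subgroup X),
    IsPGroup p Q → ∃ v : V, v ≠ 0 ∧ ∀ g ∈ Q, ρ g v = v

/-- NOP: `O_p(X) = 1`. -/
def NopStmt : Prop :=
  ∀ (X : Type u) [Group X] [Finite X] (p : ℕ) [Fact p.Prime] (V : Type u) [AddCommGroup V]
    [Module (ZMod p) V] [Finite V] [Nontrivial V] (ρ : X →* (V ≃ₗ[ZMod p] V)), Lin X p V ρ →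
    ∀ Q : Subgroup X, Q.Normal → IsPGroup p Q → Q = ⊥

/-- FREE: a `p'`-subgroup acts freely on the nonzero vectors of an invariant subgroup. -/
def FreeStmt : Prop :=
  ∀ (X : Type u) [Group X] [Finite X] (p : ℕ) [Fact p.Prime] (V : Type u) [AddCommGroup V]
    [Module (ZMod p) V] [Finite V] (ρ : X →* (V ≃ₗ[ZMod p] V)), Lin X p V ρ →
    ∀ (L : Subgroup X) (W : AddSubgroup V), (Nat.card L).Coprime p →
      (∀ g ∈ L, ∀ w ∈ W, ρ g w ∈ W) → Nat.card L ∣ Nat.card W - 1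

/-- INVOL: for odd `p` there is at most one involution. -/
def InvolStmt : Prop :=
  ∀ (X : Type u) [Group X] (p : ℕ) [Fact p.Prime] (V : Type u) [AddCommGroup V]
    [Module (ZMod p) V] (ρ : X →* (V ≃ₗ[ZMod p] V)), Lin X p V ρ → p ≠ 2 →
    ∀ s t : X, s ≠ 1 → t ≠ 1 → s ^ 2 = 1 → t ^ 2 = 1 → s = t

/-- ORB: `|V| - 1` divides `|X|`. -/
def OrbStmt : Prop :=
  ∀ (X : Type u) [Group X] [Finite X] (p : ℕ) [Fact p.Prime] (V : Type u) [AddCommGroup V]
    [Module (ZMod p) V] [Finite V] [Nontrivial V] (ρ : X →* (V ≃ₗ[ZMod p] V)), Lin X p V ρ →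
    Nat.card V - 1 ∣ Nat.card X

/-- E81A: `|V| = 81`, `O_5(X) ≠ 1`: no elements of order 3. -/
def E81AStmt : Prop :=
  ∀ (X : Type u) [Group X] [Finite X] (p : ℕ) [Fact p.Prime] (V : Type u) [AddCommGroup V]
    [Module (ZMod p) V] [Finite V] [Nontrivial V] (ρ : X →* (V ≃ₗ[ZMod p] V)), Lin X p V ρ →
    p = 3 → Nat.card V = 81 → Cfsg.pCore 5 X ≠ ⊥ → ∀ g : X, g ^ p = 1 → g = 1

/-- E81B: `|V| = 81`, `O_5(X) = 1` is impossible for solvable `X`. -/
def E81BStmt : Prop :=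
  ∀ (X : Type u) [Group X] [Finite X] (p : ℕ) [Fact p.Prime] (V : Type u) [AddCommGroup V]
    [Module (ZMod p) V] [Finite V] [Nontrivial V] (ρ : X →* (V ≃ₗ[ZMod p] V)),
    Group.IsSolvable X → Lin X p V ρ → p = 3 → Nat.card V = 81 → Cfsg.pCore 5 X = ⊥ → False

/-- GT: the group-theoretic core. -/
def GTStmt : Prop :=
  ∀ (X : Type u) [Group X] [Finite X] (p : ℕ) [Fact p.Prime] (V : Type u) [AddCommGroup V]
    [Module (ZMod p) V] [Finite V] [Nontrivial V] (ρ : X →* (V ≃ₗ[ZMod p] V)),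
    Group.IsSolvable X → Lin X p V ρ → Concl p X

end Cfsg.Agent.H59.Gag
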