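import Mathlib
import Cfsg.Prelude.Def_Characters
import Cfsg.Agent.Lib.CliffordCorr

/-!
# Fully ramified characters: statements of the pieces of the team project S4563 + S4564 (helper59)

`χ ∈ Irr(H)` is fully ramified over `Z ⊴ H` (`χ_Z = e θ`, `e² = |H : Z|`).  For `Z ≤ K ⊴ H` and a
prime `p` we produce a `p`-complement of `H ⧸ K` (a subgroup of `p'`-order and `p`-power index)
when (a) a Sylow `p`-subgroup of `H ⧸ K` is cyclic (S4564), or (b) `χ` is induced from `K` (S4563,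
then Hall's theorem gives solvability of `H ⧸ K`).

All statements are `Prop`-valued definitions (universe polymorphic), so that pieces can take each
other as hypotheses.
-/

set_option autoImplicit false

namespace Cfsg.Agent.H59.FR

open Cfsg Cfsg.Agent.Clifford

universe u

/-- The local setting: `ξ ∈ Irr(G)` is fully ramified over `Z ⊴ G` with respect to `θ ∈ Irr(Z)`,
and `Z ≤ M`. -/
structure Loc (G : Type u) [Group G] (Z M : Subgroup G) (θ : ↥Z → ℂ) (ξ : G → ℂ) (e₁ : ℕ) :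
    Prop where
  irrθ : IsIrrCharacter ↥Z θ
  irrξ : IsIrrCharacter G ξ
  le : Z ≤ M
  sq : e₁ ^ 2 = Z.index
  res : ∀ z : ↥Z, ξ z = (e₁ : ℂ) * θ z

/-- `η` is an irreducible character of `M` whose restriction to `Z` is a nonzero multiple of `θ`
(for invariant `θ` this is the same as "`η` lies over `θ`"). -/
def Over {G : Type u} [Group G] (Z M : Subgroup G) (hZM : Z ≤ M) (θ : ↥Z → ℂ) (η : ↥M → ℂ) :
    Prop :=
  IsIrrCharacter ↥M η ∧ ∃ b : ℕ, b ≠ 0 ∧ ∀ z : ↥Z, η ⟨(z : G), hZM z.2⟩ = (b : ℂ) * θ z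

/-- SYL: full ramification passes to subgroups `S ≥ Z` with `|S : Z|` coprime to `|H : S|`. -/
def SylStmt : Prop :=
  ∀ (H : Type u) [Group H] [Finite H] (Z : Subgroup H) [Z.Normal] (χ : IrrCharacter H)
    (θ : IrrCharacter ↥Z) (e : ℕ), e ^ 2 = Z.index →
    (∀ z : ↥Z, (χ : H → ℂ) z = (e : ℂ) * (θ : ↥Z → ℂ) z) →
    ∀ (S : Subgroup H) (hZS : Z ≤ S), (Z.relIndex S).Coprime S.index →
    ∃ (ξ : IrrCharacter ↥S) (e₁ : ℕ), e₁ ^ 2 = Z.relIndex S ∧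
      ∀ z : ↥Z, (ξ : ↥S → ℂ) ⟨(z : H), hZS z.2⟩ = (e₁ : ℂ) * (θ : ↥Z → ℂ) z

/-- A1: in the local setting, `G` is transitive on the irreducible characters of `M ⊴ G` over `θ`,
and the multiplicity `c` of such an `η` in `ξ_M` satisfies `c² = |I_G(η) : M|`. -/
def A1Stmt : Prop :=
  ∀ (G : Type u) [Group G] [Finite G] (Z M : Subgroup G) [Z.Normal] [M.Normal] [Fintype ↥M]
    (θ : ↥Z → ℂ) (ξ : G → ℂ) (e₁ : ℕ) (hL : Loc G Z M θ ξ e₁),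
    (∃ η : ↥M → ℂ, Over Z M hL.le θ η) ∧
    (∀ η η' : ↥M → ℂ, Over Z M hL.le θ η → Over Z M hL.le θ η' →
      ∃ g : G, η' = conjChar M η g) ∧
    (∀ η : ↥M → ℂ, Over Z M hL.le θ η → ∃ c : ℕ, c ≠ 0 ∧
      classInner (fun m : ↥M => ξ m) η = (c : ℂ) ∧ c ^ 2 = M.relIndex (inertia M η))

/-- A2: if moreover `G ⧸ M` is cyclic, the multiplicity is `1`. -/
def A2Stmt : Prop :=
  ∀ (G : Type u) [Group G] [Finite G] (Z M : Subgroup G) [Z.Normal] [M.Normal] [Fintype ↥M]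
    (θ : ↥Z → ℂ) (ξ : G → ℂ) (e₁ : ℕ) (hL : Loc G Z M θ ξ e₁), IsCyclic (G ⧸ M) →
    ∀ (η : ↥M → ℂ), Over Z M hL.le θ η → ∀ c : ℕ, classInner (fun m : ↥M => ξ m) η = (c : ℂ) →
      c ^ 2 = M.relIndex (inertia M η) → c = 1

/-- A3: if `ρ` is a character of `M` with `ρ_Z = f θ`, then `ind ρ = a ξ` with `a e₁ = f |G : M|`
and the multiplicity `c` divides `a`. -/
def A3Stmt : Prop :=
  ∀ (G : Type u) [Group G] [Finite G] (Z M : Subgroup G) [Z.Normal] [M.Normal] [Fintype ↥M]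
    (θ : ↥Z → ℂ) (ξ : G → ℂ) (e₁ : ℕ) (hL : Loc G Z M θ ξ e₁)
    (ρ : ↥M → ℂ) (f : ℕ), IsCharacter ↥M ρ →
    (∀ z : ↥Z, ρ ⟨(z : G), hL.le z.2⟩ = (f : ℂ) * θ z) →
    ∀ (η : ↥M → ℂ), Over Z M hL.le θ η → ∀ c : ℕ, classInner (fun m : ↥M => ξ m) η = (c : ℂ) →
      ∃ a : ℕ, a * e₁ = f * M.index ∧ c ∣ a

/-- LOC-A (assembled from A1, A2, A3): `G` acts regularly (mod `M`) on the characters over `θ`. -/
def LocAStmt : Prop :=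
  ∀ (G : Type u) [Group G] [Finite G] (Z M : Subgroup G) [Z.Normal] [M.Normal]
    (θ : ↥Z → ℂ) (ξ : G → ℂ) (e₁ : ℕ) (hL : Loc G Z M θ ξ e₁) (p : ℕ) [Fact p.Prime] (k : ℕ),
    M.index = p ^ k →
    (IsCyclic (G ⧸ M) ∨ ∃ (ρ : ↥M → ℂ) (f : ℕ), IsCharacter ↥M ρ ∧
        (∀ z : ↥Z, ρ ⟨(z : G), hL.le z.2⟩ = (f : ℂ) * θ z) ∧
        ∀ a : ℕ, a * e₁ = f * p ^ k → ¬ p ∣ a) →
    ∃ η : ↥M → ℂ, Over Z M hL.le θ η ∧ (∀ g : G, conjChar M η g = η → g ∈ M) ∧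
      ∀ η' : ↥M → ℂ, Over Z M hL.le θ η' → ∃ g : G, η' = conjChar M η g

/-- LOC-H (BRIDGE: LOC-A transported to subgroups `Z ≤ M ≤ S` of an ambient group `H`): there is a
function `F` on `H` (the extension by zero of some `η ∈ Irr(M | θ)`) whose stabilizer in `S` under
conjugation is `M` and whose `N_H(M)`-orbit is its `S`-orbit. -/
def LocHStmt : Prop :=
  ∀ (H : Type u) [Group H] [Finite H] (Z : Subgroup H) [Z.Normal] (θ : IrrCharacter ↥Z),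
    (∀ (h : H) (z z' : ↥Z), (z' : H) = h * z * h⁻¹ → (θ : ↥Z → ℂ) z' = (θ : ↥Z → ℂ) z) →
    ∀ (S M : Subgroup H) (hZM : Z ≤ M) (hMS : M ≤ S), (∀ s ∈ S, ∀ m ∈ M, s * m * s⁻¹ ∈ M) →
    ∀ (ξ : IrrCharacter ↥S) (e₁ : ℕ), e₁ ^ 2 = Z.relIndex S →
    (∀ z : ↥Z, (ξ : ↥S → ℂ) ⟨(z : H), hMS (hZM z.2)⟩ = (e₁ : ℂ) * (θ : ↥Z → ℂ) z) →
    ∀ (p : ℕ) [Fact p.Prime] (k : ℕ), M.relIndex S = p ^ k →
    ((∃ g ∈ S, ∀ s ∈ S, ∃ j : ℕ, g ^ j * s ∈ M) ∨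
      ∃ (ρ : ↥M → ℂ) (f : ℕ), IsCharacter ↥M ρ ∧
        (∀ z : ↥Z, ρ ⟨(z : H), hZM z.2⟩ = (f : ℂ) * (θ : ↥Z → ℂ) z) ∧
        ∀ a : ℕ, a * e₁ = f * p ^ k → ¬ p ∣ a) →
    ∃ F : H → ℂ, (∀ m ∈ M, ∀ y, F (m⁻¹ * y * m) = F y) ∧
      (∀ s ∈ S, (∀ y, F (s⁻¹ * y * s) = F y) → s ∈ M) ∧
      ∀ n ∈ Subgroup.normalizer (M : Set H), ∃ s ∈ S, ∀ y, F (n⁻¹ * y * n) = F (s⁻¹ * y * s)

/-- GT (pure group theory): the stabilizer argument producing a `p`-complement of `H ⧸ K`. -/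
def GTStmt : Prop :=
  ∀ (H : Type u) [Group H] [Finite H] (K : Subgroup H) [K.Normal] (S : Subgroup H)
    (p : ℕ) [Fact p.Prime] (k : ℕ), (S ⊓ K).relIndex S = p ^ k →
    ¬ p ∣ (S ⊓ K).relIndex (Subgroup.normalizer ((S ⊓ K : Subgroup H) : Set H) ⊓ K) →
    (∀ h : H, ∃ x ∈ K, x * h ∈ Subgroup.normalizer ((S ⊓ K : Subgroup H) : Set H)) →
    ¬ p ∣ (S ⊔ K).index →
    ∀ F : H → ℂ, (∀ m ∈ S ⊓ K, ∀ y, F (m⁻¹ * y * m) = F y) →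
      (∀ s ∈ S, (∀ y, F (s⁻¹ * y * s) = F y) → s ∈ S ⊓ K) →
      (∀ n ∈ Subgroup.normalizer ((S ⊓ K : Subgroup H) : Set H),
        ∃ s ∈ S, ∀ y, F (n⁻¹ * y * n) = F (s⁻¹ * y * s)) →
    ∃ T : Subgroup (H ⧸ K), (Nat.card ↥T).Coprime p ∧ ∃ a : ℕ, T.index = p ^ a

/-- SETUP (pure group theory): a subgroup `S ≥ Z` with `S/Z` a Sylow `p`-subgroup of `H/Z`, and
the index facts about `S ⊓ K`. -/
def SetupStmt : Prop :=
  ∀ (H : Type u) [Group H] [Finite H] (Z K : Subgroup H) [Z.Normal] [K.Normal], Z ≤ K →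
    ∀ (p : ℕ) [Fact p.Prime],
    ∃ (S : Subgroup H) (a a' k r r' : ℕ), Z ≤ S ∧ (Z.relIndex S).Coprime S.index ∧
      Z.relIndex S = p ^ a ∧ Z.index = p ^ a * r' ∧ ¬ p ∣ r' ∧
      Z.relIndex (S ⊓ K) = p ^ a' ∧ ¬ p ∣ (S ⊓ K).relIndex K ∧
      (S ⊓ K).relIndex S = p ^ k ∧ K.index = p ^ k * r ∧ ¬ p ∣ r ∧
      ¬ p ∣ (S ⊓ K).relIndex (Subgroup.normalizer ((S ⊓ K : Subgroup H) : Set H) ⊓ K) ∧
      ¬ p ∣ (S ⊔ K).index

/-- FRAT: Frattini argument modulo `Z`. -/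
def FratStmt : Prop :=
  ∀ (H : Type u) [Group H] [Finite H] (Z K : Subgroup H) [Z.Normal] [K.Normal] (M : Subgroup H),
    Z ≤ M → M ≤ K → ∀ (p : ℕ) [Fact p.Prime] (a : ℕ), Z.relIndex M = p ^ a →
    ¬ p ∣ M.relIndex K →
    ∀ h : H, ∃ x ∈ K, x * h ∈ Subgroup.normalizer (M : Set H)

/-- CYC: if the Sylow `p`-subgroups of `H ⧸ K` are cyclic and `S K / K` is one of them, then
`S / (S ⊓ K)` is cyclic. -/
def CycStmt : Prop :=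
  ∀ (H : Type u) [Group H] [Finite H] (K : Subgroup H) [K.Normal] (S : Subgroup H)
    (p : ℕ) [Fact p.Prime] (k : ℕ), (S ⊓ K).relIndex S = p ^ k → ¬ p ∣ (S ⊔ K).index →
    ∀ P : Sylow p (H ⧸ K), IsCyclic ↥P → ∃ g ∈ S, ∀ s ∈ S, ∃ j : ℕ, g ^ j * s ∈ S ⊓ K

/-- HALL: P. Hall's theorem: a finite group with a `p`-complement for every prime is solvable. -/
def HallStmt : Prop :=
  ∀ (G : Type u) [Group G] [Finite G],
    (∀ p : ℕ, p.Prime → ∃ T : Subgroup G, (Nat.card ↥T).Coprime p ∧ ∃ a : ℕ, T.index = p ^ a) →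
    Group.IsSolvable G

/-- INDRES: if the fully ramified `χ` is induced from `φ` on `K ⊵ Z`, then `φ_Z = f θ` and
`e = |H : K| f`. -/
def IndResStmt : Prop :=
  ∀ (H : Type u) [Group H] [Fintype H] (Z : Subgroup H) [Z.Normal] (χ : IrrCharacter H)
    (θ : IrrCharacter ↥Z) (e : ℕ), e ^ 2 = Z.index →
    (∀ z : ↥Z, (χ : H → ℂ) z = (e : ℂ) * (θ : ↥Z → ℂ) z) →
    ∀ (K : Subgroup H) [K.Normal] (hZK : Z ≤ K) (φ : ↥K → ℂ), IsCharacter ↥K φ →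
    indFun K φ = (χ : H → ℂ) →
    ∃ f : ℕ, e = K.index * f ∧ ∀ z : ↥Z, φ ⟨(z : H), hZK z.2⟩ = (f : ℂ) * (θ : ↥Z → ℂ) z

end Cfsg.Agent.H59.FR
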