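import Mathlib
import Cfsg.Agent.H59.BSQ8Char
import Cfsg.Agent.S0941
import Cfsg.Agent.S0942

/-!
# helper59: the principal 2-block of a group with Sylow 2-subgroup `Q8`

Setting: `S` a Sylow 2-subgroup of `G`, `ψ : QuaternionGroup 2 →* G` injective with range `S`,
all elements of order four of `S` conjugate in `G`, and the involution `ψ (a 2)` central.
Then the principal 2-block has exactly seven characters (`card_principalBlock`).
-/

set_option autoImplicit false
set_option linter.style.haveILetI false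
set_option linter.unusedSectionVars false

namespace Cfsg.Agent.H59.BSQ8

open QuaternionGroup Cfsg
open scoped ComplexConjugate

set_option maxRecDepth 100000 in
theorem q8_comm_mem : ∀ q : QuaternionGroup 2,
    (a 1 * q)⁻¹ * (q * a 1) = 1 ∨ (a 1 * q)⁻¹ * (q * a 1) = a 2 := by decide

set_option maxRecDepth 100000 in
theorem q8_inv_a_one : (a 1 : QuaternionGroup 2)⁻¹ = a 2 * a 1 := by decide

section Block

universe u

variable {G : Type u} [Group G] [Finite G] (S : Sylow 2 G) (ψ : QuaternionGroup 2 →* G)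
  (hψ : Function.Injective ψ) (hS : ψ.range = (S : Subgroup G))
  (hfus : ∀ i : ZMod (2 * 2), IsConj (ψ (xa i)) (ψ (a 1)))
  (hc : ψ (a 2) ∈ Subgroup.center G)

include hψ hS hfus hc in
/-- a `2`-element is trivial, the central involution, or conjugate to `ψ (a 1)` -/
theorem two_elt_cases (z : G) (hz : ∃ k : ℕ, orderOf z = 2 ^ k) :
    z = 1 ∨ z = ψ (a 2) ∨ IsConj z (ψ (a 1)) := by
  obtain ⟨k, hk⟩ := hz
  obtain ⟨c, hcS⟩ := exists_conj_mem S ψ hψ hS z k (by rw [← hk]; exact pow_orderOf_eq_one z)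
  rw [← hS] at hcS
  obtain ⟨q, hq⟩ := hcS
  have hmap : ∀ (r : QuaternionGroup 2) (d : QuaternionGroup 2), d * q * d⁻¹ = r →
      IsConj z (ψ r) := by
    intro r d hd
    refine isConj_iff.mpr ⟨ψ d * c, ?_⟩
    rw [← hd, map_mul, map_mul, map_inv, hq]; group
  have hz' : z = c⁻¹ * (c * z * c⁻¹) * c := by group
  rcases q8_normal_form q with (h | h) | ⟨d, hd⟩ | ⟨d, hd⟩ | ⟨d, hd⟩
  · left
    rw [h, map_one] at hq
    rw [hz', ← hq]; group
  · right; left
    rw [h] at hq
    have hcomm := Subgroup.mem_center_iff.mp hc c⁻¹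
    rw [hz', ← hq, hcomm]; group
  · right; right; exact hmap _ d hd
  · right; right; exact (hmap _ d hd).trans (hfus 0)
  · right; right; exact (hmap _ d hd).trans (hfus 1)

omit [Finite G] in
theorem exists_two_part [Finite G] (g : G) : ∃ z : G, IsPPart 2 g z := by
  obtain ⟨a', b', c', h1, h2, h3⟩ := Cfsg.Agent.H20.exists_pPart_decomp Nat.prime_two g
  refine ⟨g ^ a', g ^ b', h1, ?_, ?_, h3⟩
  · exact (Commute.refl g).pow_pow a' b'
  · obtain ⟨j, -, hj⟩ := (Nat.dvd_prime_pow Nat.prime_two).mp (orderOf_dvd_of_pow_eq_one h2)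
    exact ⟨j, hj⟩

include hc in
/-- the central involution acts on an irreducible character by a sign -/
theorem central_sign (χ : IrrCharacter G) :
    ∃ c : ℂ, (c = 1 ∨ c = -1) ∧ ∀ g : G, χ.1 (ψ (a 2) * g) = c * χ.1 g := by
  classical
  letI : Fintype G := Fintype.ofFinite G
  refine ⟨χ.1 (ψ (a 2)) / χ.1 1, ?_, fun g => Cfsg.Agent.H20.irr_central_mul χ hc g⟩
  have h2 := Cfsg.Agent.H20.irr_central_mul χ hc (ψ (a 2))
  have htt : ψ (a 2) * ψ (a 2) = 1 := by
    rw [← map_mul, ← sq, q8_a_two_sq.1, map_one]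
  rw [htt] at h2
  have h0 := Cfsg.Agent.H4.irr_one_ne_zero χ
  have h3 : (χ.1 (ψ (a 2)) / χ.1 1) ^ 2 = 1 := by
    field_simp
    field_simp at h2
    linear_combination -h2
  have h4 : (χ.1 (ψ (a 2)) / χ.1 1 - 1) * (χ.1 (ψ (a 2)) / χ.1 1 + 1) = 0 := by
    linear_combination h3
  rcases mul_eq_zero.mp h4 with h | h
  · left; linear_combination h
  · right; linear_combination h

/-- a character on which the involution acts by `-1` vanishes at elements of order four -/
theorem apply_x_eq_zero_of_neg (χ : IrrCharacter G)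
    (hneg : ∀ g, χ.1 (ψ (a 2) * g) = - χ.1 g) : χ.1 (ψ (a 1)) = 0 := by
  have h1 : χ.1 (ψ (a 1))⁻¹ = χ.1 (ψ (a 1)) := by
    rw [← map_inv, ← q8_conj_inv, map_mul, map_mul, map_inv,
      Cfsg.Agent.H4.irr_isClassFunction χ]
  have h2 : (ψ (a 1))⁻¹ = ψ (a 2) * ψ (a 1) := by
    rw [← map_inv, ← map_mul, q8_inv_a_one]
  rw [h2, hneg] at h1
  linear_combination (-1 / 2 : ℂ) * h1

include hψ hS in
/-- principal block characters are constant on the section of an element of order four -/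
theorem const_on_section (M : Ideal AlgInt) (hM : IsPModular 2 M) (χ : IrrCharacter G)
    (hχ : χ ∈ principalBlock M G) (g z : G) (hgz : IsPPart 2 g z)
    (hzx : IsConj z (ψ (a 1))) : χ.1 g = χ.1 (ψ (a 1)) := by
  haveI : Fact (Nat.Prime 2) := ⟨Nat.prime_two⟩
  obtain ⟨y, hy, hcomm, -, hreg⟩ := hgz
  obtain ⟨c, hc'⟩ := isConj_iff.mp hzx
  have hcf := Cfsg.Agent.H4.irr_isClassFunction χ
  have h0 : c * g * c⁻¹ = ψ (a 1) * (c * y * c⁻¹) := by rw [← hy, ← hc']; group
  rw [← hcf g c, h0]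
  apply Cfsg.Agent.S0942.result 2 M hM (ψ (a 1))
    ⟨2, by rw [orderOf_psi_a_one ψ hψ]; norm_num⟩ _ _ χ hχ
  obtain ⟨-, hnc⟩ := centralizer_four S ψ hψ hS
  have hyC : c * y * c⁻¹ ∈ Subgroup.centralizer ({ψ (a 1)} : Set G) := by
    rw [Subgroup.mem_centralizer_iff]
    intro w hw
    rw [Set.mem_singleton_iff] at hw
    rw [hw, ← hc']
    have := hcomm.eq
    calc c * z * c⁻¹ * (c * y * c⁻¹) = c * (z * y) * c⁻¹ := by group
      _ = c * (y * z) * c⁻¹ := by rw [this]
      _ = c * y * c⁻¹ * (c * z * c⁻¹) := by group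
  unfold centralizerPPrimeCore
  rw [Subgroup.mem_map]
  refine ⟨⟨c * y * c⁻¹, hyC⟩, ?_, rfl⟩
  apply Cfsg.Agent.H84.mem_pPrimeCore_of_pRegular Nat.prime_two hnc
  rw [← Subgroup.orderOf_coe]
  show ¬ 2 ∣ orderOf (c * y * c⁻¹)
  rw [orderOf_conj']
  exact hreg

include hψ hS hfus hc in
/-- the principal `2`-block has exactly seven characters -/
theorem card_principalBlock (M : Ideal AlgInt) (hM : IsPModular 2 M) :
    Nat.card (principalBlock M G) = 7 := by
  classical
  haveI : Fact (Nat.Prime 2) := ⟨Nat.prime_two⟩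
  letI : Fintype G := Fintype.ofFinite G
  haveI : Finite (IrrCharacter G) := Cfsg.Agent.H4.finite_irr G
  have hMp : M.IsPrime := Cfsg.Agent.H20.isPrime_of_isPModular hM
  obtain ⟨x, hx⟩ : ∃ x : G, x = ψ (a 1) := ⟨_, rfl⟩
  obtain ⟨t, ht⟩ : ∃ t : G, t = ψ (a 2) := ⟨_, rfl⟩
  have hxo : orderOf x = 4 := by rw [hx]; exact orderOf_psi_a_one ψ hψ
  have hto : orderOf t = 2 := by rw [ht]; exact orderOf_psi_a_two ψ hψ
  have hx1 : x ≠ 1 := by
    intro h; rw [h, orderOf_one] at hxo; omega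
  have ht1 : t ≠ 1 := by
    intro h; rw [h, orderOf_one] at hto; omega
  have htc : ∀ g : G, g * t = t * g := fun g => by rw [ht]; exact Subgroup.mem_center_iff.mp hc g
  obtain ⟨hfac, hnc⟩ := centralizer_four S ψ hψ hS
  rw [← hx] at hfac hnc
  choose e f n hf1 hex hef het hmod using char_data ψ hfus
  simp only [← hx, ← ht] at hex het
  choose c hc1 hc2 using central_sign ψ hc
  simp only [← ht] at hc2
  have hBfin : (principalBlock M G).Finite := Set.toFinite _
  obtain ⟨B, hB⟩ : ∃ B : Finset (IrrCharacter G), B = hBfin.toFinset := ⟨_, rfl⟩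
  have hmemB : ∀ χ, χ ∈ B ↔ χ ∈ principalBlock M G := fun χ => by
    rw [hB]; exact Set.Finite.mem_toFinset hBfin
  have hsum : ∀ F : IrrCharacter G → ℂ, ∑ᶠ χ ∈ principalBlock M G, F χ = ∑ χ ∈ B, F χ :=
    fun F => by rw [hB]; exact finsum_mem_eq_finite_toFinset_sum F hBfin
  have hcard : Nat.card (principalBlock M G) = B.card := by
    rw [Nat.card_coe_set_eq, Set.ncard_eq_toFinset_card _ hBfin, hB]
  rw [hcard]
  -- the norm relation
  have R0 : ∑ χ ∈ B, (e χ) ^ 2 = 4 := by
    have h := (Cfsg.Agent.S0947.result 2 M hM x ⟨2, by rw [hxo]; norm_num⟩ hx1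
      (1 : Subgroup.centralizer ({x} : Set G)) (by rw [orderOf_one]; norm_num)).2 hnc
    rw [hfac, finsum_mem_eq_finite_toFinset_sum _ hBfin, ← hB] at h
    have h2 : ∑ χ ∈ B, ((e χ : ℤ) : ℝ) ^ 2 = 4 := by
      have h3 : (((2 ^ 2 : ℕ) : ℕ) : ℝ) = 4 := by norm_num
      rw [← h3, ← h]
      apply Finset.sum_congr rfl
      intro χ _
      simp only [Subgroup.coe_one, mul_one]
      rw [hex χ, Complex.norm_intCast, sq_abs]
    exact_mod_cast h2
  have hB0 : IsPBlock M (principalBlock M G) := Cfsg.Agent.H80.isPBlock_principalBlock M G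
  have orth : ∀ g h z w : G, IsPPart 2 g z → IsPPart 2 h w → ¬ IsConj z w →
      ∑ χ ∈ B, (χ : G → ℂ) g * (χ : G → ℂ) h⁻¹ = 0 := by
    intro g h z w hgz hhw hzw
    have h1 := (Cfsg.Agent.S0925.result 2 M hM).2 g h z w hgz hhw hzw _ hB0
    rw [hsum] at h1
    exact h1
  have hxx : IsPPart 2 x x :=
    ⟨1, mul_one x, Commute.one_right x, ⟨2, by rw [hxo]; norm_num⟩, by
      rw [orderOf_one]; norm_num⟩
  have hxinv : IsConj x x⁻¹ := by
    rw [hx]
    exact isConj_iff.mpr ⟨ψ (xa 0), by rw [← map_inv, ← map_mul, ← map_mul, q8_conj_inv, map_inv]⟩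
  have hxinv' : ∀ χ : IrrCharacter G, (χ : G → ℂ) x⁻¹ = e χ := by
    intro χ
    obtain ⟨d, hd⟩ := isConj_iff.mp hxinv
    rw [← hd, Cfsg.Agent.H4.irr_isClassFunction χ, hex χ]
  -- the trivial character
  have ho : Cfsg.Agent.H80.trivChar G ∈ B :=
    (hmemB _).mpr (Cfsg.Agent.H80.trivChar_mem_principalBlock hMp)
  have heo : e (Cfsg.Agent.H80.trivChar G) = 1 := by
    have h := hex (Cfsg.Agent.H80.trivChar G)
    rw [Cfsg.Agent.H80.trivChar_apply] at h
    exact_mod_cast h.symm
  -- signs and vanishing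
  have hnegz : ∀ χ : IrrCharacter G, c χ = -1 → e χ = 0 := by
    intro χ hcχ
    have h := apply_x_eq_zero_of_neg ψ χ (fun g => by rw [← ht, hc2 χ g, hcχ]; ring)
    rw [← hx, hex χ] at h
    exact_mod_cast h
  have hpos : ∀ χ ∈ B, c χ = 1 → e χ ≠ 0 := by
    intro χ hχB hcχ he0
    have hχx : χ.1 x = 0 := by rw [hex χ, he0]; simp
    obtain ⟨Z, hZ⟩ : ∃ Z : Subgroup G, Z = Subgroup.zpowers t := ⟨_, rfl⟩
    have hcz : ∀ (g : G) (j : ℤ), g * t ^ j = t ^ j * g := fun g j =>
      ((show Commute g t from htc g).zpow_right j).eq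
    haveI hZn : Z.Normal := ⟨fun y hy g => by
      rw [hZ] at hy ⊢
      obtain ⟨j, rfl⟩ := Subgroup.mem_zpowers_iff.mp hy
      rw [hcz g j, mul_inv_cancel_right]
      exact Subgroup.zpow_mem_zpowers _ _⟩
    have hχt : χ.1 t = χ.1 1 := by
      have := hc2 χ 1
      rw [mul_one, hcχ, one_mul] at this
      exact this
    have hker : ∀ y ∈ Z, χ.1 y = χ.1 1 := by
      intro y hy
      rw [hZ] at hy
      obtain ⟨j, rfl⟩ := Subgroup.mem_zpowers_iff.mp hy
      have htt : t ^ (2 : ℤ) = 1 := by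
        have := pow_orderOf_eq_one t
        rw [hto] at this
        exact_mod_cast this
      rcases Int.even_or_odd' j with ⟨i, rfl | rfl⟩
      · rw [zpow_mul, htt, one_zpow]
      · rw [zpow_add, zpow_mul, htt, one_zpow, one_mul, zpow_one, hχt]
    obtain ⟨χ', hχ'⟩ := Cfsg.Agent.H82.exists_deflate Z χ hker
    have hZp : IsPGroup 2 Z := IsPGroup.of_card (n := 1) (by
      rw [hZ, Nat.card_zpowers, hto]; norm_num)
    have hZc : ∃ k, (Subgroup.centralizer (Z : Set G)).index = 2 ^ k := ⟨0, by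
      have h1 : Subgroup.centralizer (Z : Set G) = ⊤ := by
        rw [eq_top_iff]
        intro g _
        rw [Subgroup.mem_centralizer_iff]
        intro y hy
        rw [SetLike.mem_coe, hZ] at hy
        obtain ⟨j, rfl⟩ := Subgroup.mem_zpowers_iff.mp hy
        exact (hcz g j).symm
      rw [h1, Subgroup.index_top, pow_zero]⟩
    have h941 := (Cfsg.Agent.S0941.result 2 M hM Z hZp hZc).1
      (Cfsg.Agent.H80.trivChar (G ⧸ Z)) χ'
    have hsame : SameBlock M ((Cfsg.Agent.H80.trivChar (G ⧸ Z) : G ⧸ Z → ℂ))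
        (χ' : G ⧸ Z → ℂ) := by
      rw [h941]
      have h1 : ((Cfsg.Agent.H80.trivChar (G ⧸ Z) : G ⧸ Z → ℂ)) ∘ QuotientGroup.mk =
          fun _ : G => (1 : ℂ) := rfl
      have h2 : (χ' : G ⧸ Z → ℂ) ∘ QuotientGroup.mk = χ.1 := by rw [← hχ']; rfl
      rw [h1, h2]
      exact (hmemB χ).mp hχB
    have hloc := hsame (QuotientGroup.mk x)
    unfold centralChar at hloc
    have hv : (χ' : G ⧸ Z → ℂ) (QuotientGroup.mk x) = 0 := by
      have h1 := congrArg (fun θ : IrrCharacter G => θ.1 x) hχ'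
      simp only [Cfsg.Agent.H82.inflate_apply] at h1
      rw [h1, hχx]
    rw [hv, Cfsg.Agent.H80.trivChar_apply, Cfsg.Agent.H80.trivChar_apply] at hloc
    simp only [mul_zero, zero_div, sub_zero, mul_one, div_one] at hloc
    have hodd : ¬ 2 ∣ (Subgroup.centralizer
        ({(QuotientGroup.mk x : G ⧸ Z)} : Set (G ⧸ Z))).index := by
      have htS : t ∈ (S : Subgroup G) := by rw [← hS, ht]; exact ⟨a 2, rfl⟩
      have hSle : (S : Subgroup G).map (QuotientGroup.mk' Z) ≤
          Subgroup.centralizer ({(QuotientGroup.mk x : G ⧸ Z)} : Set (G ⧸ Z)) := by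
        rintro _ ⟨s, hs, rfl⟩
        rw [Subgroup.mem_centralizer_iff]
        intro w hw
        rw [Set.mem_singleton_iff] at hw
        rw [hw]
        show (QuotientGroup.mk x : G ⧸ Z) * QuotientGroup.mk s =
          QuotientGroup.mk s * QuotientGroup.mk x
        rw [← QuotientGroup.mk_mul, ← QuotientGroup.mk_mul, QuotientGroup.eq]
        rw [SetLike.mem_coe, ← hS] at hs
        obtain ⟨q, rfl⟩ := hs
        rw [hx, ← map_mul, ← map_mul, ← map_inv, ← map_mul, hZ]
        rcases q8_comm_mem q with h | h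
        · rw [h, map_one]; exact Subgroup.one_mem _
        · rw [h, ← ht]; exact Subgroup.mem_zpowers _
      have hdvd := Subgroup.index_dvd_of_le hSle
      have hidx : ((S : Subgroup G).map (QuotientGroup.mk' Z)).index = (S : Subgroup G).index :=
        Subgroup.index_map_eq _ (QuotientGroup.mk'_surjective Z) (by
          rw [QuotientGroup.ker_mk', hZ]; exact Subgroup.zpowers_le.mpr htS)
      intro h2
      exact S.not_dvd_index (hidx ▸ dvd_trans h2 hdvd)
    apply Cfsg.Agent.H4.not_memLocalIdeal_natCast hM _ hodd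
    have h5 := Cfsg.Agent.H4.memLocalIdeal_mul_left (M := M) (-1) (isIntegral_one.neg) hloc
    simpa using h5
  -- the two class functions agree
  have hΦ : ∀ g : G, ∑ χ ∈ B, (χ : G → ℂ) g * conj ((χ : G → ℂ) (t * g)) =
      ∑ χ ∈ B, (χ : G → ℂ) g * (e χ : ℂ) := by
    intro g
    obtain ⟨z, hgz⟩ := exists_two_part g
    have hgz' := hgz
    obtain ⟨y, hy, hcomm, hzo, hreg⟩ := hgz'
    have hsmall : (z = 1 ∨ z = t) → ∑ χ ∈ B, (χ : G → ℂ) g * conj ((χ : G → ℂ) (t * g)) =
        ∑ χ ∈ B, (χ : G → ℂ) g * (e χ : ℂ) := by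
      intro hz
      have hR : ∑ χ ∈ B, (χ : G → ℂ) g * (e χ : ℂ) = 0 := by
        have h1 := orth g x z x hgz hxx (by
          rcases hz with rfl | rfl
          · intro h; exact hx1 (isConj_one_right.mp h)
          · intro h
            obtain ⟨d, hd⟩ := isConj_iff.mp h
            have : orderOf x = orderOf z := by rw [← hd, orderOf_conj']
            omega)
        rw [← h1]
        apply Finset.sum_congr rfl
        intro χ _
        rw [hxinv' χ]
      have hL : ∑ χ ∈ B, (χ : G → ℂ) g * conj ((χ : G → ℂ) (t * g)) = 0 := by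
        have hpp : IsPPart 2 (t * g) (t * z) := by
          refine ⟨y, by rw [mul_assoc, hy], ?_, ?_, hreg⟩
          · exact (show Commute t y from (htc y).symm).mul_left hcomm
          · rcases hz with rfl | rfl
            · exact ⟨1, by rw [mul_one, hto, pow_one]⟩
            · refine ⟨0, ?_⟩
              have : z * z = 1 := by
                have := pow_orderOf_eq_one z
                rwa [hto, sq] at this
              rw [this, orderOf_one, pow_zero]
        have hnc' : ¬ IsConj z (t * z) := by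
          rcases hz with rfl | rfl
          · rw [mul_one]
            intro h; exact ht1 (isConj_one_right.mp h)
          · have : z * z = 1 := by
              have := pow_orderOf_eq_one z
              rwa [hto, sq] at this
            rw [this]
            intro h; exact ht1 (isConj_one_left.mp h)
        have h1 := orth g (t * g) z (t * z) hgz hpp hnc'
        rw [← h1]
        apply Finset.sum_congr rfl
        intro χ _
        rw [Cfsg.Agent.H20.irr_conj]
      rw [hR, hL]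
    rcases two_elt_cases S ψ hψ hS hfus hc z hzo with h | h | h
    · exact hsmall (Or.inl h)
    · exact hsmall (Or.inr (by rw [ht]; exact h))
    · apply Finset.sum_congr rfl
      intro χ hχ
      have h1 : (χ : G → ℂ) g = e χ := by
        rw [const_on_section S ψ hψ hS M hM χ ((hmemB χ).mp hχ) g z hgz h, ← hx, hex χ]
      rw [hc2 χ g, h1]
      rcases hc1 χ with h2 | h2
      · rw [h2, one_mul, map_intCast]
      · rw [hnegz χ h2]; simp
  -- summing over the group
  have hG : (Nat.card G : ℂ) ≠ 0 := by exact_mod_cast (Nat.card_pos (α := G)).ne'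
  have hsumc : ∑ χ ∈ B, c χ = 1 := by
    have h1 : ∑ g : G, ∑ χ ∈ B, (χ : G → ℂ) g * conj ((χ : G → ℂ) (t * g)) =
        ∑ g : G, ∑ χ ∈ B, (χ : G → ℂ) g * (e χ : ℂ) :=
      Finset.sum_congr rfl (fun g _ => hΦ g)
    rw [Finset.sum_comm, Finset.sum_comm (s := Finset.univ)] at h1
    have hL : ∑ χ ∈ B, ∑ g : G, (χ : G → ℂ) g * conj ((χ : G → ℂ) (t * g)) =
        (Nat.card G : ℂ) * ∑ χ ∈ B, c χ := by
      rw [Finset.mul_sum]
      apply Finset.sum_congr rfl
      intro χ _
      have h2 := Cfsg.Agent.H4.irr_inner_self χ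
      unfold classInner at h2
      rw [inv_mul_eq_iff_eq_mul₀ hG, mul_one] at h2
      have h3 : ∀ g : G, (χ : G → ℂ) g * conj ((χ : G → ℂ) (t * g)) =
          c χ * ((χ : G → ℂ) g * conj ((χ : G → ℂ) g)) := by
        intro g
        rw [hc2 χ g, map_mul]
        rcases hc1 χ with h4 | h4
        · rw [h4]; simp
        · rw [h4]; simp
      rw [Finset.sum_congr rfl (fun g _ => h3 g), ← Finset.mul_sum, h2]
      ring
    have hR : ∑ χ ∈ B, ∑ g : G, (χ : G → ℂ) g * (e χ : ℂ) = (Nat.card G : ℂ) := by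
      have h2 : ∀ χ ∈ B, ∑ g : G, (χ : G → ℂ) g * (e χ : ℂ) =
          if χ = Cfsg.Agent.H80.trivChar G then (Nat.card G : ℂ) else 0 := by
        intro χ _
        have h3 := Cfsg.Agent.H4.irr_inner χ (Cfsg.Agent.H80.trivChar G)
        unfold classInner at h3
        simp only [Cfsg.Agent.H80.trivChar_apply, map_one, mul_one] at h3
        rw [inv_mul_eq_iff_eq_mul₀ hG] at h3
        rw [← Finset.sum_mul, h3]
        by_cases h4 : χ = Cfsg.Agent.H80.trivChar G
        · rw [if_pos h4, if_pos h4, h4, heo]; simp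
        · rw [if_neg h4, if_neg h4]; simp
      rw [Finset.sum_congr rfl h2, Finset.sum_ite_eq' B, if_pos ho]
    rw [hL, hR] at h1
    have h5 : (Nat.card G : ℂ) * (∑ χ ∈ B, c χ - 1) = 0 := by linear_combination h1
    rcases mul_eq_zero.mp h5 with h6 | h6
    · exact absurd h6 hG
    · linear_combination h6
  -- counting
  have he3 : ∀ χ ∈ B, e χ = 1 ∨ e χ = -1 ∨ e χ = 0 := by
    intro χ hχ
    by_cases hχo : χ = Cfsg.Agent.H80.trivChar G
    · left; rw [hχo, heo]
    · have h0' : ∑ χ ∈ B.erase (Cfsg.Agent.H80.trivChar G), e χ ^ 2 = 3 := by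
        have := Finset.add_sum_erase B (fun χ => e χ ^ 2) ho
        simp only [heo] at this
        linarith
      have hle : e χ ^ 2 ≤ ∑ j ∈ B.erase (Cfsg.Agent.H80.trivChar G), e j ^ 2 :=
        Finset.single_le_sum (f := fun j => e j ^ 2) (fun j _ => sq_nonneg (e j))
          (Finset.mem_erase.mpr ⟨hχo, hχ⟩)
      rw [h0'] at hle
      have hlo : -1 ≤ e χ := by nlinarith
      have hhi : e χ ≤ 1 := by nlinarith
      omega
  have hP : (B.filter (fun χ => e χ ≠ 0)).card = 4 := by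
    have h1 : ∑ χ ∈ B, (e χ) ^ 2 = ∑ χ ∈ B, (if e χ ≠ 0 then (1 : ℤ) else 0) := by
      apply Finset.sum_congr rfl
      intro χ hχ
      rcases he3 χ hχ with h | h | h
      · rw [h]; simp
      · rw [h]; simp
      · rw [h]; simp
    rw [R0, Finset.sum_boole] at h1
    exact_mod_cast h1.symm
  have hcval : ∀ χ ∈ B, c χ = if e χ ≠ 0 then (1 : ℂ) else -1 := by
    intro χ hχ
    by_cases h0 : e χ ≠ 0
    · rw [if_pos h0]
      rcases hc1 χ with h | h
      · exact h
      · exact absurd (hnegz χ h) h0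
    · rw [if_neg h0]
      rcases hc1 χ with h | h
      · exact absurd h0 (not_not.mpr (hpos χ hχ h))
      · exact h
  have hcount : ((B.filter (fun χ => e χ ≠ 0)).card : ℂ) -
      ((B.filter (fun χ => ¬ e χ ≠ 0)).card : ℂ) = 1 := by
    rw [← hsumc, Finset.sum_congr rfl hcval, Finset.sum_ite, Finset.sum_const, Finset.sum_const]
    simp
    ring
  have hsplit := Finset.card_filter_add_card_filter_not (s := B) (fun χ => e χ ≠ 0)
  rw [hP] at hcount hsplit
  have h7 : ((B.filter (fun χ => ¬ e χ ≠ 0)).card : ℂ) = ((3 : ℕ) : ℂ) := by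
    push_cast
    linear_combination -hcount
  have h8 : (B.filter (fun χ => ¬ e χ ≠ 0)).card = 3 := by exact_mod_cast h7
  omega

end Block

section Fusion

universe u

variable {G : Type u} [Group G] [Finite G] (S : Sylow 2 G) (ψ : QuaternionGroup 2 →* G)
  (hψ : Function.Injective ψ) (hS : ψ.range = (S : Subgroup G))

include hψ hS

/-- if the focal subgroup of `S` is `S`, a nontrivial sign character of `S` separates two fused elements -/
theorem exists_fused' (hfoc : (S : Subgroup G).focalSubgroup = S) (l : QuaternionGroup 2 →* ℤˣ)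
    (q₀ : QuaternionGroup 2) (hq₀ : l q₀ ≠ 1) :
    ∃ q r : QuaternionGroup 2, IsConj (ψ q) (ψ r) ∧ l q ≠ l r := by
  haveI : Fact (Nat.Prime 2) := ⟨Nat.prime_two⟩
  by_contra hcon
  push Not at hcon
  have h1 := focal_le_ker S ψ hψ hS l hcon
  rw [hfoc, ← hS] at h1
  obtain ⟨r, hr, hr'⟩ := h1 ⟨q₀, rfl⟩
  have h3 := hψ hr'
  rw [h3] at hr
  exact hq₀ hr

/-- reduce a fused pair separated by a sign character to class representatives -/
theorem exists_fused_reps' (hfoc : (S : Subgroup G).focalSubgroup = S) (l : QuaternionGroup 2 →* ℤˣ)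
    (q₀ : QuaternionGroup 2) (hq₀ : l q₀ ≠ 1) :
    ∃ q r : QuaternionGroup 2, (q = a 1 ∨ q = xa 0 ∨ q = xa 1) ∧ (r = a 1 ∨ r = xa 0 ∨ r = xa 1) ∧
      IsConj (ψ q) (ψ r) ∧ l q ≠ l r := by
  obtain ⟨q, r, hqr, hne⟩ := exists_fused' S ψ hψ hS hfoc l q₀ hq₀
  have hord : orderOf q = orderOf r := by
    obtain ⟨c, hc⟩ := isConj_iff.mp hqr
    rw [← orderOf_injective ψ hψ q, ← orderOf_injective ψ hψ r, ← hc, orderOf_conj']
  -- elements of order at most two
  have hsmall : ∀ q : QuaternionGroup 2, (q = 1 ∨ q = a 2) → l q = 1 ∧ orderOf q ≤ 2 := by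
    rintro q (rfl | rfl)
    · exact ⟨map_one l, by rw [orderOf_one]; omega⟩
    · exact ⟨lam_one_or l, by rw [q8_orderOf_a_two]⟩
  have hbig : ∀ q : QuaternionGroup 2,
      ((∃ c : QuaternionGroup 2, c * q * c⁻¹ = a 1) ∨ (∃ c : QuaternionGroup 2, c * q * c⁻¹ = xa 0) ∨
        (∃ c : QuaternionGroup 2, c * q * c⁻¹ = xa 1)) →
      orderOf q = 4 ∧ ∃ q' : QuaternionGroup 2, (q' = a 1 ∨ q' = xa 0 ∨ q' = xa 1) ∧
        IsConj (ψ q) (ψ q') ∧ l q = l q' := by
    rintro q (⟨c, hc⟩ | ⟨c, hc⟩ | ⟨c, hc⟩)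
    · refine ⟨?_, a 1, Or.inl rfl, ?_, ?_⟩
      · rw [← orderOf_conj' c q, hc, orderOf_a_one]
      · exact isConj_iff.mpr ⟨ψ c, by rw [← hc, map_mul, map_mul, map_inv]⟩
      · rw [← hc, lam_conj]
    · refine ⟨?_, xa 0, Or.inr (Or.inl rfl), ?_, ?_⟩
      · rw [← orderOf_conj' c q, hc, orderOf_xa]
      · exact isConj_iff.mpr ⟨ψ c, by rw [← hc, map_mul, map_mul, map_inv]⟩
      · rw [← hc, lam_conj]
    · refine ⟨?_, xa 1, Or.inr (Or.inr rfl), ?_, ?_⟩
      · rw [← orderOf_conj' c q, hc, orderOf_xa]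
      · exact isConj_iff.mpr ⟨ψ c, by rw [← hc, map_mul, map_mul, map_inv]⟩
      · rw [← hc, lam_conj]
  rcases q8_normal_form q with hq | hq <;> rcases q8_normal_form r with hr | hr
  · exfalso
    exact hne (by rw [(hsmall q hq).1, (hsmall r hr).1])
  · exfalso
    have h1 := (hsmall q hq).2
    have h2 := (hbig r hr).1
    omega
  · exfalso
    have h1 := (hsmall r hr).2
    have h2 := (hbig q hq).1
    omega
  · obtain ⟨-, q', hq', hqq', hlq⟩ := hbig q hq
    obtain ⟨-, r', hr', hrr', hlr⟩ := hbig r hr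
    exact ⟨q', r', hq', hr', (hqq'.symm.trans hqr).trans hrr', by rw [← hlq, ← hlr]; exact hne⟩

/-- if the focal subgroup of `S` is `S`, all elements of order four of `S` are conjugate in `G` -/
theorem fusion_of_focal (hfoc : (S : Subgroup G).focalSubgroup = S) :
    ∀ i : ZMod (2 * 2), IsConj (ψ (xa i)) (ψ (a 1)) := by
  have hne : (1 : ℤˣ) ≠ -1 := by decide
  -- the three pairwise statements
  have c1 : IsConj (ψ (a 1)) (ψ (xa 0)) ∨ IsConj (ψ (a 1)) (ψ (xa 1)) := by
    obtain ⟨q, r, hq, hr, hqr, hl⟩ := exists_fused_reps' S ψ hψ hS hfoc lam1 (xa 0)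
      (by rw [lam1_vals.2.1]; decide)
    rcases hq with rfl | rfl | rfl <;> rcases hr with rfl | rfl | rfl
    · exact absurd rfl hl
    · exact Or.inl hqr
    · exact Or.inr hqr
    · exact Or.inl hqr.symm
    · exact absurd rfl hl
    · exact absurd (by rw [lam1_vals.2.1, lam1_vals.2.2]) hl
    · exact Or.inr hqr.symm
    · exact absurd (by rw [lam1_vals.2.1, lam1_vals.2.2]) hl
    · exact absurd rfl hl
  have c2 : IsConj (ψ (a 1)) (ψ (xa 0)) ∨ IsConj (ψ (xa 0)) (ψ (xa 1)) := by
    obtain ⟨q, r, hq, hr, hqr, hl⟩ := exists_fused_reps' S ψ hψ hS hfoc lam2 (a 1)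
      (by rw [lam2_vals.1]; decide)
    rcases hq with rfl | rfl | rfl <;> rcases hr with rfl | rfl | rfl
    · exact absurd rfl hl
    · exact Or.inl hqr
    · exact absurd (by rw [lam2_vals.1, lam2_vals.2.2]) hl
    · exact Or.inl hqr.symm
    · exact absurd rfl hl
    · exact Or.inr hqr
    · exact absurd (by rw [lam2_vals.1, lam2_vals.2.2]) hl
    · exact Or.inr hqr.symm
    · exact absurd rfl hl
  have c3 : IsConj (ψ (a 1)) (ψ (xa 1)) ∨ IsConj (ψ (xa 0)) (ψ (xa 1)) := by
    obtain ⟨q, r, hq, hr, hqr, hl⟩ := exists_fused_reps' S ψ hψ hS hfoc lam3 (a 1)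
      (by rw [lam3_vals.1]; decide)
    rcases hq with rfl | rfl | rfl <;> rcases hr with rfl | rfl | rfl
    · exact absurd rfl hl
    · exact absurd (by rw [lam3_vals.1, lam3_vals.2.1]) hl
    · exact Or.inl hqr
    · exact absurd (by rw [lam3_vals.1, lam3_vals.2.1]) hl
    · exact absurd rfl hl
    · exact Or.inr hqr
    · exact Or.inl hqr.symm
    · exact Or.inr hqr.symm
    · exact absurd rfl hl
  have h12 : IsConj (ψ (a 1)) (ψ (xa 0)) := by
    rcases c1 with h | h
    · exact h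
    · rcases c2 with h' | h'
      · exact h'
      · exact h.trans h'.symm
  have h13 : IsConj (ψ (a 1)) (ψ (xa 1)) := by
    rcases c3 with h | h
    · exact h
    · exact h12.trans h
  have hmap : ∀ q r c : QuaternionGroup 2, c * q * c⁻¹ = r → IsConj (ψ q) (ψ r) :=
    fun q r c hc => isConj_iff.mpr ⟨ψ c, by rw [← hc, map_mul, map_mul, map_inv]⟩
  obtain ⟨⟨c2', hc2⟩, ⟨c3', hc3⟩⟩ := q8_xa_conj
  intro i
  fin_cases i
  · exact h12.symm
  · exact h13.symm
  · exact (hmap _ _ c2' hc2).trans h12.symm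
  · exact (hmap _ _ c3' hc3).trans h13.symm


omit hψ hS in
/-- a proper subgroup of `Q8` is contained in a cyclic subgroup -/
theorem q8_proper_le_zpowers (H : Subgroup (QuaternionGroup 2)) (hH : H ≠ ⊤) :
    ∃ q₀ : QuaternionGroup 2, H ≤ Subgroup.zpowers q₀ := by
  haveI : Fact (Nat.Prime 2) := ⟨Nat.prime_two⟩
  by_cases hex : ∃ q ∈ H, q ^ 2 ≠ 1
  · obtain ⟨q, hqM, hq2⟩ := hex
    refine ⟨q, ?_⟩
    have hle : Subgroup.zpowers q ≤ H := Subgroup.zpowers_le.mpr hqM
    have hq4 : orderOf q = 4 := by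
      have := orderOf_eq_prime_pow (p := 2) (n := 1) (x := q) (by simpa using hq2)
        (by simpa using q8_pow_four q)
      simpa using this
    have hc1 : Nat.card (Subgroup.zpowers q) = 4 := by rw [Nat.card_zpowers, hq4]
    have hcQ : Nat.card (QuaternionGroup 2) = 8 := by
      rw [Nat.card_eq_fintype_card, QuaternionGroup.card]
    have hc2 : Nat.card H ∣ 8 := by
      have := Subgroup.card_subgroup_dvd_card H
      rwa [hcQ] at this
    have hc3 : 4 ∣ Nat.card H := hc1 ▸ Subgroup.card_dvd_of_le hle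
    have hc4 : Nat.card H ≠ 8 := by
      intro h8
      apply hH
      exact (Subgroup.card_eq_iff_eq_top _).mp (by rw [h8, hcQ])
    have hc5 : Nat.card H = 4 := by
      have hle8 : Nat.card H ≤ 8 := Nat.le_of_dvd (by norm_num) hc2
      obtain ⟨k, hk⟩ := hc3
      have hpos : 0 < Nat.card H := Nat.card_pos
      omega
    exact (Subgroup.eq_of_le_of_card_ge hle (by rw [hc1, hc5])).ge
  · push Not at hex
    refine ⟨a 2, ?_⟩
    intro q hq
    rcases q8_sq_one q (hex q hq) with h | h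
    · rw [h]; exact Subgroup.one_mem _
    · rw [h]; exact Subgroup.mem_zpowers _

/-- if `O(G) = 1` and `G` is not a `2`-group, the focal subgroup of `S` is `S` -/
theorem focal_eq_of_ne_top (hO : ∀ N : Subgroup G, N.Normal → Odd (Nat.card N) → N = ⊥)
    (hG : (S : Subgroup G) ≠ ⊤) : (S : Subgroup G).focalSubgroup = S := by
  haveI : Fact (Nat.Prime 2) := ⟨Nat.prime_two⟩
  by_contra hfoc
  apply hG
  have hO2 : pPrimeCore 2 G = ⊥ := by
    rw [eq_bot_iff]
    apply sSup_le
    rintro N ⟨hN1, hN2⟩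
    exact (hO N hN1 (Nat.coprime_two_right.mp hN2)).le
  have hKS : (S : Subgroup G).transferFocal.ker ⊓ (S : Subgroup G) =
      (S : Subgroup G).focalSubgroup := Subgroup.ker_transferFocal_inf_eq_focalSubgroup S
  have hH : ((S : Subgroup G).focalSubgroup).comap ψ ≠ ⊤ := by
    intro h
    apply hfoc
    apply le_antisymm (Subgroup.focalSubgroup_le _)
    intro y hy
    have hy' : y ∈ ψ.range := hS ▸ hy
    obtain ⟨q, rfl⟩ := hy'
    have : q ∈ ((S : Subgroup G).focalSubgroup).comap ψ := h ▸ Subgroup.mem_top q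
    exact this
  obtain ⟨q₀, hq₀⟩ := q8_proper_le_zpowers _ hH
  have hTB : (S : Subgroup G) ⊓ (S : Subgroup G).transferFocal.ker ≤
      Subgroup.zpowers (ψ q₀) := by
    rw [inf_comm, hKS]
    intro y hy
    have hyS : y ∈ (S : Subgroup G) := Subgroup.focalSubgroup_le _ hy
    rw [← hS] at hyS
    obtain ⟨q, rfl⟩ := hyS
    have hq : q ∈ Subgroup.zpowers q₀ := hq₀ hy
    obtain ⟨j, rfl⟩ := Subgroup.mem_zpowers_iff.mp hq
    rw [map_zpow]
    exact Subgroup.zpow_mem_zpowers _ _
  obtain ⟨R⟩ : Nonempty (Sylow 2 (S : Subgroup G).transferFocal.ker) := inferInstance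
  have hRc := Cfsg.Agent.H60.isCyclic_sylow_of_normal (S : Subgroup G).transferFocal.ker S
    (Subgroup.zpowers (ψ q₀)) inferInstance hTB R
  have hK2 : IsPGroup 2 (S : Subgroup G).transferFocal.ker :=
    Cfsg.Agent.H60.isPGroup_two_of_normal_cyclic_sylow hO2 _ R hRc
  have hQ : IsPGroup 2 (G ⧸ (S : Subgroup G).transferFocal.ker) :=
    (S.isPGroup'.to_quotient _).of_equiv
      (Subgroup.transferFocal.quotientKerMulEquivQuotientFocalSubroupOf S).symm
  have hG2 : IsPGroup 2 G := by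
    obtain ⟨a', ha'⟩ := IsPGroup.iff_card.mp hK2
    obtain ⟨b', hb'⟩ := IsPGroup.iff_card.mp hQ
    apply IsPGroup.of_card (n := a' + b')
    rw [← Subgroup.card_mul_index (S : Subgroup G).transferFocal.ker, Subgroup.index_eq_card,
      ha', hb', pow_add]
  exact (S.is_maximal' (hG2.to_subgroup ⊤) le_top).symm

end Fusion

end Cfsg.Agent.H59.BSQ8
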