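import Cfsg.Agent.S4441
import Cfsg.Agent.S0910
import Cfsg.Agent.H2.CensusStmts
import Cfsg.Agent.H11.SmallSimple
import Cfsg.Agent.H81.BlockDeg
import Cfsg.Agent.H4.PaQb

/-!
# S0983-BG3 (helper59, for helper2): character-level Brauer data for a Sylow subgroup of prime
order in a non-cyclic simple group, from S4441 and S0910.
-/

set_option autoImplicit false
set_option linter.unusedSectionVars false
set_option linter.style.haveILetI false

namespace Cfsg.Agent.H59.Census

open Cfsg Cfsg.Agent.H2.Census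

universe u

/-- The principal character as an irreducible character. -/
noncomputable def trivC (G : Type u) [Group G] : IrrCharacter G :=
  ⟨fun _ => 1, Cfsg.Agent.H4.isIrrCharacter_one⟩

theorem charDegree_trivC (G : Type u) [Group G] : charDegree ((trivC G : IrrCharacter G) : G → ℂ) = 1 := by
  have h := (Cfsg.Agent.H81.irr_charDegree (trivC G)).1
  have h1 : ((trivC G : IrrCharacter G) : G → ℂ) 1 = 1 := rfl
  rw [h1] at h
  exact_mod_cast h.symm

/-- Sum of the squares of the irreducible degrees. -/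
theorem card_eq_sum_sq (G : Type u) [Group G] [Finite G] :
    Nat.card G = @Finset.sum _ _ _ (@Finset.univ _ (Cfsg.Agent.H4.fintypeIrr G))
      (fun ψ : IrrCharacter G => charDegree (ψ : G → ℂ) * charDegree (ψ : G → ℂ)) := by
  classical
  letI := Cfsg.Agent.H4.fintypeIrr G
  have hsq : (Nat.card G : ℂ) =
      ∑ ψ : IrrCharacter G, ((charDegree (ψ : G → ℂ) : ℕ) : ℂ) ^ 2 := by
    rw [← Cfsg.Agent.H4.sum_irr_sq (G := G), Cfsg.Agent.H4.finsum_irr_eq_sum]
    refine Finset.sum_congr rfl fun ψ _ => ?_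
    rw [(Cfsg.Agent.H81.irr_charDegree ψ).1]
  have h2 : Nat.card G = ∑ ψ : IrrCharacter G, charDegree (ψ : G → ℂ) ^ 2 := by
    exact_mod_cast hsq
  rw [h2]
  exact Finset.sum_congr rfl fun ψ _ => sq _

/-- Residues and sign of a degree congruent to `±1`. -/
theorem mod_facts (p D : ℕ) (hp3 : 3 ≤ p) (s : ℤ) (hs : s = 1 ∨ s = -1)
    (h : (D : ℤ) ≡ s [ZMOD (p : ℤ)]) : (D % p = 1 ∨ D % p = p - 1) ∧ sgn p D = s := by
  unfold Int.ModEq at h
  have hc : ((D % p : ℕ) : ℤ) = (D : ℤ) % (p : ℤ) := Int.natCast_mod D p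
  rcases hs with rfl | rfl
  · have h1 : (1 : ℤ) % (p : ℤ) = 1 := Int.emod_eq_of_lt (by norm_num) (by omega)
    rw [h1] at h
    have h2 : D % p = 1 := by omega
    exact ⟨Or.inl h2, by simp [sgn, h2]⟩
  · have h1 : (-1 : ℤ) % (p : ℤ) = (p : ℤ) - 1 := by
      have : (-1 : ℤ) = ((p : ℤ) - 1) + (p : ℤ) * (-1) := by ring
      rw [this, Int.add_mul_emod_self_left]
      exact Int.emod_eq_of_lt (by omega) (by omega)
    rw [h1] at h
    have h2 : D % p = p - 1 := by omega
    have h3 : D % p ≠ 1 := by omega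
    exact ⟨Or.inr h2, by simp [sgn, h3]⟩

theorem blockChars : StmtBlockChars.{u} := by
  intro G _ _ _ hnc p _ hp2 M hM P hP e he
  classical
  have hp : p.Prime := Fact.out
  have hp3 : 3 ≤ p := by
    have := hp.two_le
    omega
  letI : Fintype G := Fintype.ofFinite G
  letI : Fintype (IrrCharacter G) := Cfsg.Agent.H4.fintypeIrr G
  have hna : ∃ a b : G, a * b ≠ b * a := by
    have h := Cfsg.Agent.H11.not_comm_of_not_isCyclic hnc
    push Not at h
    exact h
  -- `e ∣ p - 1`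
  have hediv : e ∣ p - 1 := by
    have hcyc : IsCyclic (P : Subgroup G) := isCyclic_of_prime_card hP
    have key := Subgroup.card_dvd_of_injective _
      (QuotientGroup.kerLift_injective (P : Subgroup G).normalizerMonoidHom)
    rw [Subgroup.normalizerMonoidHom_ker, ← Subgroup.index, ← Subgroup.relIndex, hcyc.card_mulAut,
      hP, Nat.totient_prime hp, he] at key
    exact key
  have he1 : 1 ≤ e := Nat.pos_of_dvd_of_pos hediv (by omega)
  have het : e * ((p - 1) / e) = p - 1 := Nat.mul_div_cancel' hediv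
  have ht1 : 1 ≤ (p - 1) / e := Nat.div_pos (Nat.le_of_dvd (by omega) hediv) he1
  obtain ⟨X, Y, hB, hdisj, hX, hY, εX, ε, hXp, hε, hYdeg, hYeq, hYsum⟩ :=
    Cfsg.Agent.S4441.result p M hM hp2 P hP e he
  obtain ⟨Xf, rfl⟩ : ∃ Xf : Finset (IrrCharacter G), X = ↑Xf :=
    ⟨(Set.toFinite X).toFinset, (Set.Finite.coe_toFinset _).symm⟩
  obtain ⟨Yf, rfl⟩ : ∃ Yf : Finset (IrrCharacter G), Y = ↑Yf :=
    ⟨(Set.toFinite Y).toFinset, (Set.Finite.coe_toFinset _).symm⟩
  have hXc : Xf.card = e := by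
    rw [← hX, Nat.card_coe_set_eq, Set.ncard_coe_finset]
  have hYc : Yf.card = (p - 1) / e := by
    rw [← hY, Nat.card_coe_set_eq, Set.ncard_coe_finset]
  have hdXY : ∀ χ, χ ∈ Xf → χ ∈ Yf → False := fun χ h1 h2 =>
    Set.disjoint_left.mp hdisj (Finset.mem_coe.mpr h1) (Finset.mem_coe.mpr h2)
  have hone : ¬ p ∣ orderOf (1 : G) := by
    rw [orderOf_one]
    exact hp.not_dvd_one
  have hd1 : ∀ χ : IrrCharacter G, (χ : G → ℂ) 1 = (charDegree (χ : G → ℂ) : ℂ) := fun χ =>
    (Cfsg.Agent.H81.irr_charDegree χ).1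
  have hBX : ∀ χ, χ ∈ Xf → χ ∈ principalBlock M G := fun χ h => by
    rw [hB]
    exact Or.inl (Finset.mem_coe.mpr h)
  have hBY : ∀ χ, χ ∈ Yf → χ ∈ principalBlock M G := fun χ h => by
    rw [hB]
    exact Or.inr (Finset.mem_coe.mpr h)
  have hBcases : ∀ χ, χ ∈ principalBlock M G → χ ∈ Xf ∨ χ ∈ Yf := fun χ h => by
    rw [hB] at h
    rcases h with h | h
    · exact Or.inl (Finset.mem_coe.mp h)
    · exact Or.inr (Finset.mem_coe.mp h)
  -- a character of degree one in the principal block is trivial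
  have hdeg1 : ∀ χ : IrrCharacter G, χ ∈ principalBlock M G → charDegree (χ : G → ℂ) = 1 →
      χ = trivC G := by
    intro χ hχ h
    have hdeg : (χ : G → ℂ) 1 = (p : ℂ) ^ 0 := by
      rw [hd1 χ, h]
      simp
    exact Subtype.ext (Cfsg.Agent.S0910.result p M hM hna χ hχ 0 hdeg)
  have htrivB : trivC G ∈ principalBlock M G := Cfsg.Agent.H81.mem_blockOf_self hM (trivC G)
  have hdtriv := charDegree_trivC G
  -- the degree relation
  have hsumZ : ∀ θ ∈ Yf, ε * (charDegree (θ : G → ℂ) : ℤ) =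
      ∑ χ ∈ Xf, εX χ * (charDegree (χ : G → ℂ) : ℤ) := by
    intro θ hθ
    have h := hYsum θ (Finset.mem_coe.mpr hθ) 1 hone
    rw [finsum_mem_coe_finset, hd1 θ] at h
    have h2 : ((ε * (charDegree (θ : G → ℂ) : ℤ) : ℤ) : ℂ) =
        ((∑ χ ∈ Xf, εX χ * (charDegree (χ : G → ℂ) : ℤ) : ℤ) : ℂ) := by
      push_cast
      rw [h]
      exact Finset.sum_congr rfl fun χ _ => by rw [hd1 χ]
    exact_mod_cast h2
  have hYdegeq : ∀ θ ∈ Yf, ∀ θ' ∈ Yf, charDegree (θ : G → ℂ) = charDegree (θ' : G → ℂ) := by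
    intro θ hθ θ' hθ'
    have h := hYeq θ (Finset.mem_coe.mpr hθ) θ' (Finset.mem_coe.mpr hθ') 1 hone
    rw [hd1 θ, hd1 θ'] at h
    exact_mod_cast h
  have hXfacts : ∀ χ ∈ Xf, (charDegree (χ : G → ℂ) % p = 1 ∨ charDegree (χ : G → ℂ) % p = p - 1) ∧
      sgn p (charDegree (χ : G → ℂ)) = εX χ := fun χ hχ =>
    mod_facts p _ hp3 (εX χ) (hXp χ (Finset.mem_coe.mpr hχ)).1 (hXp χ (Finset.mem_coe.mpr hχ)).2.1
  -- squares
  have hsq : ∑ χ ∈ Xf, charDegree (χ : G → ℂ) * charDegree (χ : G → ℂ) +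
      ∑ χ ∈ Yf, charDegree (χ : G → ℂ) * charDegree (χ : G → ℂ) ≤ Nat.card G := by
    have hdj : Disjoint Xf Yf := Finset.disjoint_left.mpr fun χ h1 h2 => hdXY χ h1 h2
    rw [← Finset.sum_union hdj, card_eq_sum_sq G]
    exact Finset.sum_le_sum_of_subset (Finset.subset_univ _)
  rcases hBcases _ htrivB with htX | htY
  · -- the trivial character is non-exceptional
    obtain ⟨θ, hθ⟩ : Yf.Nonempty := by
      rw [← Finset.card_pos, hYc]
      exact ht1
    have hεt : εX (trivC G) = 1 := by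
      have h := (hXfacts _ htX).2
      rw [hdtriv] at h
      rw [← h]
      have : 1 % p = 1 := Nat.mod_eq_of_lt (by omega)
      simp [sgn, this]
    refine ⟨Xf.erase (trivC G), θ, ε, ?_, ?_, hε, ?_, ?_, ?_, ?_, ?_, ?_, ?_, ?_⟩
    · rw [Finset.card_erase_of_mem htX, hXc]
    · intro h
      exact hdXY θ (Finset.mem_of_mem_erase h) hθ
    · intro χ hχ
      have hχX := Finset.mem_of_mem_erase hχ
      refine ⟨fun h => ?_, (hXfacts χ hχX).1⟩
      exact (Finset.ne_of_mem_erase hχ) (hdeg1 χ (hBX χ hχX) h)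
    · intro h
      have := hdeg1 θ (hBY θ hθ) h
      rw [this] at hθ
      exact hdXY _ htX hθ
    · exact hYdeg θ (Finset.mem_coe.mpr hθ)
    · have h := hsumZ θ hθ
      rw [← Finset.add_sum_erase Xf _ htX, hεt, hdtriv] at h
      rw [h]
      have : ∑ χ ∈ Xf.erase (trivC G), sgn p (charDegree (χ : G → ℂ)) * (charDegree (χ : G → ℂ) : ℤ)
          = ∑ χ ∈ Xf.erase (trivC G), εX χ * (charDegree (χ : G → ℂ) : ℤ) :=
        Finset.sum_congr rfl fun χ hχ => by rw [(hXfacts χ (Finset.mem_of_mem_erase hχ)).2]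
      rw [this]
      push_cast
      ring
    · have hY2 : ∑ χ ∈ Yf, charDegree (χ : G → ℂ) * charDegree (χ : G → ℂ) =
          (p - 1) / e * (charDegree (θ : G → ℂ) * charDegree (θ : G → ℂ)) := by
        rw [← hYc, ← smul_eq_mul, ← Finset.sum_const]
        exact Finset.sum_congr rfl fun χ hχ => by rw [hYdegeq χ hχ θ hθ]
      rw [← Finset.add_sum_erase Xf _ htX, hdtriv, hY2] at hsq
      exact hsq
    · exact fun χ hχ => hBX χ (Finset.mem_of_mem_erase hχ)
    · exact hBY θ hθ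
    · intro χ hχ
      rcases hBcases χ hχ with h | h
      · by_cases hχt : χ = trivC G
        · left
          rw [hχt, hdtriv]
        · right; left
          exact Finset.mem_erase.mpr ⟨hχt, h⟩
      · right; right
        exact hYdegeq χ h θ hθ
  · -- the trivial character is exceptional
    have hYtriv : ∀ θ ∈ Yf, θ = trivC G := fun θ hθ =>
      hdeg1 θ (hBY θ hθ) (by rw [hYdegeq θ hθ _ htY, hdtriv])
    have hYf : Yf = {trivC G} := by
      ext θ
      rw [Finset.mem_singleton]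
      exact ⟨fun h => hYtriv θ h, fun h => by rw [h]; exact htY⟩
    have ht : (p - 1) / e = 1 := by
      rw [← hYc, hYf, Finset.card_singleton]
    have hep : e = p - 1 := by
      rw [ht, mul_one] at het
      exact het
    have hεm : ε = -1 := by
      rcases hε with h | h
      · exfalso
        have h1 := hYdeg _ (Finset.mem_coe.mpr htY)
        rw [hdtriv, h, hep, one_mul] at h1
        unfold Int.ModEq at h1
        have h2 : ((1 : ℕ) : ℤ) % (p : ℤ) = 1 := Int.emod_eq_of_lt (by norm_num) (by omega)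
        have h3 : ((p - 1 : ℕ) : ℤ) % (p : ℤ) = ((p - 1 : ℕ) : ℤ) :=
          Int.emod_eq_of_lt (by omega) (by omega)
        rw [h2, h3] at h1
        omega
      · exact h
    obtain ⟨χ₁, hχ₁⟩ : Xf.Nonempty := by
      rw [← Finset.card_pos, hXc]
      exact he1
    have hXne : ∀ χ ∈ Xf, charDegree (χ : G → ℂ) ≠ 1 := by
      intro χ hχ h
      have := hdeg1 χ (hBX χ hχ) h
      rw [this] at hχ
      exact hdXY _ hχ htY
    have hεχ := (hXp χ₁ (Finset.mem_coe.mpr hχ₁)).1
    refine ⟨Xf.erase χ₁, χ₁, -εX χ₁, ?_, ?_, ?_, ?_, hXne χ₁ hχ₁, ?_, ?_, ?_, ?_, hBX χ₁ hχ₁, ?_⟩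
    · rw [Finset.card_erase_of_mem hχ₁, hXc]
    · exact Finset.notMem_erase χ₁ Xf
    · rcases hεχ with h | h <;> rw [h] <;> simp
    · intro χ hχ
      have hχX := Finset.mem_of_mem_erase hχ
      exact ⟨hXne χ hχX, (hXfacts χ hχX).1⟩
    · have h1 := (hXp χ₁ (Finset.mem_coe.mpr hχ₁)).2.1
      unfold Int.ModEq at h1
      rw [h1, hep, Nat.cast_sub (by omega), Nat.cast_one]
      have : -εX χ₁ * ((p : ℤ) - 1) = εX χ₁ + (p : ℤ) * (-εX χ₁) := by ring
      rw [this, Int.add_mul_emod_self_left]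
    · have h := hsumZ _ htY
      rw [← Finset.add_sum_erase Xf _ hχ₁, hεm, hdtriv] at h
      have : ∑ χ ∈ Xf.erase χ₁, sgn p (charDegree (χ : G → ℂ)) * (charDegree (χ : G → ℂ) : ℤ)
          = ∑ χ ∈ Xf.erase χ₁, εX χ * (charDegree (χ : G → ℂ) : ℤ) :=
        Finset.sum_congr rfl fun χ hχ => by rw [(hXfacts χ (Finset.mem_of_mem_erase hχ)).2]
      rw [this]
      push_cast at h
      linarith
    · rw [hYf, Finset.sum_singleton, hdtriv, ← Finset.add_sum_erase Xf _ hχ₁] at hsq
      rw [ht]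
      omega
    · exact fun χ hχ => hBX χ (Finset.mem_of_mem_erase hχ)
    · intro χ hχ
      rcases hBcases χ hχ with h | h
      · by_cases hχ1 : χ = χ₁
        · right; right
          rw [hχ1]
        · right; left
          exact Finset.mem_erase.mpr ⟨hχ1, h⟩
      · left
        rw [hYtriv χ h, hdtriv]

end Cfsg.Agent.H59.Census
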