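import Cfsg.Agent.H59.FRDefs
import Cfsg.Agent.H4.Irr
import Cfsg.Agent.H4.Chars

/-!
# Fully ramified characters: assembly of the team project S4563 + S4564 (helper59)
-/

set_option autoImplicit false
set_option linter.unusedSectionVars false
set_option linter.style.haveILetI false

namespace Cfsg.Agent.H59.FR

open Cfsg Cfsg.Agent.Clifford

universe u

/-- LOC-A from A1, A2, A3. -/
theorem locA_of (h1 : A1Stmt.{u}) (h2 : A2Stmt.{u}) (h3 : A3Stmt.{u}) : LocAStmt.{u} := by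
  intro G _ _ Z M _ _ θ ξ e₁ hL p _ k hk hyp
  classical
  have hp : p.Prime := Fact.out
  haveI : Fintype ↥M := Fintype.ofFinite _
  obtain ⟨⟨η, hη⟩, htrans, hc⟩ := h1 G Z M θ ξ e₁ hL
  obtain ⟨c, hc0, hcc, hcsq⟩ := hc η hη
  have hc1 : c = 1 := by
    rcases hyp with hcyc | ⟨ρ, f, hρ, hρZ, harith⟩
    · exact h2 G Z M θ ξ e₁ hL hcyc η hη c hcc hcsq
    · obtain ⟨a, ha, hca⟩ := h3 G Z M θ ξ e₁ hL ρ f hρ hρZ η hη c hcc
      rw [hk] at ha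
      have hpa := harith a ha
      have hdvd : c ^ 2 ∣ p ^ k := by
        rw [hcsq, ← hk]
        exact Subgroup.relIndex_dvd_index_of_normal M _
      have hcp : c ∣ p ^ k := dvd_trans (dvd_pow_self c two_ne_zero) hdvd
      obtain ⟨j, -, rfl⟩ := (Nat.dvd_prime_pow hp).mp hcp
      by_contra hne
      have hj : j ≠ 0 := by
        rintro rfl
        exact hne (pow_zero p)
      exact hpa (dvd_trans (dvd_pow_self p hj) hca)
  refine ⟨η, hη, ?_, fun η' hη' => htrans η η' hη hη'⟩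
  intro g hg
  have hI : M.relIndex (inertia M η) = 1 := by
    rw [← hcsq, hc1]
    norm_num
  exact Subgroup.relIndex_eq_one.mp hI ((mem_inertia M).mpr hg)

/-- `θ` is invariant. -/
theorem theta_inv {H : Type u} [Group H] [Finite H] (Z : Subgroup H) (χ : IrrCharacter H)
    (θ : IrrCharacter ↥Z) (e : ℕ) (he : e ^ 2 = Z.index)
    (hχ : ∀ z : ↥Z, (χ : H → ℂ) z = (e : ℂ) * (θ : ↥Z → ℂ) z) :
    ∀ (h : H) (z z' : ↥Z), (z' : H) = h * z * h⁻¹ → (θ : ↥Z → ℂ) z' = (θ : ↥Z → ℂ) z := by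
  intro h z z' hz
  have hcf := Cfsg.Agent.H4.isClassFunction_of_isCharacter
    (Cfsg.Agent.H4.isCharacter_of_isIrrCharacter χ.2)
  have h1 : (χ : H → ℂ) z' = (χ : H → ℂ) z := by
    rw [hz]
    exact hcf z h
  rw [hχ z', hχ z] at h1
  have he0 : (e : ℂ) ≠ 0 := by
    have : e ≠ 0 := by
      rintro rfl
      have := Subgroup.index_ne_zero_of_finite (H := Z)
      simp at he
      exact this he.symm
    exact_mod_cast this
  exact mul_left_cancel₀ he0 h1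

/-- The common core: a `p`-complement of `H ⧸ K`. -/
theorem core (hloc : LocHStmt.{u}) (hgt : GTStmt.{u}) (hfrat : FratStmt.{u})
    (H : Type u) [Group H] [Finite H] (Z : Subgroup H) [Z.Normal] (θ : IrrCharacter ↥Z)
    (hθ : ∀ (h : H) (z z' : ↥Z), (z' : H) = h * z * h⁻¹ → (θ : ↥Z → ℂ) z' = (θ : ↥Z → ℂ) z)
    (K : Subgroup H) [hKn : K.Normal] (hZK : Z ≤ K) (p : ℕ) [Fact p.Prime]
    (S : Subgroup H) (hZS : Z ≤ S) (ξ : IrrCharacter ↥S) (e₁ : ℕ) (he₁ : e₁ ^ 2 = Z.relIndex S)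
    (hξ : ∀ z : ↥Z, (ξ : ↥S → ℂ) ⟨(z : H), hZS z.2⟩ = (e₁ : ℂ) * (θ : ↥Z → ℂ) z)
    (a' k : ℕ) (ha' : Z.relIndex (S ⊓ K) = p ^ a') (hMK : ¬ p ∣ (S ⊓ K).relIndex K)
    (hk : (S ⊓ K).relIndex S = p ^ k)
    (hNK : ¬ p ∣ (S ⊓ K).relIndex (Subgroup.normalizer ((S ⊓ K : Subgroup H) : Set H) ⊓ K))
    (hSK : ¬ p ∣ (S ⊔ K).index)
    (hyp : (∃ g ∈ S, ∀ s ∈ S, ∃ j : ℕ, g ^ j * s ∈ S ⊓ K) ∨
      ∃ (ρ : ↥(S ⊓ K) → ℂ) (f : ℕ), IsCharacter ↥(S ⊓ K) ρ ∧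
        (∀ z : ↥Z, ρ ⟨(z : H), le_inf hZS hZK z.2⟩ = (f : ℂ) * (θ : ↥Z → ℂ) z) ∧
        ∀ a : ℕ, a * e₁ = f * p ^ k → ¬ p ∣ a) :
    ∃ T : Subgroup (H ⧸ K), (Nat.card ↥T).Coprime p ∧ ∃ a : ℕ, T.index = p ^ a := by
  have hZM : Z ≤ S ⊓ K := le_inf hZS hZK
  have hMS : S ⊓ K ≤ S := inf_le_left
  have hnorm : ∀ s ∈ S, ∀ m ∈ S ⊓ K, s * m * s⁻¹ ∈ S ⊓ K := fun s hs m hm =>
    ⟨S.mul_mem (S.mul_mem hs hm.1) (S.inv_mem hs), hKn.conj_mem m hm.2 s⟩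
  obtain ⟨F, hF1, hF2, hF3⟩ :=
    hloc H Z θ hθ S (S ⊓ K) hZM hMS hnorm ξ e₁ he₁ hξ p k hk hyp
  exact hgt H K S p k hk hNK (hfrat H Z K (S ⊓ K) hZM inf_le_right p a' ha' hMK) hSK F hF1 hF2 hF3

/-- S4564 from the pieces. -/
theorem s4564_of (hsyl : SylStmt.{u}) (hloc : LocHStmt.{u}) (hgt : GTStmt.{u})
    (hset : SetupStmt.{u}) (hfrat : FratStmt.{u}) (hcyc : CycStmt.{u})
    {H : Type u} [Group H] [Finite H] (Z : Subgroup H) [Z.Normal] (χ : IrrCharacter H)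
    (hfr : ∃ (θ : IrrCharacter ↥Z) (e : ℕ), e ^ 2 = Z.index ∧
      ∀ z : ↥Z, (χ : H → ℂ) z = (e : ℂ) * (θ : ↥Z → ℂ) z)
    (K : Subgroup H) [K.Normal] (hZK : Z ≤ K) (p : ℕ) [Fact p.Prime] (P : Sylow p (H ⧸ K))
    (hP : IsCyclic ↥P) : ∃ M : Subgroup (H ⧸ K), M.IsComplement' (P : Subgroup (H ⧸ K)) := by
  have hp : p.Prime := Fact.out
  obtain ⟨θ, e, he, hχ⟩ := hfr
  have hθ := theta_inv Z χ θ e he hχ
  obtain ⟨S, a, a', k, r, r', hZS, hcop, ha, hZi, hr', ha', hMK, hk, hKi, hr, hNK, hSK⟩ :=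
    hset H Z K hZK p
  obtain ⟨ξ, e₁, he₁, hξ⟩ := hsyl H Z χ θ e he hχ S hZS hcop
  obtain ⟨T, hT, a₀, hTi⟩ := core hloc hgt hfrat H Z θ hθ K hZK p S hZS ξ e₁ he₁ hξ a' k ha' hMK
    hk hNK hSK (Or.inl (hcyc H K S p k hk hSK P hP))
  refine ⟨T, ?_⟩
  have hcard : Nat.card ↥T * p ^ a₀ = Nat.card (H ⧸ K) := by
    rw [← hTi]
    exact Subgroup.card_mul_index T
  have hT0 : Nat.card ↥T ≠ 0 := Nat.card_pos.ne'
  have hTp : ¬ p ∣ Nat.card ↥T := fun h => by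
    have := Nat.Coprime.eq_one_of_dvd hT.symm h
    exact hp.one_lt.ne' this
  have hfac : (Nat.card (H ⧸ K)).factorization p = a₀ := by
    rw [← hcard, Nat.factorization_mul hT0 (pow_ne_zero _ hp.ne_zero), hp.factorization_pow,
      Finsupp.add_apply, Finsupp.single_eq_same, Nat.factorization_eq_zero_of_not_dvd hTp,
      zero_add]
  have hPc : Nat.card ↥(P : Subgroup (H ⧸ K)) = p ^ a₀ := by
    rw [Sylow.card_eq_multiplicity, hfac]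
  apply Subgroup.isComplement'_of_coprime
  · rw [hPc]
    exact hcard
  · rw [hPc]
    exact Nat.Coprime.pow_right _ hT

/-- S4563 from the pieces. -/
theorem s4563_of (hsyl : SylStmt.{u}) (hloc : LocHStmt.{u}) (hgt : GTStmt.{u})
    (hset : SetupStmt.{u}) (hfrat : FratStmt.{u}) (hhall : HallStmt.{u})
    (hind : IndResStmt.{u})
    {H : Type u} [Group H] [Fintype H] (Z : Subgroup H) [Z.Normal] (χ : IrrCharacter H)
    (hfr : ∃ (θ : IrrCharacter ↥Z) (e : ℕ), e ^ 2 = Z.index ∧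
      ∀ z : ↥Z, (χ : H → ℂ) z = (e : ℂ) * (θ : ↥Z → ℂ) z)
    (K : Subgroup H) [K.Normal] (hZK : Z ≤ K) (φ : ↥K → ℂ) (hφ : IsCharacter ↥K φ)
    (hφχ : indFun K φ = (χ : H → ℂ)) :
    Group.IsSolvable (H ⧸ K) ∧ (Group.IsSolvable ↥K → Group.IsSolvable H) := by
  obtain ⟨θ, e, he, hχ⟩ := hfr
  have hθ := theta_inv Z χ θ e he hχ
  obtain ⟨f, hef, hφZ⟩ := hind H Z χ θ e he hχ K hZK φ hφ hφχ
  have hsolv : Group.IsSolvable (H ⧸ K) := by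
    apply hhall (H ⧸ K)
    intro p hp
    haveI : Fact p.Prime := ⟨hp⟩
    obtain ⟨S, a, a', k, r, r', hZS, hcop, ha, hZi, hr', ha', hMK, hk, hKi, hr, hNK, hSK⟩ :=
      hset H Z K hZK p
    obtain ⟨ξ, e₁, he₁, hξ⟩ := hsyl H Z χ θ e he hχ S hZS hcop
    refine core hloc hgt hfrat H Z θ hθ K hZK p S hZS ξ e₁ he₁ hξ a' k ha' hMK hk hNK hSK
      (Or.inr ⟨fun m => φ ⟨(m : H), m.2.2⟩, f, ?_, ?_, ?_⟩)
    · exact Cfsg.Agent.H4.isCharacter_comp (Subgroup.inclusion (inf_le_right : S ⊓ K ≤ K)) hφ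
    · intro z
      exact hφZ z
    · intro a₁ ha₁ hpa
      -- `e₁² = p^a`, `e² = p^a r'`, `e = p^k r f`, `a₁ e₁ = f p^k`
      rw [ha] at he₁
      have h1 : a₁ ^ 2 * p ^ a = f ^ 2 * (p ^ k) ^ 2 := by
        have : (a₁ * e₁) ^ 2 = (f * p ^ k) ^ 2 := by rw [ha₁]
        rw [mul_pow, he₁, mul_pow] at this
        exact this
      have h2 : (p ^ k * r * f) ^ 2 = p ^ a * r' := by
        rw [← hKi, ← hef, he, hZi]
      have h3 : p ^ a * (r ^ 2 * a₁ ^ 2) = p ^ a * r' := by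
        rw [← h2]
        calc p ^ a * (r ^ 2 * a₁ ^ 2) = r ^ 2 * (a₁ ^ 2 * p ^ a) := by ring
          _ = r ^ 2 * (f ^ 2 * (p ^ k) ^ 2) := by rw [h1]
          _ = (p ^ k * r * f) ^ 2 := by ring
      have h4 : r ^ 2 * a₁ ^ 2 = r' := Nat.eq_of_mul_eq_mul_left (pow_pos hp.pos a) h3
      apply hr'
      rw [← h4]
      exact dvd_mul_of_dvd_right (dvd_pow hpa two_ne_zero) _
  refine ⟨hsolv, fun hK => ?_⟩
  haveI := hsolv
  haveI := hK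
  exact Group.isSolvable_of_ker_le_range K.subtype (QuotientGroup.mk' K) (by simp)

end Cfsg.Agent.H59.FR
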