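import Mathlib

/-!
# S3390 (fixity 2, Sylow 2-structure): definitions and piece statements

`Cfg S α β` : the standing configuration (S a 2-subgroup of G, T := S ⊓ G_α ≠ 1,
`Fix(T) = {α, β}`, `S ⊓ G_β = T`, some element of S maps α to β).
-/

set_option autoImplicit false

open scoped Pointwise

namespace Cfsg.Agent.H59.Fx2

universe u v

/-- An element with at most two fixed points: a third fixed point is one of the two. -/
theorem fix_three {G : Type u} [Group G] {Ω : Type v} [Finite Ω] [MulAction G Ω] {g : G}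
    (h : Nat.card (MulAction.fixedBy Ω g) ≤ 2) {a b c : Ω} (hab : a ≠ b)
    (ha : g • a = a) (hb : g • b = b) (hc : g • c = c) : c = a ∨ c = b := by
  by_contra hcon
  rw [not_or] at hcon
  have hsub : ({a, b, c} : Set Ω) ⊆ MulAction.fixedBy Ω g := by
    intro x hx
    rcases hx with rfl | rfl | rfl <;> assumption
  have h3 : ({a, b, c} : Set Ω).ncard = 3 :=
    Set.ncard_eq_three.mpr ⟨a, b, c, hab, fun h => hcon.1 h.symm, fun h => hcon.2 h.symm, rfl⟩
  have hle := Set.ncard_le_ncard hsub (Set.toFinite _)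
  have hcard : Nat.card (MulAction.fixedBy Ω g) = (MulAction.fixedBy Ω g).ncard :=
    Nat.card_coe_set_eq _
  omega

/-- The standing configuration. -/
structure Cfg {G : Type u} [Group G] {Ω : Type v} [MulAction G Ω] (S : Subgroup G) (α β : Ω) :
    Prop where
  fix2 : ∀ g : G, g ≠ 1 → Nat.card (MulAction.fixedBy Ω g) ≤ 2
  pg : IsPGroup 2 S
  ne : β ≠ α
  nt : S ⊓ MulAction.stabilizer G α ≠ ⊥
  stab : S ⊓ MulAction.stabilizer G β = S ⊓ MulAction.stabilizer G α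
  swap : ∃ s ∈ S, s • α = β
  fixT : ∀ t ∈ S, t ≠ 1 → t • α = α → ∀ ω : Ω, t • ω = ω → ω = α ∨ ω = β

/-- `S` stabilizes `{α, β}` (equivalently `T = S ⊓ G_α` is normal of index 2 in `S`). -/
def Idx2 {G : Type u} [Group G] {Ω : Type v} [MulAction G Ω] (S : Subgroup G) (α β : Ω) : Prop :=
  ∀ s ∈ S, s • α = α ∨ s • α = β

/-- `S` acts freely off `{α, β}`. -/
def Free {G : Type u} [Group G] {Ω : Type v} [MulAction G Ω] (S : Subgroup G) (α β : Ω) : Prop :=
  ∀ ω : Ω, ω ≠ α → ω ≠ β → ∀ y ∈ S, y • ω = ω → y = 1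

section lemmas

variable {G : Type u} [Group G] {Ω : Type v} [MulAction G Ω] {S : Subgroup G} {α β : Ω}

theorem Cfg.fixβ (h : Cfg S α β) {t : G} (ht : t ∈ S) (hα : t • α = α) : t • β = β := by
  have h1 : t ∈ S ⊓ MulAction.stabilizer G β := h.stab ▸ ⟨ht, hα⟩
  exact h1.2

theorem Cfg.fixα (h : Cfg S α β) {t : G} (ht : t ∈ S) (hβ : t • β = β) : t • α = α := by
  have h1 : t ∈ S ⊓ MulAction.stabilizer G α := h.stab ▸ ⟨ht, hβ⟩
  exact h1.2

/-- there is a nonidentity element of `T`. -/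
theorem Cfg.exT (h : Cfg S α β) : ∃ c ∈ S, c ≠ 1 ∧ c • α = α ∧ c • β = β := by
  obtain ⟨c, hc1⟩ := (Subgroup.ne_bot_iff_exists_ne_one).mp h.nt
  exact ⟨c.1, c.2.1, fun h1 => hc1 (Subtype.ext h1), c.2.2, h.fixβ c.2.1 c.2.2⟩

/-- an element of `S` mapping `α` to `β` maps `β` to `α`. -/
theorem Cfg.swapβ (h : Cfg S α β) {s : G} (hs : s ∈ S) (hα : s • α = β) : s • β = α := by
  obtain ⟨c, hcS, hc1, hcα, hcβ⟩ := h.exT
  have h1 : (s⁻¹ * c * s) • α = α := by
    rw [mul_smul, mul_smul, hα, hcβ, ← hα, inv_smul_smul]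
  have h2 : (s⁻¹ * c * s) • β = β :=
    h.fixβ (S.mul_mem (S.mul_mem (S.inv_mem hs) hcS) hs) h1
  have h3 : c • (s • β) = s • β := by
    have : s • ((s⁻¹ * c * s) • β) = s • β := by rw [h2]
    rw [mul_smul, mul_smul, smul_inv_smul] at this
    exact this
  rcases h.fixT c hcS hc1 hcα _ h3 with h4 | h4
  · exact h4
  · exfalso
    have : s • β = s • α := by rw [h4, hα]
    exact h.ne (smul_left_cancel s this)

end lemmas

/-! ## The piece statements -/

/-- FX-CFG. -/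
def StCfg : Prop :=
  ∀ {G : Type u} [Group G] [Finite G] {Ω : Type v} [Finite Ω] [MulAction G Ω],
    (∀ g : G, g ≠ 1 → Nat.card (MulAction.fixedBy Ω g) ≤ 2) →
    ∀ (α : Ω) (S : Subgroup G), IsPGroup 2 S →
      S ⊓ MulAction.stabilizer G α ≠ ⊥ → ¬ S ≤ MulAction.stabilizer G α →
      ∃ β : Ω, Cfg S α β

/-- FX-NORMAL. -/
def StNormal : Prop :=
  ∀ {G : Type u} [Group G] [Finite G] {Ω : Type v} [Finite Ω] [MulAction G Ω]
    (S : Subgroup G) (α β : Ω), Cfg S α β →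
    2 < Nat.card ↥(S ⊓ MulAction.stabilizer G α) → Idx2 S α β

/-- FX-ORD2 (the element `x` generates `T`, its centralizer in `S` has order 4). -/
def StOrd2 : Prop :=
  ∀ {G : Type u} [Group G] [Finite G] {Ω : Type v} [Finite Ω] [MulAction G Ω]
    (S : Subgroup G) (α β : Ω), Cfg S α β →
    Nat.card ↥(S ⊓ MulAction.stabilizer G α) = 2 →
    ∃ x : ↥S, orderOf x = 2 ∧
      (Nat.card ↥(Subgroup.centralizer ({x} : Set ↥S)) = 4) ∧
      (Nat.card ↥S = 4 → Idx2 S α β)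

/-- FX-IDX. -/
def StIdx : Prop :=
  ∀ {G : Type u} [Group G] [Finite G] {Ω : Type v} [Finite Ω] [MulAction G Ω]
    (S : Subgroup G) (α β : Ω), Cfg S α β → Idx2 S α β →
    (S ⊓ MulAction.stabilizer G α).relIndex S = 2 ∧ 4 ≤ Nat.card ↥S ∧
      Nat.card ↥S = 2 * Nat.card ↥(S ⊓ MulAction.stabilizer G α) ∧
      Nat.card (MulAction.orbit ↥S α) = 2 ∧
      (Free S α β → ∀ ω' : Ω, ω' ∉ MulAction.orbit ↥S α →
        Nat.card (MulAction.orbit ↥S ω') = Nat.card ↥S)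

/-- FX-OMEGA. -/
def StOmega : Prop :=
  ∀ {G : Type u} [Group G] [Finite G] {Ω : Type v} [Finite Ω] [MulAction G Ω]
    (S : Subgroup G) (α β : Ω), Cfg S α β → Idx2 S α β → ¬ Free S α β →
    ∃ y : ↥S, orderOf y = 2 ∧ (y : G) • α = β ∧
      Nat.card ↥(Subgroup.centralizer ({y} : Set ↥S)) = 4

/-- FX-V4. -/
def StV4 : Prop :=
  ∀ (K : Type u) [Group K], Nat.card K = 4 →
    ∀ a b : K, a ≠ 1 → b ≠ 1 → a ≠ b → a ^ 2 = 1 → b ^ 2 = 1 →
      Nonempty (K ≃* DihedralGroup 2)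

/-- FX-TRANSFER. -/
def StTransfer : Prop :=
  ∀ {G : Type u} [Group G] [Finite G] {Ω : Type v} [Finite Ω] [MulAction G Ω]
    (P : Sylow 2 G) (α β : Ω), Cfg (P : Subgroup G) α β → Idx2 (P : Subgroup G) α β →
    Free (P : Subgroup G) α β →
    ∃ N : Subgroup G, N.Normal ∧ N.index = 2 ∧
      N ⊓ (P : Subgroup G) = (P : Subgroup G) ⊓ MulAction.stabilizer G α

/-- FX-FROB. -/
def StFrob : Prop :=
  ∀ {G : Type u} [Group G] [Finite G] {Ω : Type v} [Finite Ω] [MulAction G Ω]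
    [FaithfulSMul G Ω], MulAction.IsPretransitive G Ω →
    ∀ (P : Sylow 2 G) (α β : Ω), Cfg (P : Subgroup G) α β → Idx2 (P : Subgroup G) α β →
    Free (P : Subgroup G) α β →
    ∀ N : Subgroup G, N.Normal → N.index = 2 →
      N ⊓ (P : Subgroup G) = (P : Subgroup G) ⊓ MulAction.stabilizer G α →
      ∃ H : Subgroup ↥N, H ≠ ⊥ ∧ H ≠ ⊤ ∧ ∀ g : ↥N, g ∉ H → H ⊓ (MulAut.conj g • H) = ⊥

end Cfsg.Agent.H59.Fx2
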