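import Mathlib
import Cfsg.Agent.H59.Fx2Defs

/-!
# S3390 piece FX-FROB: the Frobenius complement inside the index-2 subgroup
-/

set_option autoImplicit false

open scoped Pointwise

namespace Cfsg.Agent.H59.Fx2

universe u v

section
variable {G : Type u} [Group G] {Ω : Type v} [MulAction G Ω]

/-- Elements of `P` with a fixed point lie in `T`. -/
theorem frob_mem_T {P : Subgroup G} {α β : Ω} (cfg : Cfg P α β) (hF : Free P α β)
    {p : G} (hp : p ∈ P) {γ : Ω} (hγ : p • γ = γ) : p • α = α := by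
  by_cases h1 : p = 1
  · rw [h1, one_smul]
  by_cases ha : γ = α
  · rw [ha] at hγ
    exact hγ
  by_cases hb : γ = β
  · rw [hb] at hγ
    exact cfg.fixα hp hγ
  · exact absurd (hF γ ha hb p hp hγ) h1

/-- Every 2-element of `G` with a fixed point lies in `N`. -/
theorem frob_two_elt [Finite G] (P : Sylow 2 G) {α β : Ω} (cfg : Cfg (P : Subgroup G) α β)
    (hF : Free (P : Subgroup G) α β) (N : Subgroup G) (hN : N.Normal)
    (hNP : N ⊓ (P : Subgroup G) = (P : Subgroup G) ⊓ MulAction.stabilizer G α)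
    {w : G} (hw : IsPGroup 2 (Subgroup.zpowers w)) {γ : Ω} (hγ : w • γ = γ) : w ∈ N := by
  obtain ⟨Q, hQ⟩ := hw.exists_le_sylow
  obtain ⟨x, rfl⟩ := MulAction.exists_smul_eq G P Q
  have hwx : w ∈ ((x • P : Sylow 2 G) : Subgroup G) := hQ (Subgroup.mem_zpowers w)
  rw [Sylow.coe_subgroup_smul, Subgroup.mem_pointwise_smul_iff_inv_smul_mem] at hwx
  have hp : x⁻¹ * w * x ∈ (P : Subgroup G) := by
    simpa [MulAut.smul_def] using hwx
  have hfixp : (x⁻¹ * w * x) • (x⁻¹ • γ) = x⁻¹ • γ := by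
    rw [mul_smul, mul_smul, smul_inv_smul, hγ]
  have hT : (x⁻¹ * w * x) • α = α := frob_mem_T cfg hF hp hfixp
  have hmem : x⁻¹ * w * x ∈ N := by
    have h1 : x⁻¹ * w * x ∈ N ⊓ (P : Subgroup G) := by
      rw [hNP]
      exact ⟨hp, hT⟩
    exact h1.1
  have h2 := hN.conj_mem _ hmem x
  have h3 : x * (x⁻¹ * w * x) * x⁻¹ = w := by group
  rwa [h3] at h2

end

/-- FX-FROB. -/
theorem frob : StFrob.{u, v} := by
  intro G _ _ Ω _ _ _ htr P α β cfg hI hF N hNn hN2 hNP
  obtain ⟨c, hcS, hc1, hcα, hcβ⟩ := cfg.exT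
  have hcN : c ∈ N := by
    have h1 : c ∈ N ⊓ (P : Subgroup G) := by
      rw [hNP]
      exact ⟨hcS, hcα⟩
    exact h1.1
  refine ⟨(MulAction.stabilizer G α ⊓ MulAction.stabilizer G β).subgroupOf N, ?_, ?_, ?_⟩
  · -- nontrivial
    intro hbot
    have h1 : (⟨c, hcN⟩ : ↥N) ∈
        (MulAction.stabilizer G α ⊓ MulAction.stabilizer G β).subgroupOf N := ⟨hcα, hcβ⟩
    rw [hbot, Subgroup.mem_bot] at h1
    exact hc1 (congrArg Subtype.val h1)
  · -- proper
    intro htop
    have hNα : ∀ n ∈ N, n • α = α := by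
      intro n hn
      have h1 : (⟨n, hn⟩ : ↥N) ∈
          (MulAction.stabilizer G α ⊓ MulAction.stabilizer G β).subgroupOf N := by
        rw [htop]
        trivial
      exact h1.1
    apply hc1
    apply FaithfulSMul.eq_of_smul_eq_smul (α := Ω)
    intro ω
    obtain ⟨g, rfl⟩ := MulAction.exists_smul_eq G α ω
    rw [one_smul]
    have h1 := hNα (g⁻¹ * c * g) (by simpa using hNn.conj_mem c hcN g⁻¹)
    calc c • g • α = g • ((g⁻¹ * c * g) • α) := by simp [mul_smul]
      _ = g • α := by rw [h1]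
  · -- trivial intersection
    intro g hg
    rw [eq_bot_iff]
    intro h hh
    rw [Subgroup.mem_bot]
    by_contra hne
    obtain ⟨hh1, hh2⟩ := hh
    have hα : (h : G) • α = α := hh1.1
    have hβ : (h : G) • β = β := hh1.2
    have hh2' : (MulAut.conj g)⁻¹ • h ∈
        (MulAction.stabilizer G α ⊓ MulAction.stabilizer G β).subgroupOf N :=
      Subgroup.mem_pointwise_smul_iff_inv_smul_mem.mp hh2
    have hconj : (((MulAut.conj g)⁻¹ • h : ↥N) : G) = (g : G)⁻¹ * (h : G) * (g : G) := by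
      simp [MulAut.smul_def]
    have hgα : ((g : G)⁻¹ * (h : G) * (g : G)) • α = α := by
      rw [← hconj]
      exact hh2'.1
    have hgβ : ((g : G)⁻¹ * (h : G) * (g : G)) • β = β := by
      rw [← hconj]
      exact hh2'.2
    have hne' : (h : G) ≠ 1 := fun e => hne (Subtype.ext e)
    have h2 := cfg.fix2 (h : G) hne'
    have e1 : (h : G) • ((g : G) • α) = (g : G) • α := by
      have h3 : (g : G) • (((g : G)⁻¹ * (h : G) * (g : G)) • α) = (g : G) • α := by rw [hgα]
      rw [mul_smul, mul_smul, smul_inv_smul] at h3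
      exact h3
    have e2 : (h : G) • ((g : G) • β) = (g : G) • β := by
      have h3 : (g : G) • (((g : G)⁻¹ * (h : G) * (g : G)) • β) = (g : G) • β := by rw [hgβ]
      rw [mul_smul, mul_smul, smul_inv_smul] at h3
      exact h3
    have k1 := fix_three h2 cfg.ne.symm hα hβ e1
    have k2 := fix_three h2 cfg.ne.symm hα hβ e2
    have hgH : ¬ ((g : G) • α = α ∧ (g : G) • β = β) := fun hh => hg ⟨hh.1, hh.2⟩
    have hsw : (g : G) • α = β := by
      rcases k1 with k | k
      · exfalso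
        rcases k2 with k' | k'
        · exact cfg.ne (smul_left_cancel (g : G) (k'.trans k.symm))
        · exact hgH ⟨k, k'⟩
      · exact k
    obtain ⟨t0, ht0, ht0α⟩ := cfg.swap
    have ht0N : t0 ∉ N := by
      intro hmem
      have h3 : t0 ∈ (P : Subgroup G) ⊓ MulAction.stabilizer G α := by
        rw [← hNP]
        exact ⟨hmem, ht0⟩
      have h4 : t0 • α = α := h3.2
      exact cfg.ne (ht0α.symm.trans h4)
    have huα : (t0⁻¹ * (g : G)) • α = α := by
      rw [mul_smul, hsw, ← ht0α, inv_smul_smul]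
    have huN : t0⁻¹ * (g : G) ∉ N := by
      intro hmem
      apply ht0N
      have h3 : t0 = (g : G) * (t0⁻¹ * (g : G))⁻¹ := by group
      rw [h3]
      exact N.mul_mem g.2 (N.inv_mem hmem)
    obtain ⟨k, m, hm, hkm⟩ :=
      Nat.exists_eq_two_pow_mul_odd (orderOf_pos (t0⁻¹ * (g : G))).ne'
    have hpg : IsPGroup 2 (Subgroup.zpowers ((t0⁻¹ * (g : G)) ^ m)) := by
      rintro ⟨y, hy⟩
      obtain ⟨i, rfl⟩ := Subgroup.mem_zpowers_iff.mp hy
      refine ⟨k, Subtype.ext ?_⟩
      simp only [Subgroup.coe_pow, Subgroup.coe_one]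
      rw [← zpow_natCast, ← zpow_mul, mul_comm, zpow_mul, zpow_natCast, ← pow_mul, mul_comm m,
        ← hkm, pow_orderOf_eq_one, one_zpow]
    have hfix : ((t0⁻¹ * (g : G)) ^ m) • α = α := by
      have h3 : (t0⁻¹ * (g : G)) ^ m ∈ MulAction.stabilizer G α :=
        (MulAction.stabilizer G α).pow_mem huα m
      exact h3
    have hmem := frob_two_elt P cfg hF N hNn hNP hpg hfix
    have hsq : (t0⁻¹ * (g : G)) ^ 2 ∈ N := Subgroup.sq_mem_of_index_two hN2 _
    obtain ⟨j, hj⟩ := hm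
    apply huN
    have h3 : t0⁻¹ * (g : G) = (t0⁻¹ * (g : G)) ^ m * (((t0⁻¹ * (g : G)) ^ 2) ^ j)⁻¹ := by
      rw [eq_mul_inv_iff_mul_eq, hj, ← pow_mul, ← pow_succ']
    rw [h3]
    exact N.mul_mem hmem (N.inv_mem (N.pow_mem hsq j))

example : Cfsg.Agent.H59.Fx2.StFrob.{u, v} := Cfsg.Agent.H59.Fx2.frob

end Cfsg.Agent.H59.Fx2
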