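import Mathlib
import Cfsg.Agent.H59.Fx2Defs

/-!
# S3390 piece FX-ORD2
-/

set_option autoImplicit false

namespace Cfsg.Agent.H59.Fx2

universe u v

/-- FX-ORD2. -/
theorem ord2 : StOrd2.{u, v} := by
  intro G _ _ Ω _ _ S α β cfg hT2
  obtain ⟨c, hcS, hc1, hcα, hcβ⟩ := cfg.exT
  obtain ⟨n, hnS, hnα⟩ := cfg.swap
  have hnβ := cfg.swapβ hnS hnα
  have hT : ∀ t ∈ S, t • α = α → t = 1 ∨ t = c := by
    intro t htS htα
    by_contra hcon
    rw [not_or] at hcon
    have h3 : ({1, ⟨c, hcS, hcα⟩, ⟨t, htS, htα⟩} : Set ↥(S ⊓ MulAction.stabilizer G α)).ncard = 3 := by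
      refine Set.ncard_eq_three.mpr ⟨_, _, _, ?_, ?_, ?_, rfl⟩
      · intro h
        exact hc1 (congrArg Subtype.val h).symm
      · intro h
        exact hcon.1 (congrArg Subtype.val h).symm
      · intro h
        exact hcon.2 (congrArg Subtype.val h).symm
    have hle := Set.ncard_le_ncard (Set.subset_univ
      ({1, ⟨c, hcS, hcα⟩, ⟨t, htS, htα⟩} : Set ↥(S ⊓ MulAction.stabilizer G α))) (Set.toFinite _)
    rw [Set.ncard_univ, h3, hT2] at hle
    omega
  have hc2 : c * c = 1 := by
    rcases hT (c * c) (S.mul_mem hcS hcS) (by rw [mul_smul, hcα, hcα]) with h | h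
    · exact h
    · exact absurd (mul_left_cancel (h.trans (mul_one c).symm)) hc1
  have hx1 : (⟨c, hcS⟩ : ↥S) ≠ 1 := fun h => hc1 (congrArg Subtype.val h)
  have hx2 : orderOf (⟨c, hcS⟩ : ↥S) = 2 :=
    orderOf_eq_prime (Subtype.ext (by simpa [pow_two] using hc2)) hx1
  have hcent : ∀ s : ↥S, s ∈ Subgroup.centralizer ({(⟨c, hcS⟩ : ↥S)} : Set ↥S) ↔
      ((s : G) • α = α ∨ (s : G) • α = β) := by
    intro s
    rw [Subgroup.mem_centralizer_iff]
    constructor
    · intro h
      have h1 := h ⟨c, hcS⟩ rfl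
      have h2 : c * (s : G) = (s : G) * c := congrArg Subtype.val h1
      have h3 : c • ((s : G) • α) = (s : G) • α := by rw [← mul_smul, h2, mul_smul, hcα]
      exact cfg.fixT c hcS hc1 hcα _ h3
    · intro h y hy
      rw [Set.mem_singleton_iff] at hy
      subst hy
      have h1 : ((s : G) * c * (s : G)⁻¹) • α = α := by
        rcases h with h | h
        · have h5 : (s : G)⁻¹ • α = α := by rw [inv_smul_eq_iff, h]
          rw [mul_smul, mul_smul, h5, hcα, h]
        · have hsβ := cfg.swapβ s.2 h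
          have h5 : (s : G)⁻¹ • α = β := by rw [inv_smul_eq_iff, hsβ]
          rw [mul_smul, mul_smul, h5, hcβ, hsβ]
      rcases hT _ (S.mul_mem (S.mul_mem s.2 hcS) (S.inv_mem s.2)) h1 with h2 | h2
      · exfalso
        apply hc1
        have h6 : c = (s : G)⁻¹ * ((s : G) * c * (s : G)⁻¹) * (s : G) := by group
        rw [h6, h2]
        group
      · apply Subtype.ext
        show c * (s : G) = (s : G) * c
        have h6 : (s : G) * c = ((s : G) * c * (s : G)⁻¹) * (s : G) := by group
        rw [h6, h2]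
  have hset : (Subgroup.centralizer ({(⟨c, hcS⟩ : ↥S)} : Set ↥S) : Set ↥S) =
      {1, ⟨c, hcS⟩, ⟨n, hnS⟩, ⟨n * c, S.mul_mem hnS hcS⟩} := by
    ext s
    rw [SetLike.mem_coe, hcent]
    simp only [Set.mem_insert_iff, Set.mem_singleton_iff]
    constructor
    · intro h
      rcases h with h | h
      · rcases hT _ s.2 h with h' | h'
        · exact Or.inl (Subtype.ext h')
        · exact Or.inr (Or.inl (Subtype.ext h'))
      · have h5 : (n⁻¹ * (s : G)) • α = α := by
          rw [mul_smul, h, ← hnα, inv_smul_smul]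
        rcases hT _ (S.mul_mem (S.inv_mem hnS) s.2) h5 with h' | h'
        · refine Or.inr (Or.inr (Or.inl (Subtype.ext ?_)))
          show (s : G) = n
          have h6 : (s : G) = n * (n⁻¹ * (s : G)) := by group
          rw [h6, h', mul_one]
        · refine Or.inr (Or.inr (Or.inr (Subtype.ext ?_)))
          show (s : G) = n * c
          have h6 : (s : G) = n * (n⁻¹ * (s : G)) := by group
          rw [h6, h']
    · intro h
      rcases h with h | h | h | h
      · left
        rw [h]
        exact one_smul _ _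
      · left
        rw [h]
        exact hcα
      · right
        rw [h]
        exact hnα
      · right
        rw [h]
        show (n * c) • α = β
        rw [mul_smul, hcα, hnα]
  have hcard : Nat.card ↥(Subgroup.centralizer ({(⟨c, hcS⟩ : ↥S)} : Set ↥S)) = 4 := by
    have h0 : Nat.card ↥(Subgroup.centralizer ({(⟨c, hcS⟩ : ↥S)} : Set ↥S)) =
        (Subgroup.centralizer ({(⟨c, hcS⟩ : ↥S)} : Set ↥S) : Set ↥S).ncard :=
      Nat.card_coe_set_eq _
    rw [h0, hset]
    have hne : β ≠ α := cfg.ne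
    have d1 : (⟨n, hnS⟩ : ↥S) ≠ ⟨n * c, S.mul_mem hnS hcS⟩ := by
      intro h
      have h5 : n = n * c := congrArg Subtype.val h
      exact hc1 (mul_left_cancel ((mul_one n).trans h5)).symm
    have d2 : (⟨c, hcS⟩ : ↥S) ∉ ({⟨n, hnS⟩, ⟨n * c, S.mul_mem hnS hcS⟩} : Set ↥S) := by
      intro h
      rcases h with h | h
      · have h5 : c = n := congrArg Subtype.val h
        rw [h5, hnα] at hcα
        exact hne hcα
      · have h5 : c = n * c := congrArg Subtype.val h
        have h6 : (n * c) • α = β := by rw [mul_smul, hcα, hnα]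
        rw [← h5, hcα] at h6
        exact hne h6.symm
    have d3 : (1 : ↥S) ∉ ({⟨c, hcS⟩, ⟨n, hnS⟩, ⟨n * c, S.mul_mem hnS hcS⟩} : Set ↥S) := by
      intro h
      rcases h with h | h | h
      · exact hx1 h.symm
      · have h5 : (1 : G) = n := congrArg Subtype.val h
        rw [← h5, one_smul] at hnα
        exact hne hnα.symm
      · have h5 : (1 : G) = n * c := congrArg Subtype.val h
        have h6 : (n * c) • α = β := by rw [mul_smul, hcα, hnα]
        rw [← h5, one_smul] at h6
        exact hne h6.symm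
    rw [Set.ncard_insert_of_notMem d3, Set.ncard_insert_of_notMem d2, Set.ncard_pair d1]
  refine ⟨⟨c, hcS⟩, hx2, hcard, ?_⟩
  intro hS4 s hs
  have htop : Subgroup.centralizer ({(⟨c, hcS⟩ : ↥S)} : Set ↥S) = ⊤ :=
    Subgroup.eq_top_of_card_eq _ (hcard.trans hS4.symm)
  have h5 : (⟨s, hs⟩ : ↥S) ∈ Subgroup.centralizer ({(⟨c, hcS⟩ : ↥S)} : Set ↥S) := by
    rw [htop]
    trivial
  exact (hcent ⟨s, hs⟩).mp h5

example : Cfsg.Agent.H59.Fx2.StOrd2.{u, v} := Cfsg.Agent.H59.Fx2.ord2

end Cfsg.Agent.H59.Fx2
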