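import Mathlib
import Cfsg.Agent.H59.GagDefs
import Cfsg.Agent.H60.Cores

/-!
# Gagola's theorem for solvable groups: the pieces CORES and LINQ (team project S4840, helper59)
-/

set_option autoImplicit false

namespace Cfsg.Agent.H59.Gag

open Cfsg

universe u

/-- LINQ: passing to the quotient by the kernel. -/
theorem linq : LinQStmt.{u} := by
  intro G _ p _ K _ V _ _ ρ₀ hker htrans hstab
  have hle : K ≤ ρ₀.ker := fun g hg => MonoidHom.mem_ker.mpr ((hker g).mpr hg)
  refine ⟨QuotientGroup.lift K ρ₀ hle, ?_, ?_, ?_⟩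
  · rw [injective_iff_map_eq_one]
    intro x hx
    obtain ⟨g, rfl⟩ := QuotientGroup.mk_surjective x
    rw [QuotientGroup.lift_mk] at hx
    exact (QuotientGroup.eq_one_iff g).mpr ((hker g).mp hx)
  · intro v w hv hw
    obtain ⟨g, hg⟩ := htrans v w hv hw
    exact ⟨(g : G ⧸ K), by rw [QuotientGroup.lift_mk]; exact hg⟩
  · intro v hv x hx
    obtain ⟨g, rfl⟩ := QuotientGroup.mk_surjective x
    rw [QuotientGroup.lift_mk] at hx
    obtain ⟨k, hk⟩ := hstab v hv g hx
    exact ⟨k, by rw [← QuotientGroup.mk_pow, hk, QuotientGroup.mk_one]⟩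

/-- CORES: `O_q(G) ≠ 1` exactly for `q = p`. -/
theorem cores : CoresStmt.{u} := by
  intro G _ _ p hp N hD q hq
  haveI : Fact q.Prime := ⟨hq⟩
  obtain ⟨x, hxN, hx1⟩ : ∃ x ∈ N, x ≠ 1 := by
    by_contra h
    push_neg at h
    exact hD.ne_bot ((Subgroup.eq_bot_iff_forall _).mpr h)
  have hxp : x ^ p = 1 := hD.elem.2 x hxN
  have hord : orderOf x = p := orderOf_eq_prime hxp hx1
  constructor
  · intro hne
    have hle := hD.minimal (Cfsg.pCore q G) inferInstance hne
    have hq' : IsPGroup q (Cfsg.pCore q G) := Cfsg.Agent.H60.isPGroup_pCore q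
    obtain ⟨k, hk⟩ := hq' ⟨x, hle hxN⟩
    have hx' : x ^ (q ^ k) = 1 := by simpa using congrArg Subtype.val hk
    have hdvd : p ∣ q ^ k := hord ▸ orderOf_dvd_of_pow_eq_one hx'
    exact ((Nat.prime_dvd_prime_iff_eq hp.out hq).mp (hp.out.dvd_of_dvd_pow hdvd)).symm
  · rintro rfl hbot
    have hNp : IsPGroup q N := fun g =>
      ⟨1, by rw [pow_one]; exact Subtype.ext (by simpa using hD.elem.2 g.1 g.2)⟩
    have hle : N ≤ Cfsg.pCore q G := Cfsg.Agent.H60.le_pCore hD.normal hNp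
    rw [hbot] at hle
    exact hD.ne_bot (le_bot_iff.mp hle)

end Cfsg.Agent.H59.Gag
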