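import Mathlib
import Cfsg.Agent.H59.GagDefs
import Cfsg.Agent.S3360
import Cfsg.Agent.S4835
import Cfsg.Agent.S4837

/-!
# Gagola's theorem for solvable groups: assembly of the pieces (team project S4840, helper59)
-/

set_option autoImplicit false

namespace Cfsg.Agent.H59.Gag

open Cfsg

universe u

/-- No elements of order `p`: the conclusion holds trivially. -/
theorem concl_of_no_p (hnpc : NpcStmt.{u}) (X : Type u) [Group X] [Finite X] (p : ℕ)
    [hp : Fact p.Prime] (h : ∀ g : X, g ^ p = 1 → g = 1) : Concl p X := by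
  refine hnpc X p ⊤ inferInstance ?_ (fun g h => Subgroup.mem_top _)
  rw [Nat.coprime_comm, Nat.Prime.coprime_iff_not_dvd hp.out]
  intro hdvd
  rw [Subgroup.card_top] at hdvd
  obtain ⟨g, hg⟩ := exists_prime_orderOf_dvd_card' p hdvd
  have h1 := h g (by rw [← hg]; exact pow_orderOf_eq_one g)
  rw [h1, orderOf_one] at hg
  exact hp.out.one_lt.ne hg

/-- The group-theoretic core from the pieces and Huppert's theorem. -/
theorem gt_of (hnpc : NpcStmt.{u}) (hsemi : SemiStmt.{u}) (harith : ArithStmt.{u})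
    (hbasis : BasisStmt.{u}) (hmatsl : MatSLStmt.{u}) (hsl5 : SLFin5Stmt.{u})
    (hsl3 : SLFin3Stmt.{u}) (he81a : E81AStmt.{u}) (he81b : E81BStmt.{u}) : GTStmt.{u} := by
  intro X _ _ p _ V _ _ _ _ ρ hsol hL
  rcases Cfsg.Agent.S3360.result p hsol ρ hL.inj hL.trans with hs | hcard
  · obtain ⟨A, hA, hcop, hcomm⟩ := hsemi X p V ρ hL.inj hs
    exact hnpc X p A hA hcop hcomm
  · rcases harith p V hcard with ⟨hp2, hp⟩ | ⟨hp3, h81⟩
    · obtain ⟨ψ, hψ⟩ := hbasis X p V ρ hL hp2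
      by_cases hu : ∃ u : X, u ≠ 1 ∧ u ^ p = 1
      · have hSL := hmatsl X p ψ hψ hu
        rcases hp with hp3 | hp5
        · exact hsl3 X p ψ hp3 hψ hSL
        · exact absurd hsol (hsl5 X p ψ hψ.inj hSL hp5)
      · refine concl_of_no_p hnpc X p (fun g hg => ?_)
        by_contra hg1
        exact hu ⟨g, hg1, hg⟩
    · refine concl_of_no_p hnpc X p ?_
      by_cases h5 : Cfsg.pCore 5 X = ⊥
      · exact (he81b X p V ρ hsol hL hp3 h81 h5).elim
      · exact he81a X p V ρ hL hp3 h81 h5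

/-- S4840 from the pieces. -/
theorem s4840_of (hcores : CoresStmt.{u}) (hcent : CentStmt.{u}) (hlin0 : Lin0Stmt.{u})
    (hlinq : LinQStmt.{u}) (hgt : GTStmt.{u})
    {G : Type u} [Group G] [Finite G] [hs : Group.IsSolvable G] (hG : 2 < Nat.card G)
    (χ : Cfsg.IrrCharacter G)
    (hχ : Nat.card {C : ConjClasses G // ∃ g ∈ C.carrier, (χ : G → ℂ) g ≠ 0} = 2) :
    ∃ p : ℕ, p.Prime ∧ (∀ q : ℕ, q.Prime → (Cfsg.pCore q G ≠ ⊥ ↔ q = p)) ∧
      Cfsg.HasNormalPComplement p (G ⧸ Cfsg.pCore p G) ∧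
      ∀ Q : Sylow p (G ⧸ Cfsg.pCore p G),
        IsMulCommutative (Q : Subgroup (G ⧸ Cfsg.pCore p G)) := by
  obtain ⟨N, hNn, hN1, hmin, ⟨p, hp, hel⟩, hsupp, htr⟩ := Cfsg.Agent.S4835.result hG χ hχ
  haveI : Fact p.Prime := ⟨hp⟩
  haveI := hNn
  have hNp : IsPGroup p N := by
    intro g
    refine ⟨1, ?_⟩
    have := hel.2 g.1 g.2
    rw [pow_one]
    exact Subtype.ext (by simpa using this)
  have hcentS := (Cfsg.Agent.S4837.result hG χ hχ p N (fun g => (hsupp g).symm) hNp hN1).1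
  have hD : Dat G p N := ⟨hNn, hN1, hmin, hel, htr, hcentS⟩
  refine ⟨p, hp, hcores G p N hD, ?_⟩
  obtain ⟨V, iV1, iV2, iV3, iV4, ρ₀, hker, htrans, hstab⟩ := hlin0 G p N hD
  have hker' : ∀ g : G, ρ₀ g = 1 ↔ g ∈ Cfsg.pCore p G := by
    intro g
    rw [hcent G p N hD]
    exact hker g
  obtain ⟨ρ, hL⟩ := hlinq G p (Cfsg.pCore p G) V ρ₀ hker' htrans hstab
  have hsolq : Group.IsSolvable (G ⧸ Cfsg.pCore p G) := inferInstance
  exact hgt (G ⧸ Cfsg.pCore p G) p V ρ hsolq hL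

end Cfsg.Agent.H59.Gag
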