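import Mathlib
import Cfsg.Agent.S0947
import Cfsg.Agent.S0925
import Cfsg.Agent.S0942
import Cfsg.Agent.H81.Reg
import Cfsg.Agent.H59.HCGroup

/-!
# helper59: the principal 2-block of a group with abelian Sylow 2-subgroup, local control

Setting: `P` a Sylow 2-subgroup of `G`, `ψ : A →* G` injective with range `P` (`A` a finite
commutative group), `τ : A →* A` induced by conjugation with `n`, fusion in `P` controlled by
`τ`, and the centralizers of the nontrivial elements of `P` have normal 2-complements.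

* `sum_block`, `sum_block_one`: orthogonality relations of the principal block on `P`.
* `D_eq`: `∑_{ζ ∈ B₀} ζ(a)² conj ζ(w) / ζ(1) = 0` for an involution `a` and an element `w` of
  order four of `P`.
-/

set_option autoImplicit false
set_option linter.style.haveILetI false
set_option linter.unusedSectionVars false
set_option linter.unusedVariables false

namespace Cfsg.Agent.H59.HC

open Cfsg
open scoped ComplexConjugate

section Blk

universe u

variable {G : Type u} [Group G] [Finite G] {A : Type*} [CommGroup A] [Finite A]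
  (P : Sylow 2 G) (ψ : A →* G) (hψ : Function.Injective ψ) (hP : ψ.range = (P : Subgroup G))

include hP in
theorem psi_mem (x : A) : ψ x ∈ (P : Subgroup G) := by rw [← hP]; exact ⟨x, rfl⟩

include hP in
theorem sylow_comm : ∀ x ∈ (P : Subgroup G), ∀ y ∈ (P : Subgroup G), x * y = y * x := by
  intro x hx y hy
  rw [← hP] at hx hy
  obtain ⟨a, rfl⟩ := hx
  obtain ⟨b, rfl⟩ := hy
  rw [← map_mul, ← map_mul, mul_comm]

include hP in
theorem psi_two_elt (x : A) : ∃ k : ℕ, orderOf (ψ x) = 2 ^ k := by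
  haveI : Fact (Nat.Prime 2) := ⟨Nat.prime_two⟩
  obtain ⟨k, hk⟩ := (IsPGroup.iff_orderOf.mp P.2) ⟨ψ x, psi_mem P ψ hP x⟩
  exact ⟨k, by rw [← hk, ← Subgroup.orderOf_coe]⟩

include hP in
theorem sylow_le_centralizer (x : A) :
    (P : Subgroup G) ≤ Subgroup.centralizer ({ψ x} : Set G) := by
  intro y hy
  rw [Subgroup.mem_centralizer_iff]
  intro w hw
  rw [Set.mem_singleton_iff] at hw
  rw [hw]
  exact sylow_comm P ψ hP _ (psi_mem P ψ hP x) y hy

include hψ hP in
theorem card_A_eq (z : G) (hz : (P : Subgroup G) ≤ Subgroup.centralizer ({z} : Set G)) :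
    Nat.card A = 2 ^ (Nat.card (Subgroup.centralizer ({z} : Set G))).factorization 2 := by
  haveI : Fact (Nat.Prime 2) := ⟨Nat.prime_two⟩
  have h1 : Nat.card A = Nat.card (P : Subgroup G) := by
    rw [← hP]; exact (Nat.card_range_of_injective hψ).symm
  rw [h1, Sylow.card_eq_multiplicity]
  congr 1
  have hC0 : Nat.card (Subgroup.centralizer ({z} : Set G)) ≠ 0 := Nat.card_pos.ne'
  have hG0 : Nat.card G ≠ 0 := Nat.card_pos.ne'
  apply le_antisymm
  · have hd : 2 ^ (Nat.card G).factorization 2 ∣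
        Nat.card (Subgroup.centralizer ({z} : Set G)) := by
      rw [← Sylow.card_eq_multiplicity P]
      exact Subgroup.card_dvd_of_le hz
    exact (Nat.Prime.pow_dvd_iff_le_factorization Nat.prime_two hC0).mp hd
  · exact (Nat.factorization_le_iff_dvd hC0 hG0).mpr (Subgroup.card_subgroup_dvd_card _) 2

variable (τ : A →* A) (n : G) (hτ : ∀ x, ψ (τ x) = n * ψ x * n⁻¹)
  (hfus : ∀ x x' : A, IsConj (ψ x) (ψ x') → x' = x ∨ x' = τ x ∨ x' = τ (τ x))
  (hnc : ∀ x : A, x ≠ 1 → ∃ k : ℕ,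
    (pPrimeCore 2 (Subgroup.centralizer ({ψ x} : Set G))).index = 2 ^ k)
  (M : Ideal AlgInt) (hM : IsPModular 2 M)
  (B : Finset (IrrCharacter G)) (hB : ∀ χ, χ ∈ B ↔ χ ∈ principalBlock M G)

include hψ hP hnc hM hB in
theorem sum_block_self (x : A) (hx : x ≠ 1) :
    ∑ ζ ∈ B, (ζ : G → ℂ) (ψ x) * conj ((ζ : G → ℂ) (ψ x)) = (Nat.card A : ℂ) := by
  haveI : Fact (Nat.Prime 2) := ⟨Nat.prime_two⟩
  have hx1 : ψ x ≠ 1 := fun h => hx (hψ (by rw [h, map_one]))
  have hset : principalBlock M G = (B : Set (IrrCharacter G)) :=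
    Set.ext (fun χ => (hB χ).symm)
  have h := (Cfsg.Agent.S0947.result 2 M hM (ψ x) (psi_two_elt P ψ hP x) hx1
    (1 : Subgroup.centralizer ({ψ x} : Set G)) (by rw [orderOf_one]; norm_num)).2 (hnc x hx)
  rw [hset, finsum_mem_coe_finset, ← card_A_eq P ψ hψ hP (ψ x) (sylow_le_centralizer P ψ hP x)]
    at h
  have h2 : ∀ ζ : IrrCharacter G, (ζ : G → ℂ) (ψ x) * conj ((ζ : G → ℂ) (ψ x)) =
      ((‖(ζ : G → ℂ) (ψ x * ((1 : Subgroup.centralizer ({ψ x} : Set G)) : G))‖ ^ 2 : ℝ) : ℂ) := by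
    intro ζ
    rw [Subgroup.coe_one, mul_one, Complex.mul_conj']
    push_cast; rfl
  rw [Finset.sum_congr rfl (fun ζ _ => h2 ζ), ← Complex.ofReal_sum, h]
  push_cast; rfl

include hψ hP hτ hfus hnc hM hB in
theorem sum_block (x x' : A) (hx : x ≠ 1) (hx' : x' ≠ 1)
    [Decidable (x' = x ∨ x' = τ x ∨ x' = τ (τ x))] :
    ∑ ζ ∈ B, (ζ : G → ℂ) (ψ x) * conj ((ζ : G → ℂ) (ψ x')) =
      if x' = x ∨ x' = τ x ∨ x' = τ (τ x) then (Nat.card A : ℂ) else 0 := by
  haveI : Fact (Nat.Prime 2) := ⟨Nat.prime_two⟩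
  have hset : principalBlock M G = (B : Set (IrrCharacter G)) :=
    Set.ext (fun χ => (hB χ).symm)
  split_ifs with h
  · have hval : ∀ ζ : IrrCharacter G, (ζ : G → ℂ) (ψ x') = (ζ : G → ℂ) (ψ x) := by
      intro ζ
      rcases h with h | h | h
      · rw [h]
      · rw [h, hτ, Cfsg.Agent.H81.irr_conj]
      · rw [h, hτ, hτ, Cfsg.Agent.H81.irr_conj, Cfsg.Agent.H81.irr_conj]
    rw [Finset.sum_congr rfl (fun ζ _ => by rw [hval ζ])]
    exact sum_block_self P ψ hψ hP hnc M hM B hB x hx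
  · have hnot : ¬ IsConj (ψ x) (ψ x') := fun hc => h (hfus x x' hc)
    have hpp : ∀ y : A, IsPPart 2 (ψ y) (ψ y) := fun y =>
      ⟨1, mul_one _, Commute.one_right _, psi_two_elt P ψ hP y, by rw [orderOf_one]; norm_num⟩
    have h1 := (Cfsg.Agent.S0925.result 2 M hM).2 (ψ x) (ψ x') (ψ x) (ψ x') (hpp x) (hpp x')
      hnot _ (Cfsg.Agent.H80.isPBlock_principalBlock M G)
    rw [hset, finsum_mem_coe_finset] at h1
    rw [← h1]
    apply Finset.sum_congr rfl
    intro ζ _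
    rw [Cfsg.Agent.H81.irr_inv]

include hψ hP hM hB in
theorem sum_block_one (x : A) (hx : x ≠ 1) :
    ∑ ζ ∈ B, (ζ : G → ℂ) (ψ x) * (ζ : G → ℂ) 1 = 0 := by
  haveI : Fact (Nat.Prime 2) := ⟨Nat.prime_two⟩
  have hset : principalBlock M G = (B : Set (IrrCharacter G)) :=
    Set.ext (fun χ => (hB χ).symm)
  have hx1 : ψ x ≠ 1 := fun h => hx (hψ (by rw [h, map_one]))
  have hnot : ¬ IsConj (ψ x) 1 := by
    intro hc
    apply hx1
    obtain ⟨c, hc⟩ := isConj_iff.mp hc
    have : ψ x = c⁻¹ * (c * ψ x * c⁻¹) * c := by group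
    rw [this, hc]; group
  have h1 := (Cfsg.Agent.S0925.result 2 M hM).2 (ψ x) 1 (ψ x) 1
    ⟨1, mul_one _, Commute.one_right _, psi_two_elt P ψ hP x, by rw [orderOf_one]; norm_num⟩
    ⟨1, mul_one _, Commute.one_right _, ⟨0, by rw [orderOf_one, pow_zero]⟩,
      by rw [orderOf_one]; norm_num⟩
    hnot _ (Cfsg.Agent.H80.isPBlock_principalBlock M G)
  rw [hset, finsum_mem_coe_finset, inv_one] at h1
  exact h1

include hψ hP hnc hM hB in
/-- the class-count identity: no product of two involutions lies in the section of an element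
of order four -/
theorem D_eq (a u : A) (ha : a * a = 1) (hu : orderOf (ψ u) = 4) :
    ∑ ζ ∈ B, (ζ : G → ℂ) (ψ a) * (ζ : G → ℂ) (ψ a) * conj ((ζ : G → ℂ) (ψ u)) /
      (ζ : G → ℂ) 1 = 0 := by
  classical
  haveI : Fact (Nat.Prime 2) := ⟨Nat.prime_two⟩
  letI : Fintype G := Fintype.ofFinite G
  haveI : Finite (IrrCharacter G) := Cfsg.Agent.H4.finite_irr G
  letI : Fintype (IrrCharacter G) := Fintype.ofFinite _
  have hu1 : u ≠ 1 := by
    intro h
    rw [h, map_one, orderOf_one] at hu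
    norm_num at hu
  obtain ⟨w, hw⟩ : ∃ w : G, w = ψ u := ⟨_, rfl⟩
  obtain ⟨a', ha'⟩ : ∃ a' : G, a' = ψ a := ⟨_, rfl⟩
  have hnc' := hnc u hu1
  have hPw := sylow_le_centralizer P ψ hP u
  have hcardA := card_A_eq P ψ hψ hP (ψ u) hPw
  have hself := sum_block_self P ψ hψ hP hnc M hM B hB u hu1
  have hwt : ∃ k : ℕ, orderOf w = 2 ^ k := by rw [hw]; exact psi_two_elt P ψ hP u
  rw [← hw] at hu hnc' hPw hcardA hself
  rw [← hw, ← ha']
  have haa : a' * a' = 1 := by rw [ha', ← map_mul, ha, map_one]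
  obtain ⟨C, hC⟩ : ∃ C : Subgroup G, C = Subgroup.centralizer ({w} : Set G) := ⟨_, rfl⟩
  rw [← hC] at hnc' hPw hcardA
  letI : Fintype C := Fintype.ofFinite C
  haveI hOn : (pPrimeCore 2 C).Normal := Cfsg.Agent.H80.pPrimeCore_normal 2 C
  obtain ⟨Os, hOs⟩ : ∃ Os : Finset C, Os = Finset.univ.filter (fun c : C => c ∈ pPrimeCore 2 C) :=
    ⟨_, rfl⟩
  have hOsmem : ∀ c : C, c ∈ Os ↔ c ∈ pPrimeCore 2 C := by
    intro c; rw [hOs]; simp
  have hwC : ∀ c ∈ C, w * c = c * w := by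
    intro c hc
    rw [hC, Subgroup.mem_centralizer_iff] at hc
    exact hc w (Set.mem_singleton w)
  have hCw : ∀ g : G, g * w = w * g → g ∈ C := by
    intro g hg
    rw [hC, Subgroup.mem_centralizer_iff]
    intro y hy
    rw [Set.mem_singleton_iff] at hy
    rw [hy]; exact hg.symm
  have hOcop : (Nat.card (pPrimeCore 2 C)).Coprime 2 := Cfsg.Agent.H40.card_pPrimeCore_coprime 2 C
  have hreg : ∀ c : C, c ∈ Os → ¬ 2 ∣ orderOf c := by
    intro c hc h2
    rw [hOsmem] at hc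
    have h3 : orderOf (⟨c, hc⟩ : pPrimeCore 2 C) ∣ Nat.card (pPrimeCore 2 C) := orderOf_dvd_natCard _
    rw [← Subgroup.orderOf_coe] at h3
    have h4 := Nat.Coprime.coprime_dvd_left (h2.trans h3) hOcop
    norm_num at h4
  have hregG : ∀ c : C, c ∈ Os → ¬ 2 ∣ orderOf (c : G) := by
    intro c hc
    rw [Subgroup.orderOf_coe]; exact hreg c hc
  have hOscard : Os.card = Nat.card (pPrimeCore 2 C) := by
    rw [hOs, Nat.card_eq_fintype_card, Fintype.card_subtype]
  have hOs0 : (Os.card : ℂ) ≠ 0 := by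
    rw [hOscard]; exact_mod_cast Nat.card_pos.ne'
  -- |Os| * |A| = |C|
  have hcardC : Os.card * Nat.card A = Nat.card C := by
    obtain ⟨k, hk⟩ := hnc'
    have h1 := Subgroup.card_mul_index (pPrimeCore 2 C)
    rw [hk] at h1
    have h2 : (Nat.card C).factorization 2 = k := by
      rw [← h1, Nat.factorization_mul Nat.card_pos.ne' (by positivity)]
      have h3 : (Nat.card (pPrimeCore 2 C)).factorization 2 = 0 := by
        apply Nat.factorization_eq_zero_of_not_dvd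
        intro h4
        have h5 := Nat.Coprime.coprime_dvd_left h4 hOcop
        norm_num at h5
      rw [Finsupp.add_apply, h3, Nat.Prime.factorization_pow Nat.prime_two,
        Finsupp.single_eq_same, zero_add]
    rw [hcardA, h2, hOscard, h1]
  obtain ⟨T, hT⟩ : ∃ T : IrrCharacter G → ℂ,
      T = fun χ : IrrCharacter G => ∑ c ∈ Os, (χ : G → ℂ) (w * (c : G)) := ⟨_, rfl⟩
  -- Step 1
  have hT1 : ∀ χ ∈ B, T χ = (Os.card : ℂ) * (χ : G → ℂ) w := by
    intro χ hχ
    rw [hT]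
    show ∑ c ∈ Os, (χ : G → ℂ) (w * (c : G)) = _
    have : ∀ c ∈ Os, (χ : G → ℂ) (w * (c : G)) = (χ : G → ℂ) w := by
      intro c hc
      apply Cfsg.Agent.S0942.result 2 M hM w hwt _ _ χ ((hB χ).mp hχ)
      unfold centralizerPPrimeCore
      rw [Subgroup.mem_map]
      subst hC
      exact ⟨c, (hOsmem c).mp hc, rfl⟩
    rw [Finset.sum_congr rfl this, Finset.sum_const, nsmul_eq_mul]
  -- Step 2
  have hT2 : ∑ χ : IrrCharacter G, T χ * conj (T χ) = (Os.card : ℂ) * (Nat.card C : ℂ) := by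
    have e1 : ∀ χ : IrrCharacter G, T χ * conj (T χ) =
        ∑ c ∈ Os, ∑ c' ∈ Os, (χ : G → ℂ) (w * (c : G)) * conj ((χ : G → ℂ) (w * (c' : G))) := by
      intro χ
      rw [hT]
      show (∑ c ∈ Os, (χ : G → ℂ) (w * (c : G))) * conj (∑ c ∈ Os, (χ : G → ℂ) (w * (c : G))) = _
      rw [map_sum, Finset.sum_mul_sum]
    rw [Finset.sum_congr rfl (fun χ _ => e1 χ), Finset.sum_comm]
    have e2 : ∀ c ∈ Os, ∑ χ : IrrCharacter G, ∑ c' ∈ Os,
        (χ : G → ℂ) (w * (c : G)) * conj ((χ : G → ℂ) (w * (c' : G))) =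
        ∑ c' ∈ Os, (Nat.card {g : C // g * c * g⁻¹ = c'} : ℂ) := by
      intro c hc
      rw [Finset.sum_comm]
      apply Finset.sum_congr rfl
      intro c' hc'
      have h1 := Cfsg.Agent.H4.column_orthogonality (w * (c : G)) (w * (c' : G))
      rw [finsum_eq_sum_of_fintype] at h1
      rw [h1, Cfsg.Agent.H84.card_conj_translate Nat.prime_two w hwt C hwC hCw c c'
        (hreg c hc) (hreg c' hc')]
    rw [Finset.sum_congr rfl e2, Finset.sum_comm]
    have e3 : ∀ c' ∈ Os, ∑ c ∈ Os, (Nat.card {g : C // g * c * g⁻¹ = c'} : ℂ) =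
        (Nat.card C : ℂ) := by
      intro c' hc'
      rw [← Cfsg.Agent.H84.sum_card_conj_eq C c']
      apply Finset.sum_subset (Finset.subset_univ Os)
      intro c _ hcn
      have hemp : IsEmpty {g : C // g * c * g⁻¹ = c'} := by
        constructor
        rintro ⟨g, hg⟩
        apply hcn
        rw [hOsmem] at hc' ⊢
        have h1 : c = g⁻¹ * c' * g⁻¹⁻¹ := by rw [← hg]; group
        rw [h1]
        exact hOn.conj_mem c' hc' g⁻¹
      rw [Nat.card_of_isEmpty, Nat.cast_zero]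
    rw [Finset.sum_congr rfl e3, Finset.sum_const, nsmul_eq_mul]
  -- Step 4
  have hT4 : ∀ χ : IrrCharacter G, χ ∉ B → T χ = 0 := by
    have e1 : ∑ χ ∈ B, T χ * conj (T χ) = (Os.card : ℂ) * (Nat.card C : ℂ) := by
      have : ∀ χ ∈ B, T χ * conj (T χ) = (Os.card : ℂ) * (Os.card : ℂ) *
          ((χ : G → ℂ) w * conj ((χ : G → ℂ) w)) := by
        intro χ hχ
        rw [hT1 χ hχ, map_mul, Complex.conj_natCast]
        ring
      rw [Finset.sum_congr rfl this, ← Finset.mul_sum, hself, ← hcardC]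
      push_cast; ring
    have e2 := Finset.sum_sdiff (Finset.subset_univ B) (f := fun χ => T χ * conj (T χ))
    rw [hT2, e1] at e2
    have e3 : ∑ χ ∈ Finset.univ \ B, T χ * conj (T χ) = 0 := by
      linear_combination e2
    have e4 : ∀ χ : IrrCharacter G, T χ * conj (T χ) = ((‖T χ‖ ^ 2 : ℝ) : ℂ) := by
      intro χ
      rw [Complex.mul_conj']
      push_cast; rfl
    rw [Finset.sum_congr rfl (fun χ _ => e4 χ), ← Complex.ofReal_sum] at e3
    have e5 : ∑ χ ∈ Finset.univ \ B, ‖T χ‖ ^ 2 = 0 := by exact_mod_cast e3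
    intro χ hχ
    have e6 := (Finset.sum_eq_zero_iff_of_nonneg (fun χ _ => by positivity)).mp e5 χ
      (Finset.mem_sdiff.mpr ⟨Finset.mem_univ _, hχ⟩)
    exact norm_eq_zero.mp (pow_eq_zero_iff (by norm_num) |>.mp e6)
  -- Step 5
  have hab := sylow_comm P ψ hP
  have hainv : a'⁻¹ = a' := inv_eq_of_mul_eq_one_left haa
  have hT5 : ∀ c ∈ Os, ∑ χ : IrrCharacter G, (χ : G → ℂ) a' * (χ : G → ℂ) a' *
      conj ((χ : G → ℂ) (w * (c : G))) / (χ : G → ℂ) 1 = 0 := by
    intro c hc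
    have h := Cfsg.Agent.H81.card_conj_pairs (Cfsg.Agent.H81.regIdentity G) a' (w * (c : G))
    have hempty : Finset.univ.filter (fun ab : G × G =>
        ab.1 * a' * ab.1⁻¹ * (ab.2 * a'⁻¹ * ab.2⁻¹) = w * (c : G)) = ∅ := by
      rw [Finset.filter_eq_empty_iff]
      intro ab _ hab'
      refine no_inv_prod P hab (ab.1 * a' * ab.1⁻¹) (ab.2 * a'⁻¹ * ab.2⁻¹) w (c : G) ?_ ?_ hab'
        (hwC c c.2) hu (hregG c hc)
      · calc ab.1 * a' * ab.1⁻¹ * (ab.1 * a' * ab.1⁻¹) = ab.1 * (a' * a') * ab.1⁻¹ := by group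
          _ = 1 := by rw [haa]; group
      · rw [hainv]
        calc ab.2 * a' * ab.2⁻¹ * (ab.2 * a' * ab.2⁻¹) = ab.2 * (a' * a') * ab.2⁻¹ := by group
          _ = 1 := by rw [haa]; group
    rw [hempty, Finset.card_empty, Nat.cast_zero, finsum_eq_sum_of_fintype] at h
    have hG : (Nat.card G : ℂ) ≠ 0 := by exact_mod_cast Nat.card_pos.ne'
    have h2 := (mul_eq_zero.mp h.symm).resolve_left hG
    rw [← h2]
    apply Finset.sum_congr rfl
    intro χ _
    rw [hainv, Cfsg.Agent.H81.irr_inv]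
  -- Step 6
  have e1 : ∑ χ : IrrCharacter G, ((χ : G → ℂ) a' * (χ : G → ℂ) a' / (χ : G → ℂ) 1) *
      conj (T χ) = 0 := by
    have : ∀ χ : IrrCharacter G, ((χ : G → ℂ) a' * (χ : G → ℂ) a' / (χ : G → ℂ) 1) *
        conj (T χ) = ∑ c ∈ Os, (χ : G → ℂ) a' * (χ : G → ℂ) a' *
          conj ((χ : G → ℂ) (w * (c : G))) / (χ : G → ℂ) 1 := by
      intro χ
      rw [hT]
      show _ * conj (∑ c ∈ Os, (χ : G → ℂ) (w * (c : G))) = _
      rw [map_sum, Finset.mul_sum]
      apply Finset.sum_congr rfl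
      intro c _
      ring
    rw [Finset.sum_congr rfl (fun χ _ => this χ), Finset.sum_comm]
    exact Finset.sum_eq_zero hT5
  have e2 := Finset.sum_sdiff (Finset.subset_univ B)
    (f := fun χ : IrrCharacter G => ((χ : G → ℂ) a' * (χ : G → ℂ) a' / (χ : G → ℂ) 1) * conj (T χ))
  rw [e1] at e2
  have e3 : ∑ χ ∈ Finset.univ \ B, ((χ : G → ℂ) a' * (χ : G → ℂ) a' / (χ : G → ℂ) 1) *
      conj (T χ) = 0 := by
    apply Finset.sum_eq_zero
    intro χ hχ
    rw [hT4 χ (Finset.mem_sdiff.mp hχ).2, map_zero, mul_zero]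
  rw [e3, zero_add] at e2
  have e4 : ∑ χ ∈ B, ((χ : G → ℂ) a' * (χ : G → ℂ) a' / (χ : G → ℂ) 1) * conj (T χ) =
      (Os.card : ℂ) * ∑ χ ∈ B, (χ : G → ℂ) a' * (χ : G → ℂ) a' * conj ((χ : G → ℂ) w) /
        (χ : G → ℂ) 1 := by
    rw [Finset.mul_sum]
    apply Finset.sum_congr rfl
    intro χ hχ
    rw [hT1 χ hχ, map_mul, Complex.conj_natCast]
    ring
  rw [e4] at e2
  exact (mul_eq_zero.mp e2).resolve_left hOs0

end Blk

end Cfsg.Agent.H59.HC
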