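import Mathlib
import Cfsg.Agent.H59.HCArith
import Cfsg.Agent.H59.HCDual
import Cfsg.Agent.H59.HCBlock
import Cfsg.Agent.H82.Triv
import Cfsg.Agent.H4.BrauerBasic

/-!
# helper59: Brauer's theorem on Sylow 2-subgroups of type `(2^m, 2^m)`, the character theory

In the setting of `HCBlock` (abelian Sylow 2-subgroup `P = ψ(A)`, fusion controlled by an
automorphism `τ` of order three acting fixed-point-freely, 2-nilpotent centralizers), the
principal 2-block contains a nontrivial character which is constant `= ξ(1)` on `P`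
(`exists_linear`); hence `P` lies in a proper normal subgroup (`exists_proper_normal`).
-/

set_option autoImplicit false
set_option linter.style.haveILetI false
set_option linter.unusedSectionVars false
set_option linter.unusedVariables false

namespace Cfsg.Agent.H59.HC

open Cfsg
open scoped ComplexConjugate

section Main

universe u

variable {G : Type u} [Group G] [Finite G] {A : Type*} [CommGroup A] [Finite A] [Fintype A]
  [Fintype (A →* ℂˣ)] [DecidableEq (A →* ℂˣ)] [DecidableEq A]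

/-- the multiplicity of the linear character `l` in the restriction of `ζ` to `A` -/
noncomputable def nn (ψ : A →* G) (ζ : IrrCharacter G) (l : A →* ℂˣ) : ℂ :=
  (Nat.card A : ℂ)⁻¹ * ∑ y : A, (ζ : G → ℂ) (ψ y) * conj ((l y : ℂˣ) : ℂ)

/-- `⟨ζ|_A, 1 - l⟩` -/
noncomputable def wv (ψ : A →* G) (ζ : IrrCharacter G) (l : A →* ℂˣ) : ℂ :=
  nn ψ ζ 1 - nn ψ ζ l

variable (P : Sylow 2 G) (ψ : A →* G) (hψ : Function.Injective ψ)
  (hP : ψ.range = (P : Subgroup G))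

theorem nn_nat (ζ : IrrCharacter G) (l : A →* ℂˣ) : ∃ k : ℕ, nn ψ ζ l = k := by
  have h1 : IsCharacter A (fun y : A => (ζ : G → ℂ) (ψ y)) :=
    Cfsg.Agent.H4.isCharacter_comp ψ (Cfsg.Agent.H4.isCharacter_of_isIrrCharacter ζ.2)
  have h2 : IsCharacter A (fun y : A => ((l y : ℂˣ) : ℂ)) := Cfsg.Agent.H4.isCharacter_of_hom l
  obtain ⟨k, hk⟩ := Cfsg.Agent.H4.classInner_isCharacter_nat h1 h2
  exact ⟨k, hk⟩

theorem nn_fourier (ζ : IrrCharacter G) (x : A) :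
    (ζ : G → ℂ) (ψ x) = ∑ l : A →* ℂˣ, nn ψ ζ l * ((l x : ℂˣ) : ℂ) :=
  (fourier (fun y : A => (ζ : G → ℂ) (ψ y)) x).symm

theorem wv_int (ζ : IrrCharacter G) (l : A →* ℂˣ) : ∃ i : ℤ, wv ψ ζ l = i := by
  obtain ⟨k1, h1⟩ := nn_nat ψ ζ 1
  obtain ⟨k2, h2⟩ := nn_nat ψ ζ l
  exact ⟨(k1 : ℤ) - k2, by unfold wv; rw [h1, h2]; push_cast; rfl⟩

theorem wv_one (ζ : IrrCharacter G) : wv ψ ζ 1 = 0 := by unfold wv; ring

theorem wv_conj (ζ : IrrCharacter G) (l : A →* ℂˣ) : conj (wv ψ ζ l) = wv ψ ζ l := by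
  obtain ⟨i, hi⟩ := wv_int ψ ζ l
  rw [hi, map_intCast]

theorem wv_formula (ζ : IrrCharacter G) (l : A →* ℂˣ) :
    wv ψ ζ l = (Nat.card A : ℂ)⁻¹ *
      ∑ y : A, (ζ : G → ℂ) (ψ y) * (1 - conj ((l y : ℂˣ) : ℂ)) := by
  unfold wv nn
  rw [← mul_sub, ← Finset.sum_sub_distrib]
  congr 1
  apply Finset.sum_congr rfl
  intro y _
  simp only [MonoidHom.one_apply, Units.val_one, map_one]
  ring

theorem wv_formula' (ζ : IrrCharacter G) (l : A →* ℂˣ) :
    wv ψ ζ l = (Nat.card A : ℂ)⁻¹ *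
      ∑ y : A, conj ((ζ : G → ℂ) (ψ y)) * (1 - ((l y : ℂˣ) : ℂ)) := by
  rw [← wv_conj, wv_formula, map_mul, map_inv₀, Complex.conj_natCast, map_sum]
  congr 1
  apply Finset.sum_congr rfl
  intro y _
  rw [map_mul, map_sub, map_one, Complex.conj_conj]

theorem value_formula (ζ : IrrCharacter G) (x : A) (hx : x ≠ 1) :
    (ζ : G → ℂ) (ψ x) = -∑ l : A →* ℂˣ, wv ψ ζ l * ((l x : ℂˣ) : ℂ) := by
  rw [nn_fourier ψ ζ x]
  have h1 : ∀ l : A →* ℂˣ, nn ψ ζ l * ((l x : ℂˣ) : ℂ) =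
      nn ψ ζ 1 * ((l x : ℂˣ) : ℂ) - wv ψ ζ l * ((l x : ℂˣ) : ℂ) := by
    intro l; unfold wv; ring
  rw [Finset.sum_congr rfl (fun l _ => h1 l), Finset.sum_sub_distrib, ← Finset.mul_sum,
    sum_dual_apply x hx]
  ring

theorem degree_formula (ζ : IrrCharacter G) :
    (ζ : G → ℂ) 1 = (Nat.card A : ℂ) * nn ψ ζ 1 - ∑ l : A →* ℂˣ, wv ψ ζ l := by
  have h0 := nn_fourier ψ ζ 1
  rw [map_one] at h0
  rw [h0]
  have h1 : ∀ l : A →* ℂˣ, nn ψ ζ l * (((l 1 : ℂˣ) : ℂ)) = nn ψ ζ 1 - wv ψ ζ l := by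
    intro l; unfold wv; rw [map_one, Units.val_one]; ring
  rw [Finset.sum_congr rfl (fun l _ => h1 l), Finset.sum_sub_distrib, Finset.sum_const,
    Finset.card_univ, nsmul_eq_mul, ← Nat.card_eq_fintype_card, card_dual]

theorem wv_triv (l : A →* ℂˣ) (hl : l ≠ 1) : wv ψ (Cfsg.Agent.H80.trivChar G) l = 1 := by
  have hA : (Nat.card A : ℂ) ≠ 0 := by exact_mod_cast Nat.card_pos.ne'
  rw [wv_formula]
  have h1 : ∀ y : A, ((Cfsg.Agent.H80.trivChar G : IrrCharacter G) : G → ℂ) (ψ y) *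
      (1 - conj ((l y : ℂˣ) : ℂ)) = 1 - conj ((l y : ℂˣ) : ℂ) := by
    intro y; rw [Cfsg.Agent.H80.trivChar_apply, one_mul]
  rw [Finset.sum_congr rfl (fun y _ => h1 y), Finset.sum_sub_distrib, sum_conj_dual, if_neg hl]
  simp only [Finset.sum_const, Finset.card_univ, nsmul_eq_mul, mul_one, sub_zero]
  rw [← Nat.card_eq_fintype_card]
  field_simp

variable (τ : A →* A) (n : G) (hτ : ∀ x, ψ (τ x) = n * ψ x * n⁻¹)
  (hτ3 : ∀ x, τ (τ (τ x)) = x) (hfix : ∀ x, τ x = x → x = 1)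

include hτ hτ3 in
theorem nn_twist (ζ : IrrCharacter G) (l : A →* ℂˣ) : nn ψ ζ (l.comp τ) = nn ψ ζ l := by
  unfold nn
  congr 1
  let τe : A ≃ A := ⟨τ, fun x => τ (τ x), fun x => hτ3 x, fun x => hτ3 x⟩
  rw [← Equiv.sum_comp τe (fun y => (ζ : G → ℂ) (ψ y) * conj ((l y : ℂˣ) : ℂ))]
  apply Finset.sum_congr rfl
  intro y _
  show _ = (ζ : G → ℂ) (ψ (τ y)) * conj ((l (τ y) : ℂˣ) : ℂ)
  rw [hτ, Cfsg.Agent.H81.irr_conj]
  rfl

include hτ hτ3 in
theorem wv_twist (ζ : IrrCharacter G) (l : A →* ℂˣ) : wv ψ ζ (l.comp τ) = wv ψ ζ l := by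
  unfold wv
  rw [nn_twist ψ τ n hτ hτ3]

include hτ3 in
theorem tau_injective : Function.Injective τ := by
  intro x y h
  rw [← hτ3 x, ← hτ3 y, h]

include hτ3 hfix in
theorem tau_ne (x : A) (hx : x ≠ 1) : τ x ≠ 1 ∧ τ (τ x) ≠ 1 ∧ x ≠ τ x ∧ x ≠ τ (τ x) ∧
    τ x ≠ τ (τ x) := by
  have hinj := tau_injective τ hτ3
  have h1 : τ x ≠ 1 := fun h => hx (hinj (by rw [h, map_one]))
  have h2 : τ (τ x) ≠ 1 := fun h => h1 (hinj (by rw [h, map_one]))
  have h3 : x ≠ τ x := fun h => hx (hfix x h.symm)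
  have h5 : τ x ≠ τ (τ x) := fun h => h3 (hinj h)
  refine ⟨h1, h2, h3, ?_, h5⟩
  intro h
  apply h5
  apply hinj
  rw [hτ3, ← h]

include hτ3 hfix in
/-- a `τ`-invariant character is trivial -/
theorem twist_eq_self (l : A →* ℂˣ) (h : l.comp τ = l) : l = 1 := by
  have hinj : Function.Injective (fun x : A => τ x * x⁻¹) := by
    intro x y hxy
    have h1 : τ (x * y⁻¹) = x * y⁻¹ := by
      rw [map_mul, map_inv]
      have h2 : τ x * x⁻¹ = τ y * y⁻¹ := hxy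
      calc τ x * (τ y)⁻¹ = (τ x * x⁻¹) * x * (τ y)⁻¹ := by group
        _ = (τ y * y⁻¹) * x * (τ y)⁻¹ := by rw [h2]
        _ = x * y⁻¹ := by rw [mul_comm (τ y) y⁻¹, mul_assoc y⁻¹, mul_comm (τ y) x,
            mul_assoc, mul_assoc, mul_inv_cancel, mul_one, mul_comm]
    have h3 := hfix _ h1
    exact mul_inv_eq_one.mp h3
  have hsurj := Finite.surjective_of_injective hinj
  ext z
  obtain ⟨x, rfl⟩ := hsurj z
  have h1 : l (τ x) = l x := by
    have := DFunLike.congr_fun h x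
    exact this
  show ((l (τ x * x⁻¹) : ℂˣ) : ℂ) = ((1 : ℂˣ) : ℂ)
  rw [map_mul, map_inv, h1, mul_inv_cancel]

include hτ3 hfix in
theorem twist_ne (l : A →* ℂˣ) (hl : l ≠ 1) :
    l.comp τ ≠ 1 ∧ l.comp (τ.comp τ) ≠ 1 ∧ l ≠ l.comp τ ∧ l ≠ l.comp (τ.comp τ) ∧
      l.comp τ ≠ l.comp (τ.comp τ) := by
  have key : ∀ m : A →* ℂˣ, m.comp τ = 1 → m = 1 := by
    intro m hm
    ext x
    have := DFunLike.congr_fun hm (τ (τ x))
    simp only [MonoidHom.comp_apply, hτ3, MonoidHom.one_apply] at this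
    rw [this]; rfl
  have h1 : l.comp τ ≠ 1 := fun h => hl (key l h)
  have h2 : l.comp (τ.comp τ) ≠ 1 := fun h => h1 (key _ (by rw [MonoidHom.comp_assoc]; exact h))
  have h3 : l ≠ l.comp τ := fun h => hl (twist_eq_self τ hτ3 hfix l h.symm)
  have h5 : l.comp τ ≠ l.comp (τ.comp τ) := by
    intro h
    apply h1
    apply twist_eq_self τ hτ3 hfix (l.comp τ)
    rw [MonoidHom.comp_assoc]; exact h.symm
  refine ⟨h1, h2, h3, ?_, h5⟩
  intro h
  apply h3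
  have h6 : (l.comp (τ.comp τ)).comp τ = l := by
    ext x
    simp only [MonoidHom.comp_apply, hτ3]
  rw [← h] at h6
  exact h6.symm

variable (hfus : ∀ x x' : A, IsConj (ψ x) (ψ x') → x' = x ∨ x' = τ x ∨ x' = τ (τ x))
  (hnc : ∀ x : A, x ≠ 1 → ∃ k : ℕ,
    (pPrimeCore 2 (Subgroup.centralizer ({ψ x} : Set G))).index = 2 ^ k)
  (M : Ideal AlgInt) (hM : IsPModular 2 M)
  (B : Finset (IrrCharacter G)) (hB : ∀ χ, χ ∈ B ↔ χ ∈ principalBlock M G)

include hψ hP hM hB in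
theorem rel (l : A →* ℂˣ) : ∑ ζ ∈ B, wv ψ ζ l * (ζ : G → ℂ) 1 = 0 := by
  have h1 : ∀ ζ : IrrCharacter G, wv ψ ζ l * (ζ : G → ℂ) 1 = (Nat.card A : ℂ)⁻¹ *
      ∑ y : A, (1 - conj ((l y : ℂˣ) : ℂ)) * ((ζ : G → ℂ) (ψ y) * (ζ : G → ℂ) 1) := by
    intro ζ
    rw [wv_formula, mul_assoc, Finset.sum_mul]
    congr 1
    apply Finset.sum_congr rfl
    intro y _
    ring
  rw [Finset.sum_congr rfl (fun ζ _ => h1 ζ), ← Finset.mul_sum, Finset.sum_comm]
  have h2 : ∀ y : A, ∑ ζ ∈ B, (1 - conj ((l y : ℂˣ) : ℂ)) *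
      ((ζ : G → ℂ) (ψ y) * (ζ : G → ℂ) 1) = 0 := by
    intro y
    rw [← Finset.mul_sum]
    by_cases hy : y = 1
    · rw [hy, map_one, Units.val_one, map_one, sub_self, zero_mul]
    · rw [sum_block_one P ψ hψ hP M hM B hB y hy, mul_zero]
  rw [Finset.sum_congr rfl (fun y _ => h2 y), Finset.sum_const_zero, mul_zero]

include hψ hP hτ hτ3 hfix hfus hnc hM hB in
theorem gram (l m : A →* ℂˣ) (hl : l ≠ 1) (hm : m ≠ 1) :
    ∑ ζ ∈ B, wv ψ ζ l * wv ψ ζ m =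
      3 + (if l = m then 1 else 0) + (if l = m.comp τ then 1 else 0) +
        (if l = m.comp (τ.comp τ) then 1 else 0) := by
  have hA : (Nat.card A : ℂ) ≠ 0 := by exact_mod_cast Nat.card_pos.ne'
  have e1 : ∀ ζ : IrrCharacter G, wv ψ ζ l * wv ψ ζ m = (Nat.card A : ℂ)⁻¹ * (Nat.card A : ℂ)⁻¹ *
      ∑ y : A, ∑ y' : A, (1 - conj ((l y : ℂˣ) : ℂ)) * (1 - ((m y' : ℂˣ) : ℂ)) *
        ((ζ : G → ℂ) (ψ y) * conj ((ζ : G → ℂ) (ψ y'))) := by
    intro ζ
    rw [wv_formula ψ ζ l, wv_formula' ψ ζ m, mul_mul_mul_comm, Finset.sum_mul_sum]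
    congr 1
    apply Finset.sum_congr rfl
    intro y _
    apply Finset.sum_congr rfl
    intro y' _
    ring
  rw [Finset.sum_congr rfl (fun ζ _ => e1 ζ), ← Finset.mul_sum, Finset.sum_comm]
  have e2 : ∀ y : A, ∑ ζ ∈ B, ∑ y' : A, (1 - conj ((l y : ℂˣ) : ℂ)) * (1 - ((m y' : ℂˣ) : ℂ)) *
        ((ζ : G → ℂ) (ψ y) * conj ((ζ : G → ℂ) (ψ y'))) =
      (1 - conj ((l y : ℂˣ) : ℂ)) * ((Nat.card A : ℂ) * ((1 - ((m y : ℂˣ) : ℂ)) +
        (1 - (((m.comp τ) y : ℂˣ) : ℂ)) + (1 - (((m.comp (τ.comp τ)) y : ℂˣ) : ℂ)))) := by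
    intro y
    rw [Finset.sum_comm]
    by_cases hy : y = 1
    · rw [hy, map_one, Units.val_one, map_one, sub_self, zero_mul]
      apply Finset.sum_eq_zero
      intro y' _
      apply Finset.sum_eq_zero
      intro ζ _
      rw [zero_mul, zero_mul]
    · obtain ⟨t1, t2, t3, t4, t5⟩ := tau_ne τ hτ3 hfix y hy
      have e3 : ∀ y' : A, ∑ ζ ∈ B, (1 - conj ((l y : ℂˣ) : ℂ)) * (1 - ((m y' : ℂˣ) : ℂ)) *
          ((ζ : G → ℂ) (ψ y) * conj ((ζ : G → ℂ) (ψ y'))) =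
          (1 - conj ((l y : ℂˣ) : ℂ)) * (Nat.card A : ℂ) *
          ((if y' = y then (1 - ((m y' : ℂˣ) : ℂ)) else 0) +
            (if y' = τ y then (1 - ((m y' : ℂˣ) : ℂ)) else 0) +
            (if y' = τ (τ y) then (1 - ((m y' : ℂˣ) : ℂ)) else 0)) := by
        intro y'
        rw [← Finset.mul_sum]
        by_cases hy' : y' = 1
        · subst hy'
          rw [map_one, Units.val_one, sub_self, mul_zero, zero_mul]
          simp
        · rw [sum_block P ψ hψ hP τ n hτ hfus hnc M hM B hB y y' hy hy']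
          by_cases c1 : y' = y
          · rw [if_pos (Or.inl c1), if_pos c1, if_neg (fun h => t3 (c1.symm.trans h)),
              if_neg (fun h => t4 (c1.symm.trans h))]
            ring
          · by_cases c2 : y' = τ y
            · rw [if_pos (Or.inr (Or.inl c2)), if_neg c1, if_pos c2,
                if_neg (fun h => t5 (c2.symm.trans h))]
              ring
            · by_cases c3 : y' = τ (τ y)
              · rw [if_pos (Or.inr (Or.inr c3)), if_neg c1, if_neg c2, if_pos c3]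
                ring
              · rw [if_neg (by tauto), if_neg c1, if_neg c2, if_neg c3]
                ring
      rw [Finset.sum_congr rfl (fun y' _ => e3 y'), ← Finset.mul_sum, Finset.sum_add_distrib,
        Finset.sum_add_distrib, Finset.sum_ite_eq', Finset.sum_ite_eq', Finset.sum_ite_eq']
      simp only [Finset.mem_univ, if_true, MonoidHom.comp_apply]
      ring
  rw [Finset.sum_congr rfl (fun y _ => e2 y)]
  have e4 : ∀ y : A, (1 - conj ((l y : ℂˣ) : ℂ)) * ((Nat.card A : ℂ) *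
      ((1 - ((m y : ℂˣ) : ℂ)) + (1 - (((m.comp τ) y : ℂˣ) : ℂ)) +
        (1 - (((m.comp (τ.comp τ)) y : ℂˣ) : ℂ)))) =
      (Nat.card A : ℂ) * ((1 - conj ((l y : ℂˣ) : ℂ)) * (1 - ((m y : ℂˣ) : ℂ))) +
      (Nat.card A : ℂ) * ((1 - conj ((l y : ℂˣ) : ℂ)) * (1 - (((m.comp τ) y : ℂˣ) : ℂ))) +
      (Nat.card A : ℂ) * ((1 - conj ((l y : ℂˣ) : ℂ)) *
        (1 - (((m.comp (τ.comp τ)) y : ℂˣ) : ℂ))) := fun y => by ring
  obtain ⟨s1, s2, -, -, -⟩ := twist_ne τ hτ3 hfix m hm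
  rw [Finset.sum_congr rfl (fun y _ => e4 y), Finset.sum_add_distrib, Finset.sum_add_distrib,
    ← Finset.mul_sum, ← Finset.mul_sum, ← Finset.mul_sum, sum_one_sub, sum_one_sub, sum_one_sub,
    if_neg hl, if_neg hm, if_neg s1, if_neg s2]
  field_simp
  ring


/-! ### Part 2: the structure of the block -/

omit [Finite A] [Fintype A] [DecidableEq A] in
theorem sum_three (a b c : A →* ℂˣ) (hab : a ≠ b) (hac : a ≠ c) (hbc : b ≠ c)
    (f : (A →* ℂˣ) → ℂ) :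
    ∑ l : A →* ℂˣ, (if l = a ∨ l = b ∨ l = c then f l else 0) = f a + f b + f c := by
  have h1 : ∀ l : A →* ℂˣ, (if l = a ∨ l = b ∨ l = c then f l else 0) =
      (if l = a then f l else 0) + (if l = b then f l else 0) + (if l = c then f l else 0) := by
    intro l
    by_cases h1 : l = a
    · subst h1; simp [hab, hac]
    · by_cases h2 : l = b
      · subst h2; simp [h1, hbc]
      · by_cases h3 : l = c
        · subst h3; simp [h1, h2]
        · simp [h1, h2, h3]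
  rw [Finset.sum_congr rfl (fun l _ => h1 l), Finset.sum_add_distrib, Finset.sum_add_distrib,
    Finset.sum_ite_eq', Finset.sum_ite_eq', Finset.sum_ite_eq']
  simp

/-- the orbit sum of a linear character -/
noncomputable def Lam (τ : A →* A) (l : A →* ℂˣ) (x : A) : ℂ :=
  ((l x : ℂˣ) : ℂ) + ((l (τ x) : ℂˣ) : ℂ) + ((l (τ (τ x)) : ℂˣ) : ℂ)

omit [Finite A] [Fintype A] [Fintype (A →* ℂˣ)] [DecidableEq (A →* ℂˣ)] [DecidableEq A] in
theorem Lam_one (x : A) : Lam τ 1 x = 3 := by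
  unfold Lam
  simp only [MonoidHom.one_apply, Units.val_one]
  norm_num

omit [Finite A] [Fintype A] [Fintype (A →* ℂˣ)] [DecidableEq (A →* ℂˣ)] [DecidableEq A] in
include hτ3 in
theorem Lam_twist (l : A →* ℂˣ) (x : A) : Lam τ (l.comp τ) x = Lam τ l x := by
  unfold Lam
  simp only [MonoidHom.comp_apply, hτ3]
  ring

omit [Finite A] [Fintype A] [Fintype (A →* ℂˣ)] [DecidableEq (A →* ℂˣ)] [DecidableEq A] in
include hτ3 in
theorem Lam_twist2 (l : A →* ℂˣ) (x : A) : Lam τ (l.comp (τ.comp τ)) x = Lam τ l x := by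
  unfold Lam
  simp only [MonoidHom.comp_apply, hτ3]
  ring

omit [Finite A] [Fintype A] [Fintype (A →* ℂˣ)] [DecidableEq (A →* ℂˣ)] [DecidableEq A] in
include hτ3 hfix in
theorem Lam_sq (a : A) (ha : a * a = 1) (l : A →* ℂˣ) [Decidable (l a = 1 ∧ l (τ a) = 1)] :
    Lam τ l a * Lam τ l a = 1 + 8 * (if l a = 1 ∧ l (τ a) = 1 then 1 else 0) := by
  have hprod : a * τ a * τ (τ a) = 1 := by
    apply hfix
    rw [map_mul, map_mul, hτ3, mul_comm (τ a * τ (τ a)) a, mul_assoc]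
  have hx : ((l a : ℂˣ) : ℂ) = 1 ∨ ((l a : ℂˣ) : ℂ) = -1 := by
    apply mul_self_eq_one_iff.mp
    rw [← Units.val_mul, ← map_mul, ha, map_one, Units.val_one]
  have hy : ((l (τ a) : ℂˣ) : ℂ) = 1 ∨ ((l (τ a) : ℂˣ) : ℂ) = -1 := by
    apply mul_self_eq_one_iff.mp
    rw [← Units.val_mul, ← map_mul, ← map_mul, ha, map_one, map_one, Units.val_one]
  have hw : ((l a : ℂˣ) : ℂ) * ((l (τ a) : ℂˣ) : ℂ) * ((l (τ (τ a)) : ℂˣ) : ℂ) = 1 := by
    rw [← Units.val_mul, ← Units.val_mul, ← map_mul, ← map_mul, hprod, map_one, Units.val_one]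
  unfold Lam
  rcases hx with hx | hx <;> rcases hy with hy | hy
  · have hw' : ((l (τ (τ a)) : ℂˣ) : ℂ) = 1 := by
      rw [hx, hy] at hw; linear_combination hw
    rw [if_pos ⟨Units.val_eq_one.mp hx, Units.val_eq_one.mp hy⟩, hx, hy, hw']
    norm_num
  · have hw' : ((l (τ (τ a)) : ℂˣ) : ℂ) = -1 := by
      rw [hx, hy] at hw; linear_combination -hw
    rw [if_neg (fun h => by
      have h2 := Units.val_eq_one.mpr h.2
      rw [hy] at h2; norm_num at h2), hx, hy, hw']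
    norm_num
  · have hw' : ((l (τ (τ a)) : ℂˣ) : ℂ) = -1 := by
      rw [hx, hy] at hw; linear_combination -hw
    rw [if_neg (fun h => by
      have h2 := Units.val_eq_one.mpr h.1
      rw [hx] at h2; norm_num at h2), hx, hy, hw']
    norm_num
  · have hw' : ((l (τ (τ a)) : ℂˣ) : ℂ) = 1 := by
      rw [hx, hy] at hw; linear_combination hw
    rw [if_neg (fun h => by
      have h2 := Units.val_eq_one.mpr h.1
      rw [hx] at h2; norm_num at h2), hx, hy, hw']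
    norm_num

include hτ3 hfix in
theorem sum_Lam (a u : A) (ha : a * a = 1) (hu : u * u ≠ 1) :
    ∑ l : A →* ℂˣ, Lam τ l a * Lam τ l a * conj (Lam τ l u) = 0 := by
  classical
  have hinj := tau_injective τ hτ3
  have hτa : τ a * τ a = 1 := by rw [← map_mul, ha, map_one]
  have hne : ∀ x : A, x * x ≠ 1 → x⁻¹ * x⁻¹ ≠ 1 := by
    intro x hx h
    apply hx
    rw [← mul_inv, inv_eq_one] at h
    exact h
  have hne1 : ∀ x : A, x * x ≠ 1 → x⁻¹ ≠ 1 := by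
    intro x hx h
    apply hx
    rw [inv_eq_one] at h
    rw [h, mul_one]
  have hτu : τ u * τ u ≠ 1 := by
    intro h
    apply hu
    apply hinj
    rw [map_mul, h, map_one]
  have hττu : τ (τ u) * τ (τ u) ≠ 1 := by
    intro h
    apply hτu
    apply hinj
    rw [map_mul, h, map_one]
  have h1 : ∀ l : A →* ℂˣ, Lam τ l a * Lam τ l a * conj (Lam τ l u) =
      (((l u⁻¹ : ℂˣ) : ℂ) + ((l (τ u)⁻¹ : ℂˣ) : ℂ) + ((l (τ (τ u))⁻¹ : ℂˣ) : ℂ)) +
      8 * ((if l a = 1 ∧ l (τ a) = 1 then ((l u⁻¹ : ℂˣ) : ℂ) else 0) +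
        (if l a = 1 ∧ l (τ a) = 1 then ((l (τ u)⁻¹ : ℂˣ) : ℂ) else 0) +
        (if l a = 1 ∧ l (τ a) = 1 then ((l (τ (τ u))⁻¹ : ℂˣ) : ℂ) else 0)) := by
    intro l
    rw [Lam_sq τ hτ3 hfix a ha l]
    have e : conj (Lam τ l u) =
        ((l u⁻¹ : ℂˣ) : ℂ) + ((l (τ u)⁻¹ : ℂˣ) : ℂ) + ((l (τ (τ u))⁻¹ : ℂˣ) : ℂ) := by
      unfold Lam
      rw [map_add, map_add, dual_conj, dual_conj, dual_conj]
    rw [e]
    split_ifs <;> ring
  rw [Finset.sum_congr rfl (fun l _ => h1 l), Finset.sum_add_distrib, Finset.sum_add_distrib,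
    Finset.sum_add_distrib, ← Finset.mul_sum, Finset.sum_add_distrib, Finset.sum_add_distrib,
    sum_dual_apply _ (hne1 u hu), sum_dual_apply _ (hne1 _ hτu), sum_dual_apply _ (hne1 _ hττu),
    sum_dual_perp a (τ a) u⁻¹ ha hτa (hne u hu), sum_dual_perp a (τ a) (τ u)⁻¹ ha hτa (hne _ hτu),
    sum_dual_perp a (τ a) (τ (τ u))⁻¹ ha hτa (hne _ hττu)]
  ring


include hψ hP hτ hτ3 hfix hfus hnc hM hB in
theorem exists_linear (a u : A) (ha1 : a ≠ 1) (ha : a * a = 1) (hu : u * u ≠ 1)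
    (hu4 : orderOf (ψ u) = 4) (hcard : 16 ≤ Nat.card A) :
    ∃ ξ : IrrCharacter G, ξ ≠ Cfsg.Agent.H80.trivChar G ∧
      ∀ x : A, (ξ : G → ℂ) (ψ x) = (ξ : G → ℂ) 1 := by
  classical
  haveI : Fact (Nat.Prime 2) := ⟨Nat.prime_two⟩
  obtain ⟨o, ho⟩ : ∃ o : IrrCharacter G, o = Cfsg.Agent.H80.trivChar G := ⟨_, rfl⟩
  have hoB : o ∈ B := by
    rw [ho, hB]
    exact Cfsg.Agent.H80.trivChar_mem_principalBlock (Cfsg.Agent.H20.isPrime_of_isPModular hM)
  have hu1 : u ≠ 1 := fun h => hu (by rw [h, mul_one])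
  have hcA : (16 : ℤ) ≤ (Nat.card A : ℤ) := by exact_mod_cast hcard
  -- integer vectors
  have hex : ∀ (k : {l : A →* ℂˣ // l ≠ 1}) (ζ : IrrCharacter G), ∃ i : ℤ, wv ψ ζ k.1 = i :=
    fun k ζ => wv_int ψ ζ k.1
  choose v hv using hex
  have hdgex : ∀ ζ : IrrCharacter G, ∃ d : ℕ, 0 < d ∧ (ζ : G → ℂ) 1 = d :=
    fun ζ => Cfsg.Agent.H4.irr_one_eq_natCast ζ
  choose dg hdgpos hdg using hdgex
  have hvo : ∀ k, v k o = 1 := by
    intro k
    rw [ho]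
    have h := hv k (Cfsg.Agent.H80.trivChar G)
    rw [wv_triv ψ k.1 k.2] at h
    exact_mod_cast h.symm
  have hvtw : ∀ (k l : {l : A →* ℂˣ // l ≠ 1}),
      (k.1 = l.1 ∨ k.1 = l.1.comp τ ∨ k.1 = l.1.comp (τ.comp τ)) → ∀ ζ, v k ζ = v l ζ := by
    intro k l h ζ
    have h2 : (v k ζ : ℂ) = v l ζ := by
      rw [← hv, ← hv]
      rcases h with h | h | h
      · rw [h]
      · rw [h, wv_twist ψ τ n hτ hτ3]
      · rw [h, ← MonoidHom.comp_assoc, wv_twist ψ τ n hτ hτ3, wv_twist ψ τ n hτ hτ3]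
    exact_mod_cast h2
  have hgram : ∀ k l : {l : A →* ℂˣ // l ≠ 1}, (∑ ζ ∈ B, v k ζ * v l ζ : ℤ) =
      3 + (if k.1 = l.1 then 1 else 0) + (if k.1 = l.1.comp τ then 1 else 0) +
        (if k.1 = l.1.comp (τ.comp τ) then 1 else 0) := by
    intro k l
    have h := gram P ψ hψ hP τ n hτ hτ3 hfix hfus hnc M hM B hB k.1 l.1 k.2 l.2
    have h2 : ((∑ ζ ∈ B, v k ζ * v l ζ : ℤ) : ℂ) = ∑ ζ ∈ B, wv ψ ζ k.1 * wv ψ ζ l.1 := by
      push_cast
      apply Finset.sum_congr rfl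
      intro ζ _
      rw [hv, hv]
    rw [h] at h2
    exact_mod_cast h2
  have hnorm : ∀ k : {l : A →* ℂˣ // l ≠ 1}, ∑ ζ ∈ B, v k ζ * v k ζ = 4 := by
    intro k
    obtain ⟨-, -, t3, t4, -⟩ := twist_ne τ hτ3 hfix k.1 k.2
    rw [hgram k k, if_pos rfl, if_neg t3, if_neg t4]
    norm_num
  have hG4 : ∀ k l : {l : A →* ℂˣ // l ≠ 1},
      (k.1 = l.1 ∨ k.1 = l.1.comp τ ∨ k.1 = l.1.comp (τ.comp τ)) →
      ∑ ζ ∈ B, v k ζ * v l ζ = 4 := by
    intro k l h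
    rw [← hnorm l]
    apply Finset.sum_congr rfl
    intro ζ _
    rw [hvtw k l h ζ]
  have hG3 : ∀ k l : {l : A →* ℂˣ // l ≠ 1},
      ¬ (k.1 = l.1 ∨ k.1 = l.1.comp τ ∨ k.1 = l.1.comp (τ.comp τ)) →
      ∑ ζ ∈ B, v k ζ * v l ζ = 3 := by
    intro k l h
    rw [not_or, not_or] at h
    rw [hgram k l, if_neg h.1, if_neg h.2.1, if_neg h.2.2]
    norm_num
  have hG3' : ∀ k l : {l : A →* ℂˣ // l ≠ 1},
      ¬ (l.1 = k.1 ∨ l.1 = k.1.comp τ ∨ l.1 = k.1.comp (τ.comp τ)) →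
      ∑ ζ ∈ B, v k ζ * v l ζ = 3 := by
    intro k l h
    rw [← hG3 l k h]
    exact Finset.sum_congr rfl (fun ζ _ => mul_comm _ _)
  have hG : ∀ k l : {l : A →* ℂˣ // l ≠ 1},
      ∑ ζ ∈ B, v k ζ * v l ζ = 3 ∨ ∑ ζ ∈ B, v k ζ * v l ζ = 4 := by
    intro k l
    by_cases h : (k.1 = l.1 ∨ k.1 = l.1.comp τ ∨ k.1 = l.1.comp (τ.comp τ))
    · exact Or.inr (hG4 k l h)
    · exact Or.inl (hG3 k l h)
  -- five characters in different orbits
  have hcardD : 16 ≤ Fintype.card (A →* ℂˣ) := by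
    rw [← Nat.card_eq_fintype_card, card_dual]; exact hcard
  have pick : ∀ S : Finset (A →* ℂˣ), S.card < 16 → ∃ l, l ∉ S := by
    intro S hS
    by_contra hcon
    have hcon' : ∀ l, l ∈ S := fun l => by_contra (fun h => hcon ⟨l, h⟩)
    have h2 : S = Finset.univ := Finset.eq_univ_iff_forall.mpr hcon'
    rw [h2, Finset.card_univ] at hS
    omega
  have grow : ∀ (S : Finset (A →* ℂˣ)) (l : A →* ℂˣ),
      (insert l (insert (l.comp τ) (insert (l.comp (τ.comp τ)) S))).card ≤ S.card + 3 := by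
    intro S l
    have h1 := Finset.card_insert_le (l.comp (τ.comp τ)) S
    have h2 := Finset.card_insert_le (l.comp τ) (insert (l.comp (τ.comp τ)) S)
    have h3 := Finset.card_insert_le l (insert (l.comp τ) (insert (l.comp (τ.comp τ)) S))
    omega
  obtain ⟨l₀, hl₀⟩ := pick {1} (by simp)
  obtain ⟨S₁, hS₁⟩ : ∃ S₁ : Finset (A →* ℂˣ),
    S₁ = insert l₀ (insert (l₀.comp τ) (insert (l₀.comp (τ.comp τ)) {1})) := ⟨_, rfl⟩
  have c₁ : S₁.card ≤ 4 := by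
    rw [hS₁]; have := grow {1} l₀; rw [Finset.card_singleton] at this; omega
  obtain ⟨l₁, hl₁⟩ := pick S₁ (by omega)
  obtain ⟨S₂, hS₂⟩ : ∃ S₂ : Finset (A →* ℂˣ),
    S₂ = insert l₁ (insert (l₁.comp τ) (insert (l₁.comp (τ.comp τ)) S₁)) := ⟨_, rfl⟩
  have c₂ : S₂.card ≤ 7 := by
    rw [hS₂]; have := grow S₁ l₁; omega
  obtain ⟨l₂, hl₂⟩ := pick S₂ (by omega)
  obtain ⟨S₃, hS₃⟩ : ∃ S₃ : Finset (A →* ℂˣ),
    S₃ = insert l₂ (insert (l₂.comp τ) (insert (l₂.comp (τ.comp τ)) S₂)) := ⟨_, rfl⟩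
  have c₃ : S₃.card ≤ 10 := by
    rw [hS₃]; have := grow S₂ l₂; omega
  obtain ⟨l₃, hl₃⟩ := pick S₃ (by omega)
  obtain ⟨S₄, hS₄⟩ : ∃ S₄ : Finset (A →* ℂˣ),
    S₄ = insert l₃ (insert (l₃.comp τ) (insert (l₃.comp (τ.comp τ)) S₃)) := ⟨_, rfl⟩
  have c₄ : S₄.card ≤ 13 := by
    rw [hS₄]; have := grow S₃ l₃; omega
  obtain ⟨l₄, hl₄⟩ := pick S₄ (by omega)
  rw [hS₄, hS₃, hS₂, hS₁] at hl₄
  rw [hS₃, hS₂, hS₁] at hl₃
  rw [hS₂, hS₁] at hl₂
  rw [hS₁] at hl₁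
  simp only [Finset.mem_insert, Finset.mem_singleton, not_or] at hl₀ hl₁ hl₂ hl₃ hl₄
  obtain ⟨a10, a10', a10'', a1⟩ := hl₁
  obtain ⟨a21, a21', a21'', a20, a20', a20'', a2⟩ := hl₂
  obtain ⟨a32, a32', a32'', a31, a31', a31'', a30, a30', a30'', a3⟩ := hl₃
  obtain ⟨a43, a43', a43'', a42, a42', a42'', a41, a41', a41'', a40, a40', a40'', a4⟩ := hl₄
  obtain ⟨p, q, εp, εq, z, εz, hpB, hqB, hpo, hqo, hpq, hεp, hεq, hz, hstr, hzz⟩ :=
    gram_structure B o hoB v hvo hG hnorm ⟨l₀, hl₀⟩ ⟨l₁, a1⟩ ⟨l₂, a2⟩ ⟨l₃, a3⟩ ⟨l₄, a4⟩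
      (hG3' _ _ (by rintro (h | h | h); exacts [a10 h, a10' h, a10'' h]))
      (hG3' _ _ (by rintro (h | h | h); exacts [a20 h, a20' h, a20'' h]))
      (hG3' _ _ (by rintro (h | h | h); exacts [a30 h, a30' h, a30'' h]))
      (hG3' _ _ (by rintro (h | h | h); exacts [a40 h, a40' h, a40'' h]))
      (hG3' _ _ (by rintro (h | h | h); exacts [a21 h, a21' h, a21'' h]))
      (hG3' _ _ (by rintro (h | h | h); exacts [a31 h, a31' h, a31'' h]))
      (hG3' _ _ (by rintro (h | h | h); exacts [a41 h, a41' h, a41'' h]))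
      (hG3' _ _ (by rintro (h | h | h); exacts [a32 h, a32' h, a32'' h]))
      (hG3' _ _ (by rintro (h | h | h); exacts [a42 h, a42' h, a42'' h]))
      (hG3' _ _ (by rintro (h | h | h); exacts [a43 h, a43' h, a43'' h]))
  -- the entries
  have hvp : ∀ k, v k p = εp := by
    intro k
    rw [hstr k p hpB, if_neg hpo, if_pos rfl, if_neg hpq, if_neg (fun h => (hz k).2.2.1 h.symm)]
    ring
  have hvq : ∀ k, v k q = εq := by
    intro k
    rw [hstr k q hqB, if_neg hqo, if_neg (fun h => hpq h.symm), if_pos rfl,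
      if_neg (fun h => (hz k).2.2.2.1 h.symm)]
    ring
  have hvz : ∀ k ζ, ζ ∈ B → ζ ≠ o → ζ ≠ p → ζ ≠ q → v k ζ = -(if ζ = z k then εz k else 0) := by
    intro k ζ h1 h2 h3 h4
    rw [hstr k ζ h1, if_neg h2, if_neg h3, if_neg h4]
    ring
  have hεp2 : εp * εp = 1 := by rcases hεp with h | h <;> rw [h] <;> norm_num
  have hεq2 : εq * εq = 1 := by rcases hεq with h | h <;> rw [h] <;> norm_num
  -- values and degrees
  have hval : ∀ (ζ : IrrCharacter G) (x : A), x ≠ 1 → (ζ : G → ℂ) (ψ x) =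
      -∑ k : {l : A →* ℂˣ // l ≠ 1}, (v k ζ : ℂ) * ((k.1 x : ℂˣ) : ℂ) := by
    intro ζ x hx
    rw [value_formula ψ ζ x hx, Fintype.sum_eq_add_sum_subtype_ne _ (1 : A →* ℂˣ), wv_one,
      zero_mul, zero_add]
    congr 1
    apply Finset.sum_congr rfl
    intro k _
    rw [hv]
  have hsumk : ∀ x : A, x ≠ 1 → ∑ k : {l : A →* ℂˣ // l ≠ 1}, ((k.1 x : ℂˣ) : ℂ) = -1 := by
    intro x hx
    have h := Fintype.sum_eq_add_sum_subtype_ne (fun l : A →* ℂˣ => ((l x : ℂˣ) : ℂ)) 1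
    rw [sum_dual_apply x hx] at h
    simp only [MonoidHom.one_apply, Units.val_one] at h
    linear_combination -h
  have hcardk : (Fintype.card {l : A →* ℂˣ // l ≠ 1} : ℂ) = (Nat.card A : ℂ) - 1 := by
    have h := Fintype.sum_eq_add_sum_subtype_ne (fun l : A →* ℂˣ => (1 : ℂ)) 1
    simp only [Finset.sum_const, Finset.card_univ, nsmul_eq_mul, mul_one] at h
    rw [← Nat.card_eq_fintype_card, card_dual] at h
    linear_combination -h
  have hpval : ∀ x : A, x ≠ 1 → (p : G → ℂ) (ψ x) = εp := by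
    intro x hx
    rw [hval p x hx]
    simp only [hvp]
    rw [← Finset.mul_sum, hsumk x hx]
    ring
  have hqval : ∀ x : A, x ≠ 1 → (q : G → ℂ) (ψ x) = εq := by
    intro x hx
    rw [hval q x hx]
    simp only [hvq]
    rw [← Finset.mul_sum, hsumk x hx]
    ring
  obtain ⟨Np, hNp⟩ := nn_nat ψ p 1
  obtain ⟨Nq, hNq⟩ := nn_nat ψ q 1
  have hdegp : ((dg p : ℤ) : ℂ) = (Nat.card A : ℂ) * Np - εp * ((Nat.card A : ℂ) - 1) := by
    have h := degree_formula ψ p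
    rw [hdg p, hNp, Fintype.sum_eq_add_sum_subtype_ne _ (1 : A →* ℂˣ), wv_one, zero_add] at h
    have e : ∀ k : {l : A →* ℂˣ // l ≠ 1}, wv ψ p k.1 = εp := fun k => by rw [hv, hvp]
    rw [Finset.sum_congr rfl (fun k _ => e k), Finset.sum_const, Finset.card_univ, nsmul_eq_mul,
      hcardk] at h
    push_cast
    rw [h]
    ring
  have hdegq : ((dg q : ℤ) : ℂ) = (Nat.card A : ℂ) * Nq - εq * ((Nat.card A : ℂ) - 1) := by
    have h := degree_formula ψ q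
    rw [hdg q, hNq, Fintype.sum_eq_add_sum_subtype_ne _ (1 : A →* ℂˣ), wv_one, zero_add] at h
    have e : ∀ k : {l : A →* ℂˣ // l ≠ 1}, wv ψ q k.1 = εq := fun k => by rw [hv, hvq]
    rw [Finset.sum_congr rfl (fun k _ => e k), Finset.sum_const, Finset.card_univ, nsmul_eq_mul,
      hcardk] at h
    push_cast
    rw [h]
    ring
  have hdegpZ : (dg p : ℤ) = (Nat.card A : ℤ) * Np - εp * ((Nat.card A : ℤ) - 1) := by
    exact_mod_cast hdegp
  have hdegqZ : (dg q : ℤ) = (Nat.card A : ℤ) * Nq - εq * ((Nat.card A : ℤ) - 1) := by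
    exact_mod_cast hdegq
  -- the degree relation
  have hrelk : ∀ k : {l : A →* ℂˣ // l ≠ 1},
      εz k * (dg (z k) : ℤ) = 1 + εp * (dg p : ℤ) + εq * (dg q : ℤ) := by
    intro k
    have h := rel P ψ hψ hP M hM B hB k.1
    have e : ∀ ζ ∈ B, wv ψ ζ k.1 * (ζ : G → ℂ) 1 =
        (if ζ = o then (ζ : G → ℂ) 1 else 0) + (if ζ = p then (εp : ℂ) * (ζ : G → ℂ) 1 else 0) +
        (if ζ = q then (εq : ℂ) * (ζ : G → ℂ) 1 else 0) -
        (if ζ = z k then (εz k : ℂ) * (ζ : G → ℂ) 1 else 0) := by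
      intro ζ hζ
      rw [hv, hstr k ζ hζ]
      push_cast
      split_ifs <;> ring
    rw [Finset.sum_congr rfl e, Finset.sum_sub_distrib, Finset.sum_add_distrib,
      Finset.sum_add_distrib, Finset.sum_ite_eq', Finset.sum_ite_eq', Finset.sum_ite_eq',
      Finset.sum_ite_eq', if_pos hoB, if_pos hpB, if_pos hqB, if_pos (hz k).1, ho,
      Cfsg.Agent.H80.trivChar_apply, hdg p, hdg q, hdg (z k)] at h
    have h2 : ((εz k * (dg (z k) : ℤ) : ℤ) : ℂ) =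
        ((1 + εp * (dg p : ℤ) + εq * (dg q : ℤ) : ℤ) : ℂ) := by
      push_cast
      linear_combination -h
    exact_mod_cast h2
  obtain ⟨X, hXdef⟩ : ∃ X : ℤ, X = εp * (dg p : ℤ) := ⟨_, rfl⟩
  obtain ⟨Y, hYdef⟩ : ∃ Y : ℤ, Y = εq * (dg q : ℤ) := ⟨_, rfl⟩
  obtain ⟨F, hFdef⟩ : ∃ F : ℤ, F = 1 + X + Y := ⟨_, rfl⟩
  have hF : ∀ k : {l : A →* ℂˣ // l ≠ 1}, εz k * (dg (z k) : ℤ) = F := by
    intro k
    rw [hrelk k, hFdef, hXdef, hYdef]
  have hdgZ : ∀ ζ : IrrCharacter G, (0 : ℤ) < (dg ζ : ℤ) := fun ζ => by exact_mod_cast hdgpos ζ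
  have hdgC : ∀ ζ : IrrCharacter G, ((dg ζ : ℕ) : ℂ) ≠ 0 := fun ζ => by
    exact_mod_cast (hdgpos ζ).ne'
  have hX0 : X ≠ 0 := by
    rw [hXdef]
    rcases hεp with h | h <;> rw [h] <;> have := hdgZ p <;> omega
  have hY0 : Y ≠ 0 := by
    rw [hYdef]
    rcases hεq with h | h <;> rw [h] <;> have := hdgZ q <;> omega
  have hF0 : F ≠ 0 := by
    rw [← hF ⟨l₀, hl₀⟩]
    rcases (hz ⟨l₀, hl₀⟩).2.2.2.2 with h | h <;> rw [h] <;> have := hdgZ (z ⟨l₀, hl₀⟩) <;> omega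
  -- the contributions of the remaining characters
  have hclaim : ∀ ζ ∈ B, ζ ≠ o → ζ ≠ p → ζ ≠ q →
      (ζ : G → ℂ) (ψ a) * (ζ : G → ℂ) (ψ a) * conj ((ζ : G → ℂ) (ψ u)) / (ζ : G → ℂ) 1 =
      1 / 3 * (1 / (F : ℂ)) * ∑ k : {l : A →* ℂˣ // l ≠ 1},
        (if z k = ζ then Lam τ k.1 a * Lam τ k.1 a * conj (Lam τ k.1 u) else 0) := by
    intro ζ hζB hζo hζp hζq
    by_cases hex : ∃ k₀, z k₀ = ζ
    · obtain ⟨k₀, hk₀⟩ := hex
      obtain ⟨t1, t2, t3, t4, t5⟩ := twist_ne τ hτ3 hfix k₀.1 k₀.2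
      have hfib : ∀ k : {l : A →* ℂˣ // l ≠ 1}, z k = ζ ↔
          (k.1 = k₀.1 ∨ k.1 = k₀.1.comp τ ∨ k.1 = k₀.1.comp (τ.comp τ)) := by
        intro k
        rw [← hk₀]
        constructor
        · intro h
          by_contra hcon
          have h3 := hG3 k k₀ hcon
          have h4 : ∑ ζ ∈ B, v k ζ * v k₀ ζ = 4 := by
            rw [← hnorm k]
            apply Finset.sum_congr rfl
            intro i hi
            rw [(hzz k k₀).mp h i hi]
          omega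
        · intro h
          exact (hzz k k₀).mpr (fun i _ => hvtw k k₀ h i)
      have hεfib : ∀ k : {l : A →* ℂˣ // l ≠ 1}, z k = ζ → εz k = εz k₀ := by
        intro k hk
        have h1 := hF k
        have h2 := hF k₀
        rw [hk] at h1
        rw [hk₀] at h2
        have h3 : εz k * (dg ζ : ℤ) = εz k₀ * (dg ζ : ℤ) := by rw [h1, h2]
        exact mul_right_cancel₀ (hdgZ ζ).ne' h3
      have hfibsum : ∀ f : (A →* ℂˣ) → ℂ,
          ∑ k : {l : A →* ℂˣ // l ≠ 1}, (if z k = ζ then f k.1 else 0) =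
            f k₀.1 + f (k₀.1.comp τ) + f (k₀.1.comp (τ.comp τ)) := by
        intro f
        rw [← sum_three k₀.1 (k₀.1.comp τ) (k₀.1.comp (τ.comp τ)) t3 t4 t5 f,
          Fintype.sum_eq_add_sum_subtype_ne _ (1 : A →* ℂˣ), if_neg (by
            rintro (h | h | h)
            · exact k₀.2 h.symm
            · exact t1 h.symm
            · exact t2 h.symm), zero_add]
        apply Finset.sum_congr rfl
        intro k _
        by_cases hk : z k = ζ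
        · rw [if_pos hk, if_pos ((hfib k).mp hk)]
        · rw [if_neg hk, if_neg (fun h => hk ((hfib k).mpr h))]
      have hζval : ∀ x : A, x ≠ 1 → (ζ : G → ℂ) (ψ x) = εz k₀ * Lam τ k₀.1 x := by
        intro x hx
        rw [hval ζ x hx]
        have e : ∀ k : {l : A →* ℂˣ // l ≠ 1}, (v k ζ : ℂ) * ((k.1 x : ℂˣ) : ℂ) =
            -(εz k₀ : ℂ) * (if z k = ζ then ((k.1 x : ℂˣ) : ℂ) else 0) := by
          intro k
          rw [hvz k ζ hζB hζo hζp hζq]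
          by_cases hk : z k = ζ
          · rw [if_pos hk.symm, if_pos hk, hεfib k hk]
            push_cast
            ring
          · rw [if_neg (fun h => hk h.symm), if_neg hk]
            push_cast
            ring
        rw [Finset.sum_congr rfl (fun k _ => e k), ← Finset.mul_sum,
          hfibsum (fun l => ((l x : ℂˣ) : ℂ))]
        unfold Lam
        simp only [MonoidHom.comp_apply]
        ring
      have e1 : ∑ k : {l : A →* ℂˣ // l ≠ 1},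
          (if z k = ζ then Lam τ k.1 a * Lam τ k.1 a * conj (Lam τ k.1 u) else 0) =
          3 * (Lam τ k₀.1 a * Lam τ k₀.1 a * conj (Lam τ k₀.1 u)) := by
        rw [hfibsum (fun l => Lam τ l a * Lam τ l a * conj (Lam τ l u))]
        simp only [Lam_twist τ hτ3, Lam_twist2 τ hτ3]
        ring
      have hFζ : (F : ℂ) = εz k₀ * ((dg ζ : ℕ) : ℂ) := by
        have h := hF k₀
        rw [hk₀] at h
        rw [← h]
        push_cast
        ring
      have hε2 : (εz k₀ : ℂ) * εz k₀ = 1 := by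
        rcases (hz k₀).2.2.2.2 with h | h <;> rw [h] <;> norm_num
      have hε0 : (εz k₀ : ℂ) ≠ 0 := by
        intro h
        rw [h, mul_zero] at hε2
        exact zero_ne_one hε2
      have e2 : (1 : ℂ) / (εz k₀ * ((dg ζ : ℕ) : ℂ)) = εz k₀ / ((dg ζ : ℕ) : ℂ) := by
        rw [div_eq_div_iff (mul_ne_zero hε0 (hdgC ζ)) (hdgC ζ)]
        linear_combination (-((dg ζ : ℕ) : ℂ)) * hε2
      rw [e1, hζval a ha1, hζval u hu1, hdg ζ, map_mul, map_intCast, hFζ, e2]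
      have e3 : (εz k₀ : ℂ) * Lam τ k₀.1 a * ((εz k₀ : ℂ) * Lam τ k₀.1 a) *
          ((εz k₀ : ℂ) * conj (Lam τ k₀.1 u)) / ((dg ζ : ℕ) : ℂ) =
          ((εz k₀ : ℂ) * εz k₀) * ((εz k₀ : ℂ) *
            (Lam τ k₀.1 a * Lam τ k₀.1 a * conj (Lam τ k₀.1 u)) / ((dg ζ : ℕ) : ℂ)) := by ring
      rw [e3, hε2]
      ring
    · have hex' : ∀ k, z k ≠ ζ := fun k h => hex ⟨k, h⟩
      have hv0 : ∀ k : {l : A →* ℂˣ // l ≠ 1}, v k ζ = 0 := by
        intro k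
        rw [hvz k ζ hζB hζo hζp hζq, if_neg (fun h => hex' k h.symm)]
        simp
      have h0 : (ζ : G → ℂ) (ψ a) = 0 := by
        rw [hval ζ a ha1]
        simp [hv0]
      rw [h0, Finset.sum_congr rfl (fun k _ => if_neg (hex' k))]
      simp
  -- the class-count identity
  have hD := D_eq P ψ hψ hP hnc M hM B hB a u ha hu4
  have hpB' : p ∈ B.erase o := Finset.mem_erase.mpr ⟨hpo, hpB⟩
  have hqB' : q ∈ (B.erase o).erase p :=
    Finset.mem_erase.mpr ⟨fun h => hpq h.symm, Finset.mem_erase.mpr ⟨hqo, hqB⟩⟩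
  rw [← Finset.add_sum_erase B _ hoB, ← Finset.add_sum_erase (B.erase o) _ hpB',
    ← Finset.add_sum_erase ((B.erase o).erase p) _ hqB'] at hD
  have hrest : ∑ ζ ∈ ((B.erase o).erase p).erase q,
      (ζ : G → ℂ) (ψ a) * (ζ : G → ℂ) (ψ a) * conj ((ζ : G → ℂ) (ψ u)) / (ζ : G → ℂ) 1 =
      1 / 3 * (1 / (F : ℂ)) * (-27) := by
    have hmem : ∀ ζ ∈ ((B.erase o).erase p).erase q, ζ ∈ B ∧ ζ ≠ o ∧ ζ ≠ p ∧ ζ ≠ q := by
      intro ζ hζ
      simp only [Finset.mem_erase] at hζ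
      exact ⟨hζ.2.2.2, hζ.2.2.1, hζ.2.1, hζ.1⟩
    rw [Finset.sum_congr rfl (fun ζ hζ => hclaim ζ (hmem ζ hζ).1 (hmem ζ hζ).2.1
      (hmem ζ hζ).2.2.1 (hmem ζ hζ).2.2.2), ← Finset.mul_sum, Finset.sum_comm]
    congr 1
    have e : ∀ k : {l : A →* ℂˣ // l ≠ 1}, ∑ ζ ∈ ((B.erase o).erase p).erase q,
        (if z k = ζ then Lam τ k.1 a * Lam τ k.1 a * conj (Lam τ k.1 u) else 0) =
        Lam τ k.1 a * Lam τ k.1 a * conj (Lam τ k.1 u) := by
      intro k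
      rw [Finset.sum_ite_eq, if_pos]
      simp only [Finset.mem_erase]
      exact ⟨(hz k).2.2.2.1, (hz k).2.2.1, (hz k).2.1, (hz k).1⟩
    rw [Finset.sum_congr rfl (fun k _ => e k)]
    have h := Fintype.sum_eq_add_sum_subtype_ne
      (fun l : A →* ℂˣ => Lam τ l a * Lam τ l a * conj (Lam τ l u)) 1
    rw [sum_Lam τ hτ3 hfix a u ha hu] at h
    simp only [Lam_one] at h
    have h27 : conj (3 : ℂ) = 3 := Complex.conj_ofNat 3
    rw [h27] at h
    linear_combination -h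
  have e2' : ∀ (ε : ℤ) (d : ℕ), ε * ε = 1 → (d : ℂ) ≠ 0 →
      (ε : ℂ) * ε * ε / (d : ℂ) = 1 / ((ε * (d : ℤ) : ℤ) : ℂ) := by
    intro ε d h2 hd
    have h2C : (ε : ℂ) * ε = 1 := by exact_mod_cast h2
    have hε0 : (ε : ℂ) ≠ 0 := by
      intro h
      rw [h, mul_zero] at h2C
      exact zero_ne_one h2C
    rw [h2C, one_mul]
    push_cast
    rw [div_eq_div_iff hd (mul_ne_zero hε0 hd)]
    linear_combination ((d : ℂ)) * h2C
  rw [hrest, hpval a ha1, hpval u hu1, hqval a ha1, hqval u hu1, hdg p, hdg q, map_intCast,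
    map_intCast, e2' εp (dg p) hεp2 (hdgC p), e2' εq (dg q) hεq2 (hdgC q), ← hXdef, ← hYdef, ho] at hD
  simp only [Cfsg.Agent.H80.trivChar_apply, map_one] at hD
  have hXC : (X : ℂ) ≠ 0 := by exact_mod_cast hX0
  have hYC : (Y : ℂ) ≠ 0 := by exact_mod_cast hY0
  have hFC : (F : ℂ) ≠ 0 := by exact_mod_cast hF0
  have hFC' : (F : ℂ) = 1 + X + Y := by rw [hFdef]; push_cast; ring
  have key : (X : ℂ) * Y * F * (1 * 1 * 1 / 1 + (1 / (X : ℂ) + (1 / (Y : ℂ) + 1 / 3 * (1 / (F : ℂ)) * (-27)))) =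
      X * Y * F + Y * F + X * F - 9 * X * Y := by
    field_simp
    ring
  rw [hD, mul_zero] at key
  have hfinC : (((X * Y + X + Y) * (1 + X + Y) : ℤ) : ℂ) = ((9 * X * Y : ℤ) : ℂ) := by
    push_cast
    rw [hFC'] at key
    linear_combination -key
  have hfin : (X * Y + X + Y) * (1 + X + Y) = 9 * X * Y := by exact_mod_cast hfinC
  have tri : ∀ (ε : ℤ) (N : ℕ) (W : ℤ), ε * ε = 1 →
      W = ε * ((Nat.card A : ℤ) * N - ε * ((Nat.card A : ℤ) - 1)) →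
      W = 1 ∨ 17 ≤ W ∨ W ≤ -15 := by
    intro ε N W h2 hW
    obtain ⟨t, ht⟩ : ∃ t : ℤ, t = ε * N - 1 := ⟨_, rfl⟩
    have hWform : W = 1 + (Nat.card A : ℤ) * t := by
      rw [hW, ht]
      linear_combination (-((Nat.card A : ℤ) - 1)) * h2
    rcases lt_trichotomy t 0 with h | h | h
    · right; right; rw [hWform]; nlinarith
    · left; rw [hWform, h]; ring
    · right; left; rw [hWform]; nlinarith
  have hXtri : X = 1 ∨ 17 ≤ X ∨ X ≤ -15 := tri εp Np X hεp2 (by rw [hXdef, hdegpZ])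
  have hYtri : Y = 1 ∨ 17 ≤ Y ∨ Y ≤ -15 := tri εq Nq Y hεq2 (by rw [hYdef, hdegqZ])
  obtain ⟨hX1, hY1⟩ := dioph X Y hXtri hYtri hfin
  have hεp1 : εp = 1 := by
    rcases hεp with h | h
    · exact h
    · exfalso
      rw [hXdef, h] at hX1
      have := hdgZ p
      omega
  have hdp1 : (dg p : ℤ) = 1 := by
    rw [hXdef, hεp1, one_mul] at hX1
    exact hX1
  refine ⟨p, by rw [← ho]; exact hpo, ?_⟩
  intro x
  by_cases hx : x = 1
  · rw [hx, map_one]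
  · rw [hpval x hx, hdg p, hεp1]
    have h1 : (dg p : ℕ) = 1 := by exact_mod_cast hdp1
    rw [h1]
    norm_num

include hψ hP hτ hτ3 hfix hfus hnc hM hB in
/-- `P` lies in a proper normal subgroup -/
theorem exists_proper_normal (a u : A) (ha1 : a ≠ 1) (ha : a * a = 1) (hu : u * u ≠ 1)
    (hu4 : orderOf (ψ u) = 4) (hcard : 16 ≤ Nat.card A) :
    ∃ K : Subgroup G, K.Normal ∧ K ≠ ⊤ ∧ (P : Subgroup G) ≤ K := by
  obtain ⟨ξ, hξ1, hξ2⟩ := exists_linear P ψ hψ hP τ n hτ hτ3 hfix hfus hnc M hM B hB a u ha1 ha hu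
    hu4 hcard
  refine ⟨Cfsg.Agent.H82.irrKer ξ, inferInstance, ?_, ?_⟩
  · intro h
    apply hξ1
    apply Subtype.ext
    rw [Cfsg.Agent.H82.irr_eq_one_of_irrKer_eq_top ξ h]
    funext g
    rw [Cfsg.Agent.H80.trivChar_apply]
  · intro y hy
    rw [← hP] at hy
    obtain ⟨x, rfl⟩ := hy
    exact (Cfsg.Agent.H82.mem_irrKer ξ _).mpr (hξ2 x)

end Main

end Cfsg.Agent.H59.HC
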