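import Cfsg.Agent.H21.E2Setup

/-!
# Piece S0496-N760 (for helper21): no simple group of order 760

* `e2_setup'`: the conclusion of `Cfsg.Agent.H21.E2Block.e2_setup` from the Sylow data
  (`|P| = r`, `C(P) = P`, `|N(P) : C(P)| = 2`) alone (any simple group, any prime `r ≥ 5`).
* `no_simple_760`.
-/

set_option autoImplicit false
set_option linter.unusedSectionVars false
set_option linter.style.haveILetI false

namespace Cfsg.Agent.H59.Ord760

open Cfsg Cfsg.Agent.H21 Cfsg.Agent.H21.E2Block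

open scoped ComplexConjugate

/-- `e2_setup` with the Sylow data as hypotheses. -/
theorem e2_setup' {G : Type*} [Group G] [Finite G] [IsSimpleGroup G]
    (hna : ∃ u v : G, u * v ≠ v * u) (r : ℕ) [Fact r.Prime] (hr5 : 5 ≤ r)
    (M : Ideal AlgInt) (hM : IsPModular r M) (P : Sylow r G) (hP : Nat.card P = r)
    (hC : Subgroup.centralizer ((P : Subgroup G) : Set G) = (P : Subgroup G))
    (hN2 : (Subgroup.centralizer ((P : Subgroup G) : Set G)).relIndex
      (Subgroup.normalizer ((P : Subgroup G) : Set G)) = 2) :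
    ∃ (χ : IrrCharacter G) (Y : Set (IrrCharacter G)) (η₁ : IrrCharacter G) (x y : ℕ),
      principalBlock M G = {triv G, χ} ∪ Y ∧ χ ≠ triv G ∧ triv G ∉ Y ∧ χ ∉ Y ∧
      Y.ncard = (r - 1) / 2 ∧ η₁ ∈ Y ∧
      (∀ ψ : IrrCharacter G, ψ ∉ principalBlock M G → r ∣ charDegree (ψ : G → ℂ)) ∧
      (χ : G → ℂ) 1 = x ∧ (∀ η ∈ Y, (η : G → ℂ) 1 = y) ∧
      (∀ η ∈ Y, ∀ g : G, ¬ r ∣ orderOf g → (η : G → ℂ) g = (η₁ : G → ℂ) g) ∧
      x ∣ Nat.card G ∧ y ∣ Nat.card G ∧ 2 ≤ x ∧ x ^ 2 ≤ Nat.card G ∧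
      ((r ∣ x - 1 ∧ y = x + 1) ∨ (r ∣ x + 1 ∧ y + 1 = x)) := by
  classical
  have hr : r.Prime := Fact.out
  obtain ⟨χ, Y, a', ε, hB, hχne, h0Y, hχY, hYc, ha, hε, hχP, hrel⟩ :=
    e2_structure hna r hr5 M hM P hP hN2
  have hout := fun ψ hψ => outside_dvd r M hM P hP hC ψ hψ
  -- degrees
  obtain ⟨hx1, hxpos⟩ := Cfsg.Agent.H81.irr_charDegree χ
  have hxdvd := Cfsg.Agent.H81.irr_charDegree_dvd χ
  have hxsq := irr_degree_sq_le χ
  obtain ⟨x, hx⟩ : ∃ x : ℕ, x = charDegree (χ : G → ℂ) := ⟨_, rfl⟩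
  rw [← hx] at hx1 hxpos hxdvd hxsq
  have hxa : (r : ℤ) ∣ (x : ℤ) - a' := ResidueTrick.dvd_degree_sub_of_const
    (Cfsg.Agent.H4.isCharacter_of_isIrrCharacter χ.2) (P : Subgroup G) r hr hP x hx1 a' hχP
  have hx_ne1 : x ≠ 1 := by
    intro h
    have hdeg : (χ : G → ℂ) 1 = (r : ℂ) ^ 0 := by rw [hx1, h]; simp
    have := Cfsg.Agent.S0910.result r M hM hna χ (by rw [hB]; exact Or.inl (Or.inr rfl)) 0 hdeg
    exact hχne (Subtype.ext this)
  have hYn : Y.ncard = (r - 1) / 2 := by rw [← _root_.Nat.card_coe_set_eq, hYc]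
  obtain ⟨η₁, hη₁⟩ : Y.Nonempty := by
    rw [← Set.ncard_pos (Set.toFinite Y), hYn]; omega
  obtain ⟨hy1, hypos⟩ := Cfsg.Agent.H81.irr_charDegree η₁
  have hydvd := Cfsg.Agent.H81.irr_charDegree_dvd η₁
  obtain ⟨y, hy⟩ : ∃ y : ℕ, y = charDegree (η₁ : G → ℂ) := ⟨_, rfl⟩
  rw [← hy] at hy1 hypos hydvd
  have hreg1 : ¬ r ∣ orderOf (1 : G) := by rw [orderOf_one]; exact hr.not_dvd_one
  have hrel1 : ε * (y : ℤ) = 1 + a' * (x : ℤ) := by
    have h1 := hrel η₁ hη₁ 1 hreg1
    rw [hy1, hx1] at h1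
    exact_mod_cast h1
  have hεne : (ε : ℂ) ≠ 0 := by rcases hε with h | h <;> rw [h] <;> norm_num
  have hYeq : ∀ η ∈ Y, ∀ g : G, ¬ r ∣ orderOf g → (η : G → ℂ) g = (η₁ : G → ℂ) g := by
    intro η hη g hg
    have h1 := hrel η hη g hg
    have h2 := hrel η₁ hη₁ g hg
    exact mul_left_cancel₀ hεne (h1.trans h2.symm)
  refine ⟨χ, Y, η₁, x, y, hB, hχne, h0Y, hχY, hYn, hη₁, hout, hx1, ?_, hYeq, hxdvd, hydvd,
    by omega, hxsq, ?_⟩
  · intro η hη
    rw [hYeq η hη 1 hreg1, hy1]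
  · rcases ha with ha1 | ha1
    · left
      subst ha1
      rcases hε with hε1 | hε1
      · subst hε1
        refine ⟨?_, by omega⟩
        have h1 : (r : ℤ) ∣ ((x - 1 : ℕ) : ℤ) := by
          rw [Nat.cast_sub (by omega)]; exact_mod_cast hxa
        exact_mod_cast h1
      · subst hε1; exfalso; omega
    · right
      subst ha1
      rcases hε with hε1 | hε1
      · subst hε1; exfalso; omega
      · subst hε1
        refine ⟨?_, by omega⟩
        have h1 : (r : ℤ) ∣ ((x + 1 : ℕ) : ℤ) := by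
          push_cast
          have : (x : ℤ) - -1 = (x : ℤ) + 1 := by ring
          rw [← this]; exact hxa
        exact_mod_cast h1

/-- A subgroup of prime order is contained in its centralizer. -/
theorem le_centralizer_of_card_prime {G : Type*} [Group G] (P : Subgroup G) (p : ℕ)
    [Fact p.Prime] (hP : Nat.card P = p) : P ≤ Subgroup.centralizer (P : Set G) := by
  haveI : IsCyclic P := isCyclic_of_prime_card hP
  intro x hx
  rw [Subgroup.mem_centralizer_iff]
  intro y hy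
  have := (IsCyclic.commGroup (α := P)).mul_comm ⟨y, hy⟩ ⟨x, hx⟩
  exact congrArg Subtype.val this

/-- There is no simple group of order `760 = 2³ · 5 · 19`. -/
theorem no_simple_760 {G : Type*} [Group G] [Finite G] [IsSimpleGroup G]
    (h : Nat.card G = 760) : False := by
  classical
  have hnp : ¬ (Nat.card G).Prime := by rw [h]; norm_num
  have hG : ¬ IsMulCommutative G := not_comm_of_not_prime hnp
  have hna : ∃ u v : G, u * v ≠ v * u := by
    by_contra hcon
    push Not at hcon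
    exact hG ⟨⟨hcon⟩⟩
  haveI : Fact (Nat.Prime 19) := ⟨by norm_num⟩
  let P : Sylow 19 G := default
  obtain ⟨hPc, -, -, hdvd, hmod, hne1, -, hNn, -⟩ := simple_sylow_facts hG (p := 19)
    (k := 1) (m := 40) (by rw [h]; norm_num) (by norm_num) one_ne_zero P
  rw [pow_one] at hPc
  have hP : Nat.card P = 19 := hPc
  -- `n₁₉ = 20`
  have hn : Nat.card (Sylow 19 G) = 20 := by
    have hle : Nat.card (Sylow 19 G) ≤ 40 := Nat.le_of_dvd (by norm_num) hdvd
    generalize Nat.card (Sylow 19 G) = n at hdvd hmod hne1 hle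
    interval_cases n <;> omega
  have hN : Nat.card (Subgroup.normalizer ((P : Subgroup G) : Set G)) = 38 := by
    rw [hn, h] at hNn; omega
  obtain ⟨d, hd, hd1, hdr, -⟩ := simple_sylow_prime_card_NC hG P hPc
  have hcardN := card_centralizer_mul_relIndex_normalizer (P : Subgroup G)
  rw [← hd, hN] at hcardN
  have hPle := le_centralizer_of_card_prime (P : Subgroup G) 19 hPc
  have h19 : 19 ∣ Nat.card (Subgroup.centralizer ((P : Subgroup G) : Set G)) := by
    have h0 := Subgroup.card_dvd_of_le hPle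
    rw [hPc] at h0
    exact h0
  obtain ⟨c, hc⟩ := h19
  rw [hc] at hcardN
  have hcd : c * d = 2 := by
    have : 19 * (c * d) = 19 * 2 := by rw [← mul_assoc, hcardN]
    exact Nat.eq_of_mul_eq_mul_left (by norm_num) this
  have hd2 : d = 2 ∧ c = 1 := by
    have hdle : d ∣ 2 := ⟨c, by rw [mul_comm]; exact hcd.symm⟩
    have hd' : d ≤ 2 := Nat.le_of_dvd (by norm_num) hdle
    have hd0 : d ≠ 0 := by rintro rfl; simp at hcd
    have hd2 : d = 2 := by omega
    refine ⟨hd2, ?_⟩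
    rw [hd2] at hcd; omega
  have hCcard : Nat.card (Subgroup.centralizer ((P : Subgroup G) : Set G)) = 19 := by
    rw [hc, hd2.2]
  have hC : Subgroup.centralizer ((P : Subgroup G) : Set G) = (P : Subgroup G) :=
    (Subgroup.eq_of_le_of_card_ge hPle (by rw [hCcard, hPc])).symm
  have hN2 : (Subgroup.centralizer ((P : Subgroup G) : Set G)).relIndex
      (Subgroup.normalizer ((P : Subgroup G) : Set G)) = 2 := by rw [← hd, hd2.1]
  obtain ⟨M, hM⟩ := Cfsg.Agent.H78.exists_isPModular 19 (by norm_num)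
  obtain ⟨χ, Y, η₁, x, y, -, -, -, -, -, -, -, -, -, -, hxdvd, hydvd, hx2, hxsq, hxy⟩ :=
    e2_setup' hna 19 (by norm_num) M hM P hP hC hN2
  rw [h] at hxdvd hydvd hxsq
  have hx27 : x ≤ 27 := by nlinarith
  rcases hxy with ⟨h1, h2⟩ | ⟨h1, h2⟩
  · -- `19 ∣ x - 1`, `y = x + 1`
    subst h2
    interval_cases x <;> omega
  · -- `19 ∣ x + 1`
    interval_cases x <;> omega

end Cfsg.Agent.H59.Ord760
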