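import Mathlib
import Cfsg.Prelude.Def_Blocks
import Cfsg.Agent.H4.PaQb
import Cfsg.Agent.H4.Chars
import Cfsg.Agent.H82.Irr
import Cfsg.Agent.H82.IndDeg

/-!
# Character values in a group without proper normal subgroups and with trivial centre (helper59)

Preparations for `S4466` (all nonlinear irreducible characters of prime degree implies solvable).
-/

set_option autoImplicit false
set_option linter.unusedSectionVars false
set_option linter.style.haveILetI false

namespace Cfsg.Agent.H59.PD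

open Cfsg Cfsg.Agent.H4
open scoped ComplexConjugate

universe u

variable {G : Type u} [Group G] [Finite G]

/-- A nontrivial irreducible character never attains its degree in absolute value off `1`. -/
theorem norm_ne_deg (hsimple : ∀ N : Subgroup G, N.Normal → N = ⊥ ∨ N = ⊤)
    (hcenter : ∀ g : G, (∀ x : G, g * x = x * g) → g = 1)
    (χ : IrrCharacter G) (hχ : χ.1 ≠ fun _ => 1) (g : G) (hg : g ≠ 1) :
    ‖χ.1 g‖ ≠ (charDegree χ.1 : ℝ) := by
  obtain ⟨n, ρ, hirr, hρ, hn, h1, hdeg⟩ := Cfsg.Agent.H82.irr_rep χ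
  haveI := hirr
  intro hnorm
  have h2 : ‖ρ.character g‖ = (Module.finrank ℂ (Fin n → ℂ) : ℝ) := by
    rw [hρ, hnorm, hdeg]; simp
  obtain ⟨ω, hω⟩ := (character_norm_eq_iff ρ g).mp h2
  exact not_scalar_of_simple hsimple hcenter ρ (by rw [hρ]; exact hχ) g hg ω hω

theorem norm_lt_deg (hsimple : ∀ N : Subgroup G, N.Normal → N = ⊥ ∨ N = ⊤)
    (hcenter : ∀ g : G, (∀ x : G, g * x = x * g) → g = 1)
    (χ : IrrCharacter G) (hχ : χ.1 ≠ fun _ => 1) (g : G) (hg : g ≠ 1) :
    ‖χ.1 g‖ < (charDegree χ.1 : ℝ) := by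
  refine lt_of_le_of_ne ?_ (norm_ne_deg hsimple hcenter χ hχ g hg)
  obtain ⟨n, ρ, hirr, hρ, hn, h1, hdeg⟩ := Cfsg.Agent.H82.irr_rep χ
  have := character_norm_le ρ g
  rw [hρ] at this
  rw [hdeg]
  simpa using this

/-- Burnside: coprime degree and class size force a zero. -/
theorem eq_zero_of_coprime (hsimple : ∀ N : Subgroup G, N.Normal → N = ⊥ ∨ N = ⊤)
    (hcenter : ∀ g : G, (∀ x : G, g * x = x * g) → g = 1)
    (χ : IrrCharacter G) (hχ : χ.1 ≠ fun _ => 1) (g : G) (hg : g ≠ 1)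
    (hcop : Nat.Coprime (charDegree χ.1) (Subgroup.centralizer ({g} : Set G)).index) :
    χ.1 g = 0 := by
  obtain ⟨n, ρ, hirr, hρ, hn, h1, hdeg⟩ := Cfsg.Agent.H82.irr_rep χ
  haveI := hirr
  have hcop' : Nat.Coprime (Module.finrank ℂ (Fin n → ℂ))
      (Subgroup.centralizer ({g} : Set G)).index := by
    rw [Module.finrank_fin_fun, ← hdeg]; exact hcop
  rcases character_eq_zero_or_norm_eq_of_coprime ρ g hcop' with h0 | h0
  · rw [← hρ]; exact h0
  · exfalso
    apply norm_ne_deg hsimple hcenter χ hχ g hg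
    have h3 : ‖χ.1 g‖ = (Module.finrank ℂ (Fin n → ℂ) : ℝ) := by rw [← hρ]; exact h0
    rw [h3, hdeg]; simp

/-- A nontrivial irreducible character is not linear. -/
theorem deg_ne_one (hsimple : ∀ N : Subgroup G, N.Normal → N = ⊥ ∨ N = ⊤)
    (hcenter : ∀ g : G, (∀ x : G, g * x = x * g) → g = 1)
    (χ : IrrCharacter G) (hχ : χ.1 ≠ fun _ => 1) : charDegree χ.1 ≠ 1 := by
  intro hdeg1
  have h11 : χ.1 1 = 1 := by
    rw [Cfsg.Agent.H82.irr_one_eq_charDegree χ, hdeg1]; simp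
  by_cases hG : ∃ g : G, g ≠ 1
  · obtain ⟨g, hg⟩ := hG
    apply norm_ne_deg hsimple hcenter χ hχ g hg
    rw [hdeg1]
    have h := Cfsg.Agent.H82.irr_linear_mul χ h11 g g⁻¹
    rw [mul_inv_cancel, h11, Cfsg.Agent.H82.irr_inv χ g] at h
    have h2 : ‖χ.1 g‖ ^ 2 = 1 := by
      have h3 := Complex.mul_conj (χ.1 g)
      rw [← h] at h3
      have h4 : ((Complex.normSq (χ.1 g) : ℝ) : ℂ) = ((1 : ℝ) : ℂ) := by
        rw [← h3]; simp
      have h5 : Complex.normSq (χ.1 g) = 1 := by exact_mod_cast h4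
      rw [← Complex.normSq_eq_norm_sq, h5]
    have h6 : (0 : ℝ) ≤ ‖χ.1 g‖ := norm_nonneg _
    simp only [Nat.cast_one]
    nlinarith
  · push Not at hG
    apply hχ
    funext g
    rw [hG g, h11]

/-- The sum of a character over a subgroup is a natural multiple of the subgroup order. -/
theorem sum_subgroup (H : Subgroup G) [Fintype H] (χ : IrrCharacter G) :
    ∃ n : ℕ, ∑ h : H, χ.1 h = (n : ℂ) * (Nat.card H : ℂ) := by
  obtain ⟨n, hn⟩ := classInner_isCharacter_nat
    (isCharacter_restrict H (isCharacter_of_isIrrCharacter χ.2))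
    (isCharacter_of_isIrrCharacter (isIrrCharacter_one (G := H)))
  refine ⟨n, ?_⟩
  unfold classInner at hn
  have hH : (Nat.card H : ℂ) ≠ 0 := by
    have : 0 < Nat.card H := Nat.card_pos
    exact_mod_cast this.ne'
  simp only [map_one, mul_one] at hn
  rw [← hn]
  field_simp

/-- Pure arithmetic behind the key lemma. -/
theorem key_arith (p q n : ℕ) (z : ℤ) (hp : p.Prime) (hq : q.Prime) (hle : q ≤ p)
    (h1 : (q : ℤ) + ((p : ℤ) - 1) * z = n * p) (h2 : |z| < q) :
    z = 0 ∨ (p = 3 ∧ q = 2 ∧ z = -1) := by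
  have hp2 : (2 : ℤ) ≤ p := by exact_mod_cast hp.two_le
  have hq2 : (2 : ℤ) ≤ q := by exact_mod_cast hq.two_le
  have hle' : (q : ℤ) ≤ p := by exact_mod_cast hle
  have hz := abs_lt.mp h2
  have hk : (p : ℤ) * ((n : ℤ) - z) = q - z := by linarith
  have hk1 : (n : ℤ) - z = 1 := by
    have hpos : 0 < (p : ℤ) * ((n : ℤ) - z) := by rw [hk]; linarith
    have hlt : (p : ℤ) * ((n : ℤ) - z) < p * 2 := by rw [hk]; linarith
    have hppos : (0 : ℤ) < p := by linarith
    have ha : 0 < (n : ℤ) - z := (mul_pos_iff_of_pos_left hppos).mp hpos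
    have hb : (n : ℤ) - z < 2 := lt_of_mul_lt_mul_left hlt hppos.le
    omega
  rw [hk1, mul_one] at hk
  have hn0 : (0 : ℤ) ≤ n := Int.natCast_nonneg n
  have hz1 : -1 ≤ z := by linarith
  have hz0 : z ≤ 0 := by linarith
  rcases (show z = 0 ∨ z = -1 by omega) with h | h
  · left; exact h
  · right
    have hpq : p = q + 1 := by
      have : (p : ℤ) = q + 1 := by rw [h] at hk; linarith
      exact_mod_cast this
    rcases hq.eq_two_or_odd with h2 | hodd
    · exact ⟨by omega, h2, h⟩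
    · exfalso
      rcases hp.eq_two_or_odd with h2 | hodd'
      · omega
      · omega

/-- Key lemma: a nontrivial irreducible character of prime degree `q ≤ p` which is constant on
the nonidentity elements of a subgroup of order `p` vanishes there, unless `p = 3`, `q = 2` and
the value is `-1`. -/
theorem key_K (hsimple : ∀ N : Subgroup G, N.Normal → N = ⊥ ∨ N = ⊤)
    (hcenter : ∀ g : G, (∀ x : G, g * x = x * g) → g = 1)
    (χ : IrrCharacter G) (hχ : χ.1 ≠ fun _ => 1) (p : ℕ) (hp : p.Prime) (P : Subgroup G)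
    (hP : Nat.card P = p) (hq : (charDegree χ.1).Prime) (hle : charDegree χ.1 ≤ p) (c : ℂ)
    (hc : ∀ y ∈ P, y ≠ 1 → χ.1 y = c) :
    c = 0 ∨ (p = 3 ∧ charDegree χ.1 = 2 ∧ c = -1) := by
  classical
  haveI : Fintype P := Fintype.ofFinite P
  obtain ⟨n, hn⟩ := sum_subgroup P χ
  have hsum : ∑ h : P, χ.1 h = (charDegree χ.1 : ℂ) + ((p : ℂ) - 1) * c := by
    rw [← Finset.add_sum_erase Finset.univ _ (Finset.mem_univ (1 : P))]
    have h1 : χ.1 ((1 : P) : G) = (charDegree χ.1 : ℂ) := by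
      rw [OneMemClass.coe_one]; exact Cfsg.Agent.H82.irr_one_eq_charDegree χ
    rw [h1]
    congr 1
    have hcongr : ∀ h ∈ Finset.univ.erase (1 : P), χ.1 (h : G) = c := fun h hh =>
      hc h h.2 (fun h1 => (Finset.ne_of_mem_erase hh) (Subtype.ext h1))
    rw [Finset.sum_congr rfl hcongr]
    rw [Finset.sum_const, Finset.card_erase_of_mem (Finset.mem_univ _), Finset.card_univ,
      ← Nat.card_eq_fintype_card, hP, nsmul_eq_mul, Nat.cast_sub hp.one_lt.le]
    simp
  obtain ⟨y₀, hy₀P, hy₀⟩ : ∃ y ∈ P, y ≠ 1 := by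
    have h1 : 1 < Nat.card P := hP ▸ hp.one_lt
    haveI : Nontrivial P := Finite.one_lt_card_iff_nontrivial.mp h1
    obtain ⟨y, hy⟩ := exists_ne (1 : P)
    exact ⟨y, y.2, fun h => hy (Subtype.ext h)⟩
  have hcy : χ.1 y₀ = c := hc y₀ hy₀P hy₀
  have hint : IsIntegral ℤ c := hcy ▸ Cfsg.Agent.H82.irr_isIntegral χ y₀
  have hnorm : ‖c‖ < (charDegree χ.1 : ℝ) := hcy ▸ norm_lt_deg hsimple hcenter χ hχ y₀ hy₀
  have hp1 : ((p : ℂ) - 1) ≠ 0 := by
    have : (1 : ℝ) < p := by exact_mod_cast hp.one_lt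
    intro h0
    have h2 : (p : ℂ) = 1 := by linear_combination h0
    have h3 : (p : ℝ) = 1 := by exact_mod_cast h2
    linarith
  have hceq : c = (((n * p - charDegree χ.1) / (p - 1) : ℚ) : ℂ) := by
    push_cast
    rw [eq_div_iff hp1]
    rw [hsum, hP] at hn
    linear_combination hn
  rw [hceq] at hint
  obtain ⟨z, hz⟩ := exists_int_of_isIntegral_ratCast _ hint
  have hcz : c = (z : ℂ) := by
    rw [hceq, ← hz]; simp
  have h1 : (charDegree χ.1 : ℤ) + ((p : ℤ) - 1) * z = n * p := by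
    rw [hsum, hP, hcz] at hn
    exact_mod_cast hn
  have h2 : |z| < (charDegree χ.1 : ℤ) := by
    rw [hcz, Complex.norm_intCast] at hnorm
    exact_mod_cast hnorm
  rcases key_arith p (charDegree χ.1) n z hp hq hle h1 h2 with h | ⟨h3, h4, h5⟩
  · left; rw [hcz, h]; simp
  · right; exact ⟨h3, h4, by rw [hcz, h5]; simp⟩

end Cfsg.Agent.H59.PD
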