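import Mathlib
import Cfsg.Prelude.Def_Blocks
import Cfsg.Agent.H59.PrimeDegA
import Cfsg.Agent.H79.Schur
import Cfsg.Agent.H83.MinNormal

/-!
# The Sylow `p`-subgroup for a character of prime degree `p` in a simple group (helper59)
-/

set_option autoImplicit false
set_option linter.unusedSectionVars false
set_option linter.style.haveILetI false

namespace Cfsg.Agent.H59.PD

open Cfsg Cfsg.Agent.H4
open scoped ComplexConjugate commutatorElement

universe u

variable {G : Type u} [Group G] [Finite G]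

/-- If a character vanishes off `1` on a subgroup, the subgroup order divides the degree. -/
theorem card_dvd_of_vanish (H : Subgroup G) (χ : IrrCharacter G)
    (hvan : ∀ t ∈ H, t ≠ 1 → χ.1 t = 0) : Nat.card H ∣ charDegree χ.1 := by
  classical
  haveI : Fintype H := Fintype.ofFinite _
  obtain ⟨n, hn⟩ := sum_subgroup H χ
  have hsum : ∑ h : H, χ.1 h = (charDegree χ.1 : ℂ) := by
    rw [Finset.sum_eq_single (1 : H)]
    · rw [OneMemClass.coe_one, Cfsg.Agent.H82.irr_one_eq_charDegree χ]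
    · intro b _ hb; exact hvan b b.2 (fun h => hb (Subtype.ext h))
    · intro h; exact absurd (Finset.mem_univ _) h
  rw [hsum] at hn
  have hn' : charDegree χ.1 = n * Nat.card H := by exact_mod_cast hn
  exact ⟨n, by rw [hn', mul_comm]⟩

/-- A nontrivial character of degree `p` vanishes at elements centralized by a Sylow
`p`-subgroup. -/
theorem vanish_of_sylow_le (hsimple : ∀ N : Subgroup G, N.Normal → N = ⊥ ∨ N = ⊤)
    (hcenter : ∀ g : G, (∀ x : G, g * x = x * g) → g = 1)
    (χ : IrrCharacter G) (hχ : χ.1 ≠ fun _ => 1) (p : ℕ) [hp : Fact p.Prime]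
    (hdeg : charDegree χ.1 = p) (P : Sylow p G) (t : G) (ht : t ≠ 1)
    (hle : (P : Subgroup G) ≤ Subgroup.centralizer ({t} : Set G)) : χ.1 t = 0 := by
  apply eq_zero_of_coprime hsimple hcenter χ hχ t ht
  rw [hdeg, Nat.Prime.coprime_iff_not_dvd hp.out]
  intro h
  exact P.not_dvd_index (h.trans (Subgroup.index_dvd_of_le hle))

/-- The Sylow `p`-subgroup is abelian. -/
theorem sylow_comm (hsimple : ∀ N : Subgroup G, N.Normal → N = ⊥ ∨ N = ⊤)
    (hcenter : ∀ g : G, (∀ x : G, g * x = x * g) → g = 1)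
    (χ : IrrCharacter G) (hχ : χ.1 ≠ fun _ => 1) (p : ℕ) [hp : Fact p.Prime]
    (hdeg : charDegree χ.1 = p) (P : Sylow p G) :
    ∀ a b : (P : Subgroup G), a * b = b * a := by
  classical
  haveI : Fintype (P : Subgroup G) := Fintype.ofFinite _
  letI := fintypeIrr (P : Subgroup G)
  obtain ⟨m, hm⟩ := (isCharacter_iff).mp
    (isCharacter_restrict (P : Subgroup G) (isCharacter_of_isIrrCharacter χ.2))
  rw [finsum_irr_eq_sum] at hm
  have hval : ∀ x : (P : Subgroup G),
      χ.1 x = ∑ ψ : IrrCharacter (P : Subgroup G), (m ψ : ℂ) * ψ.1 x := by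
    intro x
    have := congrFun hm x
    simpa [Finset.sum_apply] using this
  have hdegsum : p = ∑ ψ : IrrCharacter (P : Subgroup G), m ψ * charDegree ψ.1 := by
    have h1 := hval 1
    rw [OneMemClass.coe_one, Cfsg.Agent.H82.irr_one_eq_charDegree χ, hdeg] at h1
    have h2 : (p : ℂ) = ((∑ ψ : IrrCharacter (P : Subgroup G), m ψ * charDegree ψ.1 : ℕ) : ℂ) := by
      rw [h1]; push_cast
      refine Finset.sum_congr rfl fun ψ _ => ?_
      rw [Cfsg.Agent.H82.irr_one_eq_charDegree ψ]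
    exact_mod_cast h2
  have hpow : ∀ ψ : IrrCharacter (P : Subgroup G), charDegree ψ.1 = 1 ∨ p ∣ charDegree ψ.1 := by
    intro ψ
    have hd := Cfsg.Agent.H82.charDegree_dvd_card ψ
    obtain ⟨k, hk⟩ := P.2.exists_card_eq
    rw [hk] at hd
    obtain ⟨j, -, hj⟩ := (Nat.dvd_prime_pow hp.out).mp hd
    rcases Nat.eq_zero_or_pos j with h0 | h0
    · left; rw [hj, h0, pow_zero]
    · right; rw [hj]; exact dvd_pow_self p h0.ne'
  by_cases hA : ∃ ψ₀ : IrrCharacter (P : Subgroup G), m ψ₀ ≠ 0 ∧ charDegree ψ₀.1 ≠ 1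
  · exfalso
    obtain ⟨ψ₀, hm0, hd0⟩ := hA
    have hpd : p ∣ charDegree ψ₀.1 := (hpow ψ₀).resolve_left hd0
    rw [← Finset.add_sum_erase Finset.univ _ (Finset.mem_univ ψ₀)] at hdegsum
    have hge : p ≤ charDegree ψ₀.1 := Nat.le_of_dvd (Cfsg.Agent.H82.charDegree_pos ψ₀) hpd
    have hm1 : m ψ₀ = 1 ∧ charDegree ψ₀.1 = p ∧
        ∑ ψ ∈ Finset.univ.erase ψ₀, m ψ * charDegree ψ.1 = 0 := by
      have h2 : 1 ≤ m ψ₀ := Nat.pos_of_ne_zero hm0
      have h3 : charDegree ψ₀.1 ≤ m ψ₀ * charDegree ψ₀.1 := Nat.le_mul_of_pos_left _ h2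
      have h4 : m ψ₀ * charDegree ψ₀.1 = p := by omega
      have h5 : charDegree ψ₀.1 = p := by omega
      refine ⟨?_, h5, by omega⟩
      rw [h5] at h4
      exact Nat.eq_of_mul_eq_mul_right hp.out.pos (by rw [h4, one_mul])
    obtain ⟨hm1, hd1, hrest⟩ := hm1
    have hother : ∀ ψ ∈ Finset.univ.erase ψ₀, m ψ = 0 := by
      intro ψ hψ
      have := (Finset.sum_eq_zero_iff.mp hrest) ψ hψ
      rcases Nat.mul_eq_zero.mp this with h | h
      · exact h
      · exact absurd h (Cfsg.Agent.H82.charDegree_pos ψ).ne'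
    have hres : ∀ x : (P : Subgroup G), χ.1 x = ψ₀.1 x := by
      intro x
      rw [hval x, ← Finset.add_sum_erase Finset.univ _ (Finset.mem_univ ψ₀), hm1]
      rw [Finset.sum_eq_zero (fun ψ hψ => by rw [hother ψ hψ]; simp)]
      simp
    have hPne : (P : Subgroup G) ≠ ⊥ :=
      P.ne_bot_of_dvd_card (hdeg ▸ Cfsg.Agent.H82.charDegree_dvd_card χ)
    haveI : Nontrivial (P : Subgroup G) := (Subgroup.nontrivial_iff_ne_bot _).mpr hPne
    haveI := IsPGroup.center_nontrivial (P.isPGroup')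
    obtain ⟨⟨z, hz⟩, hz1⟩ := exists_ne (1 : Subgroup.center (P : Subgroup G))
    obtain ⟨n', σ, hσirr, hσ, -, -, hσdeg⟩ := Cfsg.Agent.H82.irr_rep ψ₀
    haveI := hσirr
    obtain ⟨cc, hcc⟩ := Cfsg.Agent.H79.exists_scalar_of_mem_center σ z hz
    have hnorm : ‖σ.character z‖ = (Module.finrank ℂ (Fin n' → ℂ) : ℝ) :=
      (character_norm_eq_iff σ z).mpr ⟨cc, hcc⟩
    have hzne : (z : G) ≠ 1 := by
      intro h
      apply hz1
      apply Subtype.ext
      apply Subtype.ext
      exact h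
    apply norm_ne_deg hsimple hcenter χ hχ (z : G) hzne
    rw [hres z, ← hσ, hnorm, hdeg, ← hd1, hσdeg]; simp
  · push Not at hA
    intro a b
    have hc : ⁅a, b⁆ ∈ commutator (P : Subgroup G) :=
      Subgroup.commutator_mem_commutator (Subgroup.mem_top a) (Subgroup.mem_top b)
    have hval1 : χ.1 ((⁅a, b⁆ : (P : Subgroup G)) : G) = χ.1 1 := by
      have h1 := hval 1
      rw [OneMemClass.coe_one] at h1
      rw [hval ⁅a, b⁆, h1]
      refine Finset.sum_congr rfl fun ψ _ => ?_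
      by_cases h0 : m ψ = 0
      · rw [h0]; simp
      · have hlin : ψ.1 1 = 1 := by
          rw [Cfsg.Agent.H82.irr_one_eq_charDegree ψ, hA ψ h0]; simp
        rw [Cfsg.Agent.H83.linear_eq_one_of_mem_commutator ψ hlin hc, hlin]
    by_contra hab
    have hne : ((⁅a, b⁆ : (P : Subgroup G)) : G) ≠ 1 := by
      intro h
      apply hab
      have h2 : ⁅a, b⁆ = 1 := Subtype.ext h
      exact commutatorElement_eq_one_iff_mul_comm.mp h2
    apply norm_ne_deg hsimple hcenter χ hχ _ hne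
    rw [hval1, Cfsg.Agent.H82.irr_one_eq_charDegree χ]; simp

theorem sylow_le_centralizer (hsimple : ∀ N : Subgroup G, N.Normal → N = ⊥ ∨ N = ⊤)
    (hcenter : ∀ g : G, (∀ x : G, g * x = x * g) → g = 1)
    (χ : IrrCharacter G) (hχ : χ.1 ≠ fun _ => 1) (p : ℕ) [hp : Fact p.Prime]
    (hdeg : charDegree χ.1 = p) (P : Sylow p G) (y : G) (hy : y ∈ (P : Subgroup G)) :
    (P : Subgroup G) ≤ Subgroup.centralizer ({y} : Set G) := by
  intro x hx
  rw [Subgroup.mem_centralizer_iff]
  intro h hh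
  rw [Set.mem_singleton_iff] at hh
  subst hh
  have := sylow_comm hsimple hcenter χ hχ p hdeg P ⟨h, hy⟩ ⟨x, hx⟩
  exact congrArg Subtype.val this

/-- The Sylow `p`-subgroup has order `p`. -/
theorem sylow_card (hsimple : ∀ N : Subgroup G, N.Normal → N = ⊥ ∨ N = ⊤)
    (hcenter : ∀ g : G, (∀ x : G, g * x = x * g) → g = 1)
    (χ : IrrCharacter G) (hχ : χ.1 ≠ fun _ => 1) (p : ℕ) [hp : Fact p.Prime]
    (hdeg : charDegree χ.1 = p) (P : Sylow p G) : Nat.card (P : Subgroup G) = p := by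
  have hvan : ∀ y ∈ (P : Subgroup G), y ≠ 1 → χ.1 y = 0 := fun y hy hy1 =>
    vanish_of_sylow_le hsimple hcenter χ hχ p hdeg P y hy1
      (sylow_le_centralizer hsimple hcenter χ hχ p hdeg P y hy)
  have hdvd := card_dvd_of_vanish (P : Subgroup G) χ hvan
  rw [hdeg] at hdvd
  rcases (Nat.dvd_prime hp.out).mp hdvd with h | h
  · exfalso
    have hPne : (P : Subgroup G) ≠ ⊥ :=
      P.ne_bot_of_dvd_card (hdeg ▸ Cfsg.Agent.H82.charDegree_dvd_card χ)
    exact hPne (Subgroup.card_eq_one.mp h)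
  · exact h

/-- The Sylow `p`-subgroup is generated by each of its nonidentity elements. -/
theorem sylow_eq_zpowers (hsimple : ∀ N : Subgroup G, N.Normal → N = ⊥ ∨ N = ⊤)
    (hcenter : ∀ g : G, (∀ x : G, g * x = x * g) → g = 1)
    (χ : IrrCharacter G) (hχ : χ.1 ≠ fun _ => 1) (p : ℕ) [hp : Fact p.Prime]
    (hdeg : charDegree χ.1 = p) (P : Sylow p G) (y : G) (hy : y ∈ (P : Subgroup G))
    (hy1 : y ≠ 1) : Subgroup.zpowers y = (P : Subgroup G) := by
  have hcard := sylow_card hsimple hcenter χ hχ p hdeg P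
  have hle : Subgroup.zpowers y ≤ (P : Subgroup G) := (Subgroup.zpowers_le).mpr hy
  apply Subgroup.eq_of_le_of_card_ge hle
  rw [hcard, Nat.card_zpowers]
  have h1 : orderOf y ∣ p := by
    have h2 : orderOf (⟨y, hy⟩ : (P : Subgroup G)) ∣ Nat.card (P : Subgroup G) :=
      orderOf_dvd_natCard _
    rw [hcard, Subgroup.orderOf_mk] at h2
    exact h2
  rcases (Nat.dvd_prime hp.out).mp h1 with h | h
  · exact absurd (orderOf_eq_one_iff.mp h) hy1
  · exact h.ge

/-- Nonidentity elements of the Sylow `p`-subgroup are self-centralizing. -/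
theorem centralizer_eq (hsimple : ∀ N : Subgroup G, N.Normal → N = ⊥ ∨ N = ⊤)
    (hcenter : ∀ g : G, (∀ x : G, g * x = x * g) → g = 1)
    (χ : IrrCharacter G) (hχ : χ.1 ≠ fun _ => 1) (p : ℕ) [hp : Fact p.Prime]
    (hdeg : charDegree χ.1 = p) (P : Sylow p G) (y : G) (hy : y ∈ (P : Subgroup G))
    (hy1 : y ≠ 1) : Subgroup.centralizer ({y} : Set G) = (P : Subgroup G) := by
  classical
  have hle := sylow_le_centralizer hsimple hcenter χ hχ p hdeg P y hy
  have hzp := sylow_eq_zpowers hsimple hcenter χ hχ p hdeg P y hy hy1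
  set C := Subgroup.centralizer ({y} : Set G) with hC
  have hprime : ∀ {r : ℕ}, r.Prime → r ∣ Nat.card C → r = p := by
    intro r hr hrd
    haveI : Fact r.Prime := ⟨hr⟩
    obtain ⟨x, hx⟩ := exists_prime_orderOf_dvd_card' r hrd
    have hxy : Commute (x : G) y := by
      have h2 : (x : G) ∈ Subgroup.centralizer ({y} : Set G) := x.2
      rw [Subgroup.mem_centralizer_iff] at h2
      exact (h2 y rfl).symm
    have hvan : ∀ t ∈ Subgroup.zpowers (x : G), t ≠ 1 → χ.1 t = 0 := by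
      intro t ht ht1
      apply vanish_of_sylow_le hsimple hcenter χ hχ p hdeg P t ht1
      rw [← hzp, Subgroup.zpowers_le, Subgroup.mem_centralizer_iff]
      intro h hh
      rw [Set.mem_singleton_iff] at hh
      subst hh
      obtain ⟨k, rfl⟩ := Subgroup.mem_zpowers_iff.mp ht
      exact (hxy.zpow_left k).eq
    have hdvd := card_dvd_of_vanish (Subgroup.zpowers (x : G)) χ hvan
    rw [hdeg, Nat.card_zpowers, Subgroup.orderOf_coe, hx] at hdvd
    exact (Nat.prime_dvd_prime_iff_eq hr hp.out).mp hdvd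
  have hpow := Nat.eq_prime_pow_of_unique_prime_dvd (Nat.card_pos (α := C)).ne' hprime
  have hpg : IsPGroup p C := IsPGroup.of_card hpow
  exact P.3 hpg hle

/-- The Sylow `p`-subgroup is its own centralizer. -/
theorem centralizer_sylow (hsimple : ∀ N : Subgroup G, N.Normal → N = ⊥ ∨ N = ⊤)
    (hcenter : ∀ g : G, (∀ x : G, g * x = x * g) → g = 1)
    (χ : IrrCharacter G) (hχ : χ.1 ≠ fun _ => 1) (p : ℕ) [hp : Fact p.Prime]
    (hdeg : charDegree χ.1 = p) (P : Sylow p G) :
    Subgroup.centralizer ((P : Subgroup G) : Set G) = (P : Subgroup G) := by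
  have hcard := sylow_card hsimple hcenter χ hχ p hdeg P
  have h1 : 1 < Nat.card (P : Subgroup G) := by rw [hcard]; exact hp.out.one_lt
  haveI : Nontrivial (P : Subgroup G) := Finite.one_lt_card_iff_nontrivial.mp h1
  obtain ⟨y, hy⟩ := exists_ne (1 : (P : Subgroup G))
  have hy1 : (y : G) ≠ 1 := fun h => hy (Subtype.ext h)
  apply le_antisymm
  · exact le_trans (Subgroup.centralizer_le (Set.singleton_subset_iff.mpr y.2))
      (le_of_eq (centralizer_eq hsimple hcenter χ hχ p hdeg P y y.2 hy1))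
  · intro x hx
    rw [Subgroup.mem_centralizer_iff]
    intro h hh
    have := sylow_comm hsimple hcenter χ hχ p hdeg P ⟨h, hh⟩ ⟨x, hx⟩
    exact congrArg Subtype.val this

end Cfsg.Agent.H59.PD
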