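import Mathlib
import Cfsg.Prelude.Def_Blocks
import Cfsg.Agent.H59.PrimeDegB

/-!
# The normalizer of a self-centralizing subgroup of prime order (helper59)
-/

set_option autoImplicit false
set_option linter.unusedSectionVars false
set_option linter.style.haveILetI false

namespace Cfsg.Agent.H59.PD

open Cfsg Cfsg.Agent.H4
open scoped ComplexConjugate

universe u

variable {G : Type u} [Group G] [Finite G]

/-- `N(P)/C(P)` is cyclic when `P` has prime order. -/
theorem exists_gen_normalizer (P : Subgroup G) (p : ℕ) [hp : Fact p.Prime]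
    (hcard : Nat.card P = p) :
    ∃ g : G, g ∈ Subgroup.normalizer (P : Set G) ∧
      Subgroup.centralizer (P : Set G) ⊔ Subgroup.zpowers g = Subgroup.normalizer (P : Set G) := by
  haveI : IsCyclic P := isCyclic_of_prime_card hcard
  haveI : Fact (Nat.card P).Prime := ⟨by rw [hcard]; exact hp.out⟩
  haveI : IsCyclic (MulAut P) :=
    isCyclic_of_surjective (IsCyclic.mulAutMulEquiv P).symm (MulEquiv.surjective _)
  haveI : IsCyclic (Subgroup.normalizerMonoidHom P).range := Subgroup.isCyclic _
  obtain ⟨⟨u, hu⟩, hgen⟩ := IsCyclic.exists_generator (α := (Subgroup.normalizerMonoidHom P).range)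
  obtain ⟨n₀, hn₀⟩ := hu
  refine ⟨n₀, n₀.2, le_antisymm ?_ ?_⟩
  · exact sup_le (Subgroup.centralizer_le_normalizer _) ((Subgroup.zpowers_le).mpr n₀.2)
  · intro x hx
    have h1 := hgen ⟨Subgroup.normalizerMonoidHom P ⟨x, hx⟩, ⟨⟨x, hx⟩, rfl⟩⟩
    obtain ⟨k, hk⟩ := Subgroup.mem_zpowers_iff.mp h1
    have hk' : (Subgroup.normalizerMonoidHom P n₀) ^ k = Subgroup.normalizerMonoidHom P ⟨x, hx⟩ := by
      have := congrArg Subtype.val hk
      simp only [Subgroup.coe_zpow] at this
      rw [← this, hn₀]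
    have hker : (n₀ ^ k)⁻¹ * ⟨x, hx⟩ ∈ (Subgroup.normalizerMonoidHom P).ker := by
      rw [MonoidHom.mem_ker, map_mul, map_inv, map_zpow, hk', inv_mul_cancel]
    rw [Subgroup.normalizerMonoidHom_ker, Subgroup.mem_subgroupOf] at hker
    have hx' : x = (n₀ : G) ^ k * (((n₀ ^ k)⁻¹ * ⟨x, hx⟩ : Subgroup.normalizer (P : Set G)) : G) := by
      simp
    rw [hx', sup_comm]
    exact Subgroup.mul_mem_sup (Subgroup.zpow_mem_zpowers _ k) hker

/-- Orbit counting for the action of `N(P)` on `P`, `P` self-centralizing of prime order. -/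
theorem orbit_count (P : Subgroup G) (p : ℕ) [hp : Fact p.Prime] (hcard : Nat.card P = p)
    (hself : ∀ y ∈ P, y ≠ 1 → Subgroup.centralizer ({y} : Set G) = P)
    (hcent : Subgroup.centralizer (P : Set G) = P) (y₀ : G) (hy₀ : y₀ ∈ P) (hy₀1 : y₀ ≠ 1) :
    (Subgroup.centralizer (P : Set G)).relIndex (Subgroup.normalizer (P : Set G)) ≤ p - 1 ∧
    ((Subgroup.centralizer (P : Set G)).relIndex (Subgroup.normalizer (P : Set G)) = p - 1 →
      ∀ y ∈ P, y ≠ 1 → ∃ n : G, n * y₀ * n⁻¹ = y) := by
  classical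
  set N := Subgroup.normalizer (P : Set G) with hN
  have hstab : MulAction.stabilizer N (⟨y₀, hy₀⟩ : P) =
      (Subgroup.centralizer (P : Set G)).subgroupOf N := by
    ext n
    rw [MulAction.mem_stabilizer_iff, Subgroup.mem_subgroupOf]
    have hiff : (n : G) ∈ Subgroup.centralizer (P : Set G) ↔
        (n : G) ∈ Subgroup.centralizer ({y₀} : Set G) := by
      rw [hcent, hself y₀ hy₀ hy₀1]
    rw [hiff, Subgroup.mem_centralizer_iff]
    constructor
    · intro h
      have h2 : (n : G) * y₀ * (n : G)⁻¹ = y₀ := congrArg Subtype.val h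
      intro t ht
      rw [Set.mem_singleton_iff] at ht
      subst ht
      have := congrArg (fun z => z * (n : G)) h2
      simpa using this.symm
    · intro h
      apply Subtype.ext
      show (n : G) * y₀ * (n : G)⁻¹ = y₀
      rw [← h y₀ rfl]
      simp
  have hidx := MulAction.index_stabilizer N (⟨y₀, hy₀⟩ : P)
  rw [hstab] at hidx
  have hrel : (Subgroup.centralizer (P : Set G)).relIndex N =
      (MulAction.orbit N (⟨y₀, hy₀⟩ : P)).ncard := hidx
  have hsub : MulAction.orbit N (⟨y₀, hy₀⟩ : P) ⊆ ({1}ᶜ : Set P) := by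
    rintro y ⟨n, rfl⟩
    rw [Set.mem_compl_iff, Set.mem_singleton_iff]
    intro h
    have h2 : (n : G) * y₀ * (n : G)⁻¹ = 1 := congrArg Subtype.val h
    apply hy₀1
    have := congrArg (fun z => (n : G)⁻¹ * z * (n : G)) h2
    simpa [mul_assoc] using this
  have hcompl : ({1}ᶜ : Set P).ncard = p - 1 := by
    rw [Set.ncard_compl, Set.ncard_singleton, hcard]
  refine ⟨?_, ?_⟩
  · rw [hrel, ← hcompl]
    exact Set.ncard_le_ncard hsub (Set.toFinite _)
  · intro hm y hy hy1
    have heq : MulAction.orbit N (⟨y₀, hy₀⟩ : P) = ({1}ᶜ : Set P) := by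
      apply Set.eq_of_subset_of_ncard_le hsub _ (Set.toFinite _)
      rw [hcompl, ← hm, hrel]
    have hmem : (⟨y, hy⟩ : P) ∈ MulAction.orbit N (⟨y₀, hy₀⟩ : P) := by
      rw [heq, Set.mem_compl_iff, Set.mem_singleton_iff]
      intro h
      exact hy1 (congrArg Subtype.val h)
    obtain ⟨n, hn⟩ := hmem
    exact ⟨(n : G), congrArg Subtype.val hn⟩

/-- Burnside's transfer theorem excludes `N(P) = C(P)` for a Sylow subgroup of prime order in a
group without proper normal subgroups and trivial centre. -/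
theorem false_of_normalizer_le (hsimple : ∀ N : Subgroup G, N.Normal → N = ⊥ ∨ N = ⊤)
    (hcenter : ∀ g : G, (∀ x : G, g * x = x * g) → g = 1) (p : ℕ) [hp : Fact p.Prime]
    (P : Sylow p G) (hcard : Nat.card (P : Subgroup G) = p)
    (hNC : Subgroup.normalizer ((P : Subgroup G) : Set G) ≤
      Subgroup.centralizer ((P : Subgroup G) : Set G)) : False := by
  have hcomp := MonoidHom.ker_transferSylow_isComplement' P hNC
  have hmul := hcomp.card_mul_card
  rw [hcard] at hmul
  rcases hsimple (MonoidHom.transferSylow P hNC).ker inferInstance with hK | hK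
  · rw [hK, Subgroup.card_bot, one_mul] at hmul
    haveI : IsCyclic G := isCyclic_of_prime_card hmul.symm
    have h1 : 1 < Nat.card G := by rw [← hmul]; exact hp.out.one_lt
    haveI : Nontrivial G := Finite.one_lt_card_iff_nontrivial.mp h1
    obtain ⟨g, hg⟩ := exists_ne (1 : G)
    exact hg (hcenter g fun x => Std.Commutative.comm g x)
  · rw [hK, Subgroup.card_top] at hmul
    have h1 : 0 < Nat.card G := Nat.card_pos
    have h2 : p = 1 := by
      have : Nat.card G * p = Nat.card G * 1 := by rw [hmul, mul_one]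
      exact Nat.eq_of_mul_eq_mul_left h1 this
    exact hp.out.one_lt.ne' h2

end Cfsg.Agent.H59.PD
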